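import Cfsg.Agent.Lib.PushUp.Core

/-!
# The hypotheses of rank one pushing up and the lower bound `|A : A ∩ O_p(G)| ≤ |E : C_E(A)|`
-/

set_option autoImplicit false
set_option linter.unusedSectionVars false
set_option linter.style.haveILetI false
set_option linter.unusedVariables false
set_option linter.unusedSimpArgs false

namespace Cfsg.Agent.Lib.PushUp.Bound

open Subgroup Cfsg.Agent.Lib.Basic.PCore Cfsg.Agent.Lib.PushUp.Core
open scoped commutatorElement

variable {G : Type*} [Group G] [Finite G] {p : ℕ} [hp : Fact p.Prime]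

/-- The abstract hypotheses. -/
structure Hyp (S : Sylow p G) (M : Subgroup G) : Prop where
  cent : centralizer ((Cfsg.pCore p G : Subgroup G) : Set G) ≤ Cfsg.pCore p G
  coat : IsCoatom M
  le : (S : Subgroup G) ≤ M
  uniq : ∀ M' : Subgroup G, IsCoatom M' → (S : Subgroup G) ≤ M' → M' = M
  ti : ∀ g, g ∉ M → ∀ s ∈ (S : Subgroup G), g⁻¹ * s * g ∈ M → s ∈ Cfsg.pCore p G
  notle : ¬ (S : Subgroup G) ≤ Cfsg.pCore p G
  irr : ∀ D : Subgroup G, Cfsg.pCore p G ≤ D → D ≤ S →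
    (∀ n ∈ normalizer ((S : Subgroup G) : Set G), ∀ d ∈ D, n * d * n⁻¹ ∈ D) →
    D ≠ Cfsg.pCore p G → D = S

theorem le_of_ne_top' {S : Subgroup G} {M : Subgroup G}
    (uniq : ∀ M' : Subgroup G, IsCoatom M' → S ≤ M' → M' = M) {X : Subgroup G} (hS : S ≤ X)
    (hX : X ≠ ⊤) : X ≤ M := by
  rcases eq_top_or_exists_le_coatom X with h | ⟨M', hM', hle⟩
  · exact absurd h hX
  · rw [← uniq M' hM' (hS.trans hle)]
    exact hle

/-- `S ∩ X ⊴ G` for `X ⊴ G` with `XS ≠ G`. -/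
theorem inf_normal' {S : Sylow p G} {M : Subgroup G} (coat : IsCoatom M)
    (uniq : ∀ M' : Subgroup G, IsCoatom M' → (S : Subgroup G) ≤ M' → M' = M) (le : (S : Subgroup G) ≤ M)
    (X : Subgroup G) [hX : X.Normal] (hsup : X ⊔ S ≠ ⊤) :
    (((S : Subgroup G) ⊓ X : Subgroup G)).Normal := by
  obtain ⟨Q, hQ⟩ := Cfsg.Agent.Lib.Basic.SylowUtil.exists_sylow_inf_normal S X
  by_contra hnn
  have hXM : X ≤ M := (le_sup_left).trans (le_of_ne_top' uniq le_sup_right hsup)
  have hNne : normalizer ((((S : Subgroup G) ⊓ X : Subgroup G)) : Set G) ≠ ⊤ := by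
    intro h
    exact hnn (normalizer_eq_top_iff.1 h)
  have hSN : (S : Subgroup G) ≤ normalizer ((((S : Subgroup G) ⊓ X : Subgroup G)) : Set G) := by
    intro s hs
    rw [mem_normalizer_iff]
    intro x
    constructor
    · intro h
      obtain ⟨h1, h2⟩ := Subgroup.mem_inf.1 h
      exact Subgroup.mem_inf.2 ⟨(S : Subgroup G).mul_mem ((S : Subgroup G).mul_mem hs h1)
        ((S : Subgroup G).inv_mem hs), hX.conj_mem _ h2 s⟩
    · intro h
      obtain ⟨h1, h2⟩ := Subgroup.mem_inf.1 h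
      refine Subgroup.mem_inf.2 ⟨?_, ?_⟩
      · have := (S : Subgroup G).mul_mem ((S : Subgroup G).mul_mem ((S : Subgroup G).inv_mem hs) h1) hs
        simpa [mul_assoc] using this
      · have := hX.conj_mem _ h2 s⁻¹
        simpa [mul_assoc] using this
  have hNM := le_of_ne_top' uniq hSN hNne
  apply coat.1
  rw [eq_top_iff]
  intro g _
  obtain ⟨n, hn, h, hh, rfl⟩ := Cfsg.Agent.Lib.Basic.SylowUtil.frattini_argument' Q g
  rw [hQ] at hh
  exact mul_mem (hXM hn) (hNM hh)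

namespace Hyp

variable {S : Sylow p G} {M : Subgroup G} (H : Hyp S M)
include H

theorem le_of_ne_top {X : Subgroup G} (hS : (S : Subgroup G) ≤ X) (hX : X ≠ ⊤) : X ≤ M :=
  le_of_ne_top' H.uniq hS hX

theorem inf_normal (X : Subgroup G) [X.Normal] (hsup : X ⊔ S ≠ ⊤) :
    (((S : Subgroup G) ⊓ X : Subgroup G)).Normal :=
  inf_normal' H.coat H.uniq H.le X hsup

theorem inf_le_core (X : Subgroup G) [X.Normal] (hsup : X ⊔ S ≠ ⊤) :
    (S : Subgroup G) ⊓ X ≤ Cfsg.pCore p G :=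
  le_pCore (H.inf_normal X hsup) (S.isPGroup'.to_le inf_le_left)

theorem exists_not_mem : ∃ g, g ∉ M := by
  by_contra h
  push Not at h
  exact H.coat.1 (eq_top_iff.2 fun x _ => h x)

/-- `G = ⟨S^G⟩`. -/
theorem closure_eq_top : normalClosure ((S : Subgroup G) : Set G) = ⊤ := by
  by_contra hne
  have h1 : normalClosure ((S : Subgroup G) : Set G) ≤ M :=
    H.le_of_ne_top (subset_normalClosure) hne
  obtain ⟨s, hs, hsR⟩ := Set.not_subset.1 H.notle
  obtain ⟨g, hg⟩ := H.exists_not_mem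
  apply hsR
  refine H.ti g hg s hs (h1 ?_)
  have := normalClosure_normal.conj_mem s (subset_normalClosure hs) g⁻¹
  simpa using this

/-- A normal subgroup containing `S` is everything. -/
theorem eq_top_of_normal {X : Subgroup G} [hX : X.Normal] (hS : (S : Subgroup G) ≤ X) : X = ⊤ := by
  rw [eq_top_iff, ← H.closure_eq_top]
  exact normalClosure_le_normal hS

end Hyp

/-- Commutators with a `p`-group do not exhaust a section. -/
theorem le_of_le_sup_commutator (S : Subgroup G) (hS : IsPGroup p S) (D W : Subgroup G) [hD : D.Normal]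
    (hWS : W ≤ S) (hW : W ≤ D ⊔ ⁅S, W⁆) : W ≤ D := by
  haveI : Group.IsNilpotent S := hS.isNilpotent
  obtain ⟨c, hc⟩ := (Subgroup.isNilpotent_iff_lowerCentralSeries S).1 inferInstance
  have key : ∀ i, W ≤ D ⊔ S.lowerCentralSeries i := by
    intro i
    induction i with
    | zero => exact hWS.trans le_sup_right
    | succ i ih =>
      refine hW.trans (sup_le le_sup_left ?_)
      rw [Subgroup.commutator_le]
      intro s hs w hw
      have h1 := ih hw
      rw [mem_sup_of_normal_left] at h1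
      obtain ⟨d, hd, γ, hγ, rfl⟩ := h1
      have hcomm : ⁅γ, s⁆ ∈ S.lowerCentralSeries (i + 1) :=
        Subgroup.commutator_mem_commutator hγ hs
      have h2 : ⁅s, γ⁆ ∈ S.lowerCentralSeries (i + 1) := by
        have := inv_mem hcomm
        rwa [commutatorElement_inv] at this
      have h3 : ⁅s, d * γ⁆ = (s * d * s⁻¹) * ⁅s, γ⁆ * d⁻¹ := by
        simp only [commutatorElement_def]
        group
      rw [h3]
      exact mul_mem (mul_mem (mem_sup_left (hD.conj_mem d hd s)) (mem_sup_right h2))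
        (mem_sup_left (inv_mem hd))
  have h := key c
  rw [hc] at h
  simpa using h

/-- `{e ∈ E : [A, e] ≤ D}`. -/
def CC (E D A : Subgroup G) [hD : D.Normal] : Subgroup G where
  carrier := {e | e ∈ E ∧ ∀ a ∈ A, a * e * a⁻¹ * e⁻¹ ∈ D}
  mul_mem' := by
    rintro e f ⟨he, h1⟩ ⟨hf, h2⟩
    refine ⟨mul_mem he hf, fun a ha => ?_⟩
    have h3 := h1 a ha
    have h4 := hD.conj_mem _ (h2 a ha) e
    have : a * (e * f) * a⁻¹ * (e * f)⁻¹ = (a * e * a⁻¹ * e⁻¹) * (e * (a * f * a⁻¹ * f⁻¹) * e⁻¹) := by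
      group
    rw [this]
    exact mul_mem h3 h4
  one_mem' := ⟨one_mem _, fun a ha => by simp⟩
  inv_mem' := by
    rintro e ⟨he, h1⟩
    refine ⟨inv_mem he, fun a ha => ?_⟩
    have h3 := hD.conj_mem _ (inv_mem (h1 a ha)) e⁻¹
    have : a * e⁻¹ * a⁻¹ * e⁻¹⁻¹ = e⁻¹ * (a * e * a⁻¹ * e⁻¹)⁻¹ * e⁻¹⁻¹ := by group
    rw [this]
    exact h3

theorem mem_CC {E D A : Subgroup G} [hD : D.Normal] {e : G} :
    e ∈ CC E D A ↔ e ∈ E ∧ ∀ a ∈ A, a * e * a⁻¹ * e⁻¹ ∈ D := Iff.rfl

theorem CC_le (E D A : Subgroup G) [hD : D.Normal] : CC E D A ≤ E := fun _ h => h.1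

/-- Coprime action on a section is trivial when it stabilizes a chain. -/
theorem comm_triv_aux {Q : Type*} [Group Q] {X W C : Q} (h1 : X * W * X⁻¹ = C * W)
    (h2 : X * C * X⁻¹ = C) (n : ℕ) : X ^ n * W * (X ^ n)⁻¹ = C ^ n * W := by
  induction n with
  | zero => simp
  | succ n ih =>
    have h3 : X ^ (n + 1) * W * (X ^ (n + 1))⁻¹ = X * (X ^ n * W * (X ^ n)⁻¹) * X⁻¹ := by
      rw [pow_succ' X n]
      group
    have h4 : ∀ m : ℕ, X * C ^ m * X⁻¹ = C ^ m := by
      intro m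
      induction m with
      | zero => simp
      | succ m ihm =>
        calc X * C ^ (m + 1) * X⁻¹ = (X * C ^ m * X⁻¹) * (X * C * X⁻¹) := by
              rw [pow_succ]; group
          _ = C ^ (m + 1) := by rw [ihm, h2, pow_succ]
    rw [h3, ih]
    calc X * (C ^ n * W) * X⁻¹ = (X * C ^ n * X⁻¹) * (X * W * X⁻¹) := by group
      _ = C ^ (n + 1) * W := by rw [h4, h1, pow_succ]; group

theorem comm_triv {Q : Type*} [Group Q] {X W C : Q} (h1 : X * W * X⁻¹ = C * W)
    (h2 : X * C * X⁻¹ = C) {m : ℕ} (hm : X ^ m = 1) {k : ℕ} (hk : C ^ (p ^ k) = 1)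
    (hc : m.Coprime p) : C = 1 := by
  have h3 := comm_triv_aux h1 h2 m
  rw [hm] at h3
  simp only [one_mul, inv_one, mul_one] at h3
  have h4 : C ^ m = 1 := by
    have : C ^ m * W = 1 * W := by rw [one_mul]; exact h3.symm
    exact mul_right_cancel this
  have h5 : C ^ (m.gcd (p ^ k)) = 1 := pow_gcd_eq_one.2 ⟨h4, hk⟩
  have h6 : m.gcd (p ^ k) = 1 := Nat.Coprime.pow_right k hc
  rwa [h6, pow_one] at h5

theorem exists_char' {W : Type*} [Group W] [Finite W] (hc : ∀ a b : W, a * b = b * a)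
    (N : Subgroup W) (hN : N ≠ ⊤) : ∃ y : W →* ℂˣ, (∀ n ∈ N, y n = 1) ∧ ∃ w, y w ≠ 1 := by
  letI : CommGroup W := { ‹Group W› with mul_comm := hc }
  exact Cfsg.Agent.Lib.PushUp.Char.exists_char N hN

theorem card_le_index' {W : Type*} [Group W] [Finite W] (hc : ∀ a b : W, a * b = b * a)
    {I : Type*} (C : Subgroup W) (ι : I → (W →* ℂˣ))
    (hι : Function.Injective ι) (htriv : ∀ i, ∀ c ∈ C, ι i c = 1) : Nat.card I ≤ C.index := by
  letI : CommGroup W := { ‹Group W› with mul_comm := hc }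
  exact Cfsg.Agent.Lib.PushUp.Char.card_le_index C ι hι htriv

/-- The counting step. -/
theorem count_abstract {W : Type*} [Group W] [Finite W] (hc : ∀ a b : W, a * b = b * a)
    (act : G →* MulAut W) (y : W →* ℂˣ) (M R A : Subgroup G) [hR : R.Normal] (g₀ : G)
    (hyM : ∀ g, (∀ w, y (act g w) = y w) → g ∈ M)
    (hti : ∀ s ∈ A, g₀⁻¹ * s * g₀ ∈ M → s ∈ R)
    (C : Subgroup W) (hC : ∀ a ∈ A, ∀ c ∈ C, y (act g₀⁻¹ (act a c * c⁻¹)) = 1) :
    (R.subgroupOf A).index ≤ C.index := by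
  classical
  let y₁ : W →* ℂˣ := y.comp (act g₀⁻¹).toMonoidHom
  have hy₁ : ∀ w, y₁ w = y (act g₀⁻¹ w) := fun w => rfl
  let ψ : G → (W →* ℂˣ) := fun a => y₁.comp (act a).toMonoidHom * y₁⁻¹
  have hψ : ∀ a w, ψ a w = y₁ (act a w) * (y₁ w)⁻¹ := fun a w => rfl
  let ι : (A ⧸ R.subgroupOf A) → (W →* ℂˣ) := fun q => ψ ((q.out : A) : G)
  have hinj : Function.Injective ι := by
    intro q q' h
    set α : G := ((q.out : A) : G) with hα
    set β : G := ((q'.out : A) : G) with hβ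
    have hαA : α ∈ A := (q.out : A).2
    have hβA : β ∈ A := (q'.out : A).2
    have h1 : ∀ w, y₁ (act α w) = y₁ (act β w) := by
      intro w
      have h2 : ψ α w = ψ β w := DFunLike.congr_fun h w
      rw [hψ, hψ] at h2
      exact mul_right_cancel h2
    have h3 : α * β⁻¹ ∈ R := by
      apply hti _ (A.mul_mem hαA (A.inv_mem hβA))
      apply hyM
      intro w
      have h4 := h1 (act β⁻¹ (act g₀ w))
      have e1 : act α (act β⁻¹ (act g₀ w)) = act (α * β⁻¹ * g₀) w := by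
        rw [map_mul, map_mul]; rfl
      have e2 : act β (act β⁻¹ (act g₀ w)) = act g₀ w := by
        rw [← MulAut.mul_apply, ← map_mul]; simp
      rw [e1, e2, hy₁, hy₁] at h4
      have e3 : act (g₀⁻¹ * (α * β⁻¹) * g₀) w = act g₀⁻¹ (act (α * β⁻¹ * g₀) w) := by
        rw [← MulAut.mul_apply, ← map_mul]; congr 2; group
      have e4 : act g₀⁻¹ (act g₀ w) = w := by
        rw [← MulAut.mul_apply, ← map_mul]; simp
      rw [e3, h4, e4]
    have h5 : α⁻¹ * β ∈ R := by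
      have := hR.conj_mem _ (inv_mem h3) α⁻¹
      have e : α⁻¹ * (α * β⁻¹)⁻¹ * α⁻¹⁻¹ = α⁻¹ * β := by group
      rwa [e] at this
    rw [← QuotientGroup.out_eq' q, ← QuotientGroup.out_eq' q', QuotientGroup.eq]
    exact h5
  have := card_le_index' hc C ι hinj (fun q c hc' => by
    have hqA : ((q.out : A) : G) ∈ A := (q.out : A).2
    have h6 := hC _ hqA c hc'
    have h7 : ι q c = y₁ (act ((q.out : A) : G) c) * (y₁ c)⁻¹ := rfl
    rw [h7, ← map_inv, ← map_mul]
    exact h6)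
  exact this

/-- **The lower bound**: `|A : A ∩ O_p(G)| ≤ |E : C_E(A)|`, modulo a normal `D ≤ E`. -/
theorem lower_bound {S : Sylow p G} {M : Subgroup G} (H : Hyp S M) (E D A : Subgroup G) [hE : E.Normal]
    [hD : D.Normal] (hER : E ≤ Cfsg.pCore p G) (hEab : Abel E) (hDE : D ≤ E)
    (hAS : A ≤ (S : Subgroup G))
    (hx : ∃ x : G, (orderOf x).Coprime p ∧ ∃ e ∈ E, x * e * x⁻¹ * e⁻¹ ∉ D) :
    ((Cfsg.pCore p G).subgroupOf A).index ≤ (CC E D A).relIndex E := by
  classical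
  haveI hRn : (Cfsg.pCore p G).Normal := pCore_normal p G
  let P : Set (Subgroup G) := {W | D ≤ W ∧ W ≤ E ∧ W.Normal ∧
    ∃ x : G, (orderOf x).Coprime p ∧ ∃ w ∈ W, x * w * x⁻¹ * w⁻¹ ∉ D}
  obtain ⟨E₁, hmin⟩ := (Set.toFinite P).exists_minimal ⟨E, hDE, le_rfl, hE, hx⟩
  obtain ⟨hDE₁, hE₁E, hE₁n, x₁, hx₁, w₁, hw₁, hw₁D⟩ := hmin.prop
  haveI : E₁.Normal := hE₁n
  have hE₁R : E₁ ≤ Cfsg.pCore p G := hE₁E.trans hER
  have hE₁S : E₁ ≤ (S : Subgroup G) := hE₁R.trans (pCore_le_sylow S)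
  have hE₁ab : Abel E₁ := fun a ha b hb => hEab a (hE₁E ha) b (hE₁E hb)
  -- the generated subgroup
  let gens : Set G := {c | ∃ x : G, (orderOf x).Coprime p ∧ ∃ w ∈ E₁, c = x * w * x⁻¹ * w⁻¹}
  have hgens : gens ⊆ E₁ := by
    rintro _ ⟨x, -, w, hw, rfl⟩
    exact mul_mem (hE₁n.conj_mem w hw x) (inv_mem hw)
  have hgensn : (closure gens).Normal := by
    constructor
    intro n hn g
    have h : closure gens ≤ (closure gens).comap (MulAut.conj g).toMonoidHom := by
      rw [closure_le]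
      rintro _ ⟨x, hx, w, hw, rfl⟩
      refine subset_closure ⟨g * x * g⁻¹, ?_, g * w * g⁻¹, hE₁n.conj_mem w hw g, ?_⟩
      · have : orderOf (g * x * g⁻¹) = orderOf x :=
          orderOf_injective (MulAut.conj g).toMonoidHom (MulAut.conj g).injective x
        rwa [this]
      · show g * (x * w * x⁻¹ * w⁻¹) * g⁻¹ = _
        group
    exact h hn
  have hE₂n : (D ⊔ closure gens).Normal := Subgroup.sup_normal _ _
  have hE₂le : D ⊔ closure gens ≤ E₁ := sup_le hDE₁ (closure_le _ |>.2 hgens)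
  have hcD : ∀ {x : G}, (orderOf x).Coprime p → ∀ {w : G}, w ∈ E₁ →
      x * (x * w * x⁻¹ * w⁻¹) * x⁻¹ * (x * w * x⁻¹ * w⁻¹)⁻¹ ∈ D → x * w * x⁻¹ * w⁻¹ ∈ D := by
    intro x hx w hw h
    set c := x * w * x⁻¹ * w⁻¹ with hc
    have hcE : c ∈ E₁ := mul_mem (hE₁n.conj_mem w hw x) (inv_mem hw)
    obtain ⟨k, hk⟩ : ∃ k : ℕ, c ^ (p ^ k) = 1 := by
      have hp1 := pCore_isPGroup (G := G) p
      obtain ⟨k, hk⟩ := hp1 ⟨c, hE₁R hcE⟩
      exact ⟨k, by simpa using congrArg Subtype.val hk⟩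
    have h1 : (QuotientGroup.mk x : G ⧸ D) * (QuotientGroup.mk w) * (QuotientGroup.mk x)⁻¹
        = (QuotientGroup.mk c) * (QuotientGroup.mk w) := by
      rw [← QuotientGroup.mk_inv, ← QuotientGroup.mk_mul, ← QuotientGroup.mk_mul, ← QuotientGroup.mk_mul]
      congr 1
      rw [hc]
      group
    have h2 : (QuotientGroup.mk x : G ⧸ D) * (QuotientGroup.mk c) * (QuotientGroup.mk x)⁻¹
        = (QuotientGroup.mk c) := by
      rw [← QuotientGroup.mk_inv, ← QuotientGroup.mk_mul, ← QuotientGroup.mk_mul]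
      rw [QuotientGroup.eq]
      have := hD.conj_mem _ (inv_mem h) c⁻¹
      convert this using 1
      group
    have h3 : (QuotientGroup.mk x : G ⧸ D) ^ orderOf x = 1 := by
      rw [← QuotientGroup.mk_pow, pow_orderOf_eq_one]; rfl
    have h4 : (QuotientGroup.mk c : G ⧸ D) ^ (p ^ k) = 1 := by
      rw [← QuotientGroup.mk_pow, hk]; rfl
    have h5 := comm_triv h1 h2 h3 h4 hx
    exact (QuotientGroup.eq_one_iff c).1 h5
  have hE₁E₂ : E₁ ≤ D ⊔ closure gens := by
    refine hmin.le_of_le ?_ hE₂le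
    refine ⟨le_sup_left, hE₂le.trans hE₁E, hE₂n, ?_⟩
    by_contra hno
    push Not at hno
    apply hw₁D
    apply hcD hx₁ hw₁
    exact hno x₁ hx₁ _ (mem_sup_right (subset_closure ⟨x₁, hx₁, w₁, hw₁, rfl⟩))
  -- the `S`-invariant part
  let N : Subgroup G := D ⊔ ⁅(S : Subgroup G), E₁⁆
  have hNE₁ : N ≤ E₁ := sup_le hDE₁ (Subgroup.commutator_le_right _ _)
  have hE₁N : ¬ E₁ ≤ N := by
    intro h
    have h1 := le_of_le_sup_commutator (p := p) (S : Subgroup G) S.isPGroup' D E₁ hE₁S h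
    exact hw₁D (h1 (mul_mem (hE₁n.conj_mem w₁ hw₁ x₁) (inv_mem hw₁)))
  have hNne : N.subgroupOf E₁ ≠ ⊤ := by
    intro h
    exact hE₁N (Subgroup.subgroupOf_eq_top.1 h)
  have hcomm : ∀ a b : E₁, a * b = b * a := fun a b => Subtype.ext (hE₁ab _ a.2 _ b.2)
  obtain ⟨y, hyN, w₀, hw₀⟩ := exists_char' hcomm (N.subgroupOf E₁) hNne
  have hyD : ∀ w : E₁, (w : G) ∈ D → y w = 1 := fun w hw =>
    hyN w (Subgroup.mem_subgroupOf.2 (mem_sup_left hw))
  let act : G →* MulAut E₁ := MulAut.conjNormal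
  have hact : ∀ g (w : E₁), ((act g w : E₁) : G) = g * w * g⁻¹ := fun g w => MulAut.conjNormal_apply g w
  have hact_sub : ∀ g (w : E₁), y (act g w) = y (⟨g * w * g⁻¹ * (w : G)⁻¹, by
      exact mul_mem (hE₁n.conj_mem _ w.2 g) (inv_mem w.2)⟩ : E₁) * y w := by
    intro g w
    rw [← map_mul]
    congr 1
    apply Subtype.ext
    simp [hact]
  -- the stabilizer of `y`
  let St : Subgroup G :=
    { carrier := {g | ∀ w, y (act g w) = y w}
      mul_mem' := by
        intro a b ha hb w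
        rw [map_mul, MulAut.mul_apply, ha, hb]
      one_mem' := by
        intro w
        rw [map_one]; rfl
      inv_mem' := by
        intro a ha w
        have := ha (act a⁻¹ w)
        rw [← MulAut.mul_apply, ← map_mul, mul_inv_cancel, map_one] at this
        exact this.symm }
  have hSSt : (S : Subgroup G) ≤ St := by
    intro s hs w
    rw [hact_sub, hyN _ (Subgroup.mem_subgroupOf.2 (mem_sup_right ?_)), one_mul]
    exact Subgroup.commutator_mem_commutator hs w.2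
  have hStne : St ≠ ⊤ := by
    intro hSt
    apply hw₀
    have hall : ∀ g, ∀ w, y (act g w) = y w := fun g => by
      have : g ∈ St := hSt ▸ mem_top g
      exact this
    have hle : D ⊔ closure gens ≤ y.ker.map E₁.subtype := by
      refine sup_le (fun d hd => ⟨⟨d, hDE₁ hd⟩, hyD _ hd, rfl⟩) ((closure_le _).2 ?_)
      rintro _ ⟨x, hx, w, hw, rfl⟩
      refine ⟨⟨_, hgens ⟨x, hx, w, hw, rfl⟩⟩, ?_, rfl⟩
      have := hact_sub x ⟨w, hw⟩
      rw [hall] at this
      exact mul_right_cancel (b := y ⟨w, hw⟩) (by rw [one_mul]; exact this.symm)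
    obtain ⟨u, hu, he⟩ := hle (hE₁E₂ w₀.2)
    have : u = w₀ := Subtype.ext he
    rw [← this]
    exact hu
  have hStM : St ≤ M := H.le_of_ne_top hSSt hStne
  obtain ⟨g₀, hg₀⟩ := H.exists_not_mem
  have hfin : (CC E D A).relIndex E ≠ 0 := by
    exact Subgroup.index_ne_zero_of_finite
  have hfinal := count_abstract hcomm act y M (Cfsg.pCore p G) A g₀ (fun g hg => hStM hg)
    (fun s hs => H.ti g₀ hg₀ s (hAS hs)) ((CC E D A).subgroupOf E₁) (by
      intro a ha c hc
      have h1 : ((act g₀⁻¹ (act a c * c⁻¹) : E₁) : G) =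
          g₀⁻¹ * (a * c * a⁻¹ * (c : G)⁻¹) * g₀⁻¹⁻¹ := by
        rw [hact]
        congr 2
      apply hyD
      rw [h1]
      exact hD.conj_mem _ ((Subgroup.mem_subgroupOf.1 hc).2 a ha) _)
  calc ((Cfsg.pCore p G).subgroupOf A).index ≤ ((CC E D A).subgroupOf E₁).index := hfinal
    _ = (CC E D A).relIndex E₁ := rfl
    _ ≤ (CC E D A).relIndex E := Subgroup.relIndex_le_of_le_right hE₁E hfin

end Cfsg.Agent.Lib.PushUp.Bound
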