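import Cfsg.Agent.Lib.PushUp.SylowPart
import Cfsg.Agent.Lib.PSL2.BorelMax

/-!
# From `G / K ≅ PSL(2, F)` with the Sylow hypotheses to the abstract hypotheses `Bound.Hyp`
-/

set_option autoImplicit false
set_option linter.unusedSectionVars false
set_option linter.style.haveILetI false
set_option linter.unusedVariables false
set_option linter.unusedSimpArgs false

namespace Cfsg.Agent.Lib.PushUp.Bridge

open Matrix Matrix.SpecialLinearGroup Subgroup
open scoped MatrixGroups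
open Cfsg.Agent.Lib.PSL2 Cfsg.Agent.Lib.PSL2.Basic Cfsg.Agent.Lib.PSL2.Conj
open Cfsg.Agent.Lib.PSL2.Members
open Cfsg.Agent.Lib.PSL2.DicksonCor
open Cfsg.Agent.Lib.PSL2.FieldEmbed Cfsg.Agent.Lib.PSL2.Solubilizer
open Cfsg.Agent.Lib.PSL2.BorelMax
open Cfsg.Agent.Lib.Basic.PCore
open Cfsg.Agent.Lib.PushUp.Bound

variable {G : Type*} [Group G] [Finite G] {p : ℕ} [hp : Fact p.Prime]
variable {F : Type*} [Field F] [Fintype F]

theorem charP_of_card {q n : ℕ} [Fact q.Prime] (hn : 1 ≤ n) (hF : Fintype.card F = q ^ n) :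
    CharP F q := by
  obtain ⟨r, hr⟩ := CharP.exists F
  obtain ⟨m, hrp, hm⟩ := FiniteField.card F r
  have h1 : r ∣ q ^ n := by
    rw [← hF, hm]
    exact dvd_pow_self _ m.ne_zero
  have h2 : r = q := (Nat.prime_dvd_prime_iff_eq hrp (Fact.out : q.Prime)).1 (hrp.dvd_of_dvd_pow h1)
  exact h2 ▸ hr

theorem exists_eps [CharP F p] (S : Sylow p G) (K : Subgroup G) [K.Normal]
    (e : G ⧸ K ≃* PSL(2, F)) :
    ∃ ε : G →* PSL(2, F), Function.Surjective ε ∧ ε.ker = K ∧ (S : Subgroup G).map ε = Ubar F := by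
  let ε₀ : G →* PSL(2, F) := (e : G ⧸ K →* PSL(2, F)).comp (QuotientGroup.mk' K)
  have hε₀ : Function.Surjective ε₀ := e.surjective.comp (QuotientGroup.mk'_surjective K)
  have hk₀ : ε₀.ker = K := by
    ext z
    simp [ε₀, MonoidHom.mem_ker]
  let T₁ : Sylow p PSL(2, F) := S.mapSurjective hε₀
  let U₀ : Sylow p PSL(2, F) :=
    (SylowU.sylowU F p).mapSurjective (f := (mkP : SL(2, F) →* PSL(2, F))) mkP_surjective
  obtain ⟨g, hg⟩ := MulAction.exists_smul_eq PSL(2, F) T₁ U₀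
  let ε : G →* PSL(2, F) := (MulAut.conj g).toMonoidHom.comp ε₀
  have hε : Function.Surjective ε := (MulAut.conj g).surjective.comp hε₀
  have hk : ε.ker = ε₀.ker := by
    ext z
    simp [ε, MonoidHom.mem_ker]
  have hmap : (S : Subgroup G).map ε = Ubar F := by
    have h1 : ((g • T₁ : Sylow p PSL(2, F)) : Subgroup PSL(2, F)) = Ubar F := by
      rw [hg]
      rfl
    rw [← h1, Sylow.coe_subgroup_smul]
    show _ = (T₁ : Subgroup PSL(2, F)).map (MulAut.conj g).toMonoidHom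
    show _ = ((S : Subgroup G).map ε₀).map (MulAut.conj g).toMonoidHom
    rw [Subgroup.map_map]
  exact ⟨ε, hε, hk.trans hk₀, hmap⟩

lemma exists_x_of_mem_Ubar {z : PSL(2, F)} (h : z ∈ Ubar F) : ∃ c : F, z = mkP (x c) := by
  obtain ⟨W, ⟨t, rfl⟩, rfl⟩ := h
  exact ⟨t, rfl⟩

lemma mkP_x_eq_one_iff {c : F} : mkP (x c) = 1 ↔ c = 0 := by
  constructor
  · intro h
    have h1 : mkP (x c) = mkP (1 : SL(2, F)) := by rw [h, map_one]
    rcases mkP_eq_iff.1 h1 with h2 | h2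
    · have h3 := congrArg (fun A : SL(2, F) => A.1 0 1) h2
      simp at h3
      exact h3.symm
    · have h3 := congrArg (fun A : SL(2, F) => A.1 0 1) h2
      simp at h3
      exact h3
  · rintro rfl
    simp

lemma conj_lower_eq (Z : SL(2, F)) (c : F) : (Z⁻¹ * x c * Z).1 1 0 = - (Z.1 1 0) ^ 2 * c := by
  simp only [mul_10, mul_00, mul_01, mul_11, inv_00, inv_01, inv_10, inv_11, x_00, x_01, x_10, x_11]
  ring

lemma conj_lower_eq' (c : F) : (y (1 : F) * x c * (y (1 : F))⁻¹).1 1 0 = - c := by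
  simp only [y_inv, mul_10, mul_00, mul_01, mul_11, x_00, x_01, x_10, x_11, y_00, y_01, y_10, y_11]
  ring

section Data

variable (S : Sylow p G) (ε : G →* PSL(2, F)) (hε : Function.Surjective ε)
  (hS : (S : Subgroup G).map ε = Ubar F)

include hS in
lemma exists_x_of_mem {s : G} (hs : s ∈ (S : Subgroup G)) : ∃ c : F, ε s = mkP (x c) :=
  exists_x_of_mem_Ubar (hS ▸ Subgroup.mem_map_of_mem ε hs)

include hS in
lemma le_T : (S : Subgroup G) ≤ (Ubar F).comap ε := by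
  intro s hs
  rw [Subgroup.mem_comap, ← hS]
  exact Subgroup.mem_map_of_mem ε hs

include hε in
lemma map_T : ((Ubar F).comap ε).map ε = Ubar F :=
  Subgroup.map_comap_eq_self_of_surjective hε _

lemma ker_le_T : ε.ker ≤ (Ubar F).comap ε := by
  intro k hk
  rw [Subgroup.mem_comap, MonoidHom.mem_ker.1 hk]
  exact one_mem _

include hε in
lemma normalizer_T :
    normalizer (((Ubar F).comap ε : Subgroup G) : Set G) = (borelP (1 : SL(2, F))).comap ε := by
  rw [← normalizer_Ubar]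
  exact (Subgroup.comap_normalizer_eq_of_surjective _ hε).symm

include hε in
lemma coat_N : IsCoatom ((borelP (1 : SL(2, F))).comap ε) := by
  rw [← normalizer_T ε hε]
  exact (coatom_of_map ε hε _ (map_T ε hε) (ker_le_T ε)).1

include hS in
lemma le_N : (S : Subgroup G) ≤ (borelP (1 : SL(2, F))).comap ε := by
  intro s hs
  rw [Subgroup.mem_comap]
  apply Ubar_le_borel
  rw [← hS]
  exact Subgroup.mem_map_of_mem ε hs

include hS hε in
lemma core_le_ker : Cfsg.pCore p G ≤ ε.ker := by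
  intro r hr
  have hrS : r ∈ (S : Subgroup G) := pCore_le_sylow S hr
  obtain ⟨c, hc⟩ := exists_x_of_mem S ε hS hrS
  obtain ⟨g, hg⟩ := hε (mkP (y (1 : F)))
  have h1 : g * r * g⁻¹ ∈ Cfsg.pCore p G := (pCore_normal p G).conj_mem r hr g
  have h2 : g * r * g⁻¹ ∈ (S : Subgroup G) := pCore_le_sylow S h1
  obtain ⟨c', hc'⟩ := exists_x_of_mem S ε hS h2
  have h3 : ε (g * r * g⁻¹) = mkP (y (1 : F) * x c * (y (1 : F))⁻¹) := by
    rw [map_mul, map_mul, map_inv, hg, hc, map_mul, map_mul, map_inv]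
  have h4 : mkP (y (1 : F) * x c * (y (1 : F))⁻¹) ∈ Ubar F := by
    rw [← h3, hc']
    exact x_mem_Ubar c'
  have h5 := lower_eq_zero_of_mem_Ubar h4
  rw [conj_lower_eq'] at h5
  have h6 : c = 0 := neg_eq_zero.1 h5
  rw [MonoidHom.mem_ker, hc, h6]
  simp

variable (huniq : ∀ M' : Subgroup G, IsCoatom M' → (S : Subgroup G) ≤ M' →
  M' = (borelP (1 : SL(2, F))).comap ε)

include hS hε huniq in
lemma inf_ker_le_core : (S : Subgroup G) ⊓ ε.ker ≤ Cfsg.pCore p G := by
  have hle := le_N S ε hS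
  have hc := coat_N ε hε
  have hsup : ε.ker ⊔ (S : Subgroup G) ≠ ⊤ := by
    intro h
    apply hc.1
    rw [eq_top_iff, ← h]
    refine sup_le ?_ hle
    intro k hk
    rw [Subgroup.mem_comap, MonoidHom.mem_ker.1 hk]
    exact one_mem _
  have hn := inf_normal' hc huniq hle ε.ker hsup
  apply le_pCore hn
  exact S.isPGroup'.to_le inf_le_left

include hS hε huniq in
lemma ti_aux (g : G) (hg : g ∉ (borelP (1 : SL(2, F))).comap ε) (s : G)
    (hs : s ∈ (S : Subgroup G)) (h : g⁻¹ * s * g ∈ (borelP (1 : SL(2, F))).comap ε) :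
    s ∈ Cfsg.pCore p G := by
  obtain ⟨Z, hZ⟩ := mkP_surjective (ε g)
  obtain ⟨c, hc⟩ := exists_x_of_mem S ε hS hs
  have hZ0 : Z.1 1 0 ≠ 0 := by
    intro h0
    apply hg
    rw [Subgroup.mem_comap, ← hZ]
    exact mem_borelP.2 ((up_one_iff _).2 h0)
  have h1 : ε (g⁻¹ * s * g) = mkP (Z⁻¹ * x c * Z) := by
    rw [map_mul, map_mul, map_inv, ← hZ, hc, map_mul, map_mul, map_inv]
  have h2 : mkP (Z⁻¹ * x c * Z) ∈ borelP (1 : SL(2, F)) := by
    rw [← h1]
    exact h
  have h3 := (up_one_iff _).1 (mem_borelP.1 h2)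
  rw [conj_lower_eq] at h3
  have hc0 : c = 0 := by
    rcases mul_eq_zero.1 h3 with h4 | h4
    · exact absurd ((pow_eq_zero_iff (two_ne_zero)).1 (neg_eq_zero.1 h4)) hZ0
    · exact h4
  apply inf_ker_le_core S ε hε hS huniq
  refine Subgroup.mem_inf.2 ⟨hs, ?_⟩
  rw [MonoidHom.mem_ker, hc, hc0]
  simp

include hS hε in
lemma not_le_core : ¬ (S : Subgroup G) ≤ Cfsg.pCore p G := by
  intro h
  have h1 : mkP (x (1 : F)) ∈ Ubar F := x_mem_Ubar 1
  rw [← hS] at h1
  obtain ⟨s, hs, hse⟩ := h1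
  have h2 := core_le_ker S ε hε hS (h hs)
  rw [MonoidHom.mem_ker, hse] at h2
  exact one_ne_zero (mkP_x_eq_one_iff.1 h2)

include hS hε in
lemma exists_norm (t : F) (ht : t ≠ 0) :
    ∃ n ∈ normalizer ((S : Subgroup G) : Set G), ∃ a : F, ε n = mkP (x a * d t ht) := by
  obtain ⟨g, hg⟩ := hε (mkP (d t ht))
  have hST := le_T S ε hS
  have hgN : g ∈ normalizer (((Ubar F).comap ε : Subgroup G) : Set G) := by
    rw [normalizer_T ε hε, Subgroup.mem_comap, hg]
    exact mem_borelP.2 ((up_one_iff _).2 (by simp))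
  have hgS : ((g • S : Sylow p G) : Subgroup G) ≤ (Ubar F).comap ε := by
    intro z hz
    rw [Sylow.coe_subgroup_smul] at hz
    obtain ⟨s, hs, rfl⟩ := hz
    have h1 := (Subgroup.mem_normalizer_iff.1 hgN s).1 (hST hs)
    exact h1
  obtain ⟨τ, hτ⟩ := MulAction.exists_smul_eq ((Ubar F).comap ε : Subgroup G)
    ((g • S).subtype hgS) (S.subtype hST)
  simp_rw [Sylow.smul_subtype, Subgroup.smul_def, smul_smul] at hτ
  have hn : (τ : G) * g ∈ normalizer ((S : Subgroup G) : Set G) :=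
    Sylow.smul_eq_iff_mem_normalizer.mp (Sylow.subtype_injective hτ)
  obtain ⟨a, ha⟩ := exists_x_of_mem_Ubar (τ.2 : ε τ ∈ Ubar F)
  refine ⟨τ * g, hn, a, ?_⟩
  rw [map_mul, hg, ha, map_mul]

lemma conj_x (a t : F) (ht : t ≠ 0) (f : F) :
    (x a * d t ht) * x f * (x a * d t ht)⁻¹ = x (t ^ 2 * f) := by
  rw [_root_.mul_inv_rev]
  calc (x a * d t ht) * x f * ((d t ht)⁻¹ * (x a)⁻¹)
      = x a * (d t ht * x f * (d t ht)⁻¹) * (x a)⁻¹ := by group
    _ = x a * x (t ^ 2 * f) * x (-a) := by rw [d_x_d_inv, x_inv]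
    _ = x (t ^ 2 * f) := by
      rw [← x_add, ← x_add]
      congr 1
      ring

include hS hε huniq in
lemma irr_aux (D : Subgroup G) (hD₁ : Cfsg.pCore p G ≤ D) (hD₂ : D ≤ S)
    (hn : ∀ n ∈ normalizer ((S : Subgroup G) : Set G), ∀ d ∈ D, n * d * n⁻¹ ∈ D)
    (hne : D ≠ Cfsg.pCore p G) : D = S := by
  let A : F → Prop := fun f => mkP (x f) ∈ D.map ε
  have hA0 : A 0 := by
    show mkP (x (0 : F)) ∈ D.map ε
    rw [x_zero, map_one]
    exact one_mem _
  have hAadd : ∀ a b, A a → A b → A (a + b) := by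
    intro a b ha hb
    show mkP (x (a + b)) ∈ D.map ε
    rw [x_add, map_mul]
    exact mul_mem ha hb
  have hAneg : ∀ a, A a → A (-a) := by
    intro a ha
    show mkP (x (-a)) ∈ D.map ε
    rw [← x_inv, map_inv]
    exact inv_mem ha
  have hAsq : ∀ t f, A f → A (t ^ 2 * f) := by
    intro t f hf
    by_cases ht : t = 0
    · subst ht
      simpa using hA0
    · obtain ⟨n, hn', a, ha⟩ := exists_norm S ε hε hS t ht
      obtain ⟨d₀, hd₀, hd₀e⟩ := hf
      refine ⟨n * d₀ * n⁻¹, hn n hn' d₀ hd₀, ?_⟩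
      rw [map_mul, map_mul, map_inv, ha, hd₀e, ← map_inv, ← map_mul, ← map_mul, conj_x]
  obtain ⟨c, hc0, hcA⟩ : ∃ c : F, c ≠ 0 ∧ A c := by
    have hnle : ¬ D ≤ Cfsg.pCore p G := fun h => hne (le_antisymm h hD₁)
    obtain ⟨d₀, hd₀, hd₀R⟩ := SetLike.not_le_iff_exists.1 hnle
    obtain ⟨c, hc⟩ := exists_x_of_mem S ε hS (hD₂ hd₀)
    refine ⟨c, ?_, ⟨d₀, hd₀, hc⟩⟩
    rintro rfl
    apply hd₀R
    apply inf_ker_le_core S ε hε hS huniq
    refine Subgroup.mem_inf.2 ⟨hD₂ hd₀, ?_⟩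
    rw [MonoidHom.mem_ker, hc]
    simp
  have hall : ∀ g : F, A (g * c) := by
    by_cases h2 : (2 : F) = 0
    · intro g
      have hch : ringChar F = 2 :=
        CharP.ringChar_of_prime_eq_zero Nat.prime_two (by exact_mod_cast h2)
      obtain ⟨r, hr⟩ := FiniteField.isSquare_of_char_two hch g
      rw [hr, ← pow_two]
      exact hAsq r c hcA
    · intro g
      have h3 : g * c = (g / 2 + 1) ^ 2 * c + -((g / 2) ^ 2 * c) + -c := by
        field_simp
        ring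
      rw [h3]
      exact hAadd _ _ (hAadd _ _ (hAsq _ _ hcA) (hAneg _ (hAsq _ _ hcA))) (hAneg _ hcA)
  have hall' : ∀ f : F, A f := fun f => by
    have h3 := hall (f / c)
    rwa [div_mul_cancel₀ _ hc0] at h3
  apply le_antisymm hD₂
  intro s hs
  obtain ⟨c', hc'⟩ := exists_x_of_mem S ε hS hs
  obtain ⟨d', hd', hd'e⟩ := hall' c'
  have h1 : d'⁻¹ * s ∈ Cfsg.pCore p G := by
    apply inf_ker_le_core S ε hε hS huniq
    refine Subgroup.mem_inf.2 ⟨(S : Subgroup G).mul_mem ((S : Subgroup G).inv_mem (hD₂ hd')) hs, ?_⟩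
    rw [MonoidHom.mem_ker, map_mul, map_inv, hd'e, hc', inv_mul_cancel]
  have h2 := D.mul_mem hd' (hD₁ h1)
  simpa using h2

end Data

/-- The statement's hypotheses give the abstract hypotheses. -/
theorem hyp_of_statement (S : Sylow p G)
    (hE₁ : centralizer ((Cfsg.pCore p G : Subgroup G) : Set G) ≤ Cfsg.pCore p G)
    {M : Subgroup G} (hM : IsCoatom M) (hSM : (S : Subgroup G) ≤ M)
    (huniq : ∀ M' : Subgroup G, IsCoatom M' → (S : Subgroup G) ≤ M' → M' = M)
    (K : Subgroup G) [K.Normal] (F : Type*) [Field F] [Fintype F] (n : ℕ) (hn : 1 ≤ n)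
    (hF : Fintype.card F = p ^ n)
    (hE₃ : Nonempty (G ⧸ K ≃* Matrix.ProjectiveSpecialLinearGroup (Fin 2) F)) : Hyp S M := by
  haveI : CharP F p := charP_of_card hn hF
  obtain ⟨e⟩ := hE₃
  obtain ⟨ε, hε, hk, hS⟩ := exists_eps S K e
  obtain rfl : (borelP (1 : SL(2, F))).comap ε = M := huniq _ (coat_N ε hε) (le_N S ε hS)
  exact
    { cent := hE₁
      coat := hM
      le := hSM
      uniq := huniq
      ti := fun g hg s hs h => ti_aux S ε hε hS huniq g hg s hs h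
      notle := not_le_core S ε hε hS
      irr := fun D hD₁ hD₂ hn' hne => irr_aux S ε hε hS huniq D hD₁ hD₂ hn' hne }

end Cfsg.Agent.Lib.PushUp.Bridge
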