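import Cfsg.Agent.Lib.PushUp.FF
import Cfsg.Prelude.Def_BaumannBlocks

/-!
# Centrally large subgroups

The measure `m(E) = |E| |C(E)|` on abelian subgroups is supermodular on commuting pairs.  Consequently two minimal
centrally large subgroups `Q`, `R` satisfy `Q = (Q ∩ R) Z(Q)`, `R = (Q ∩ R) Z(R)`, and `[Q, Q] = [R, R]`.
-/

set_option autoImplicit false
set_option linter.unusedSectionVars false
set_option linter.style.haveILetI false
set_option linter.unusedVariables false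
set_option linter.unusedSimpArgs false

namespace Cfsg.Agent.Lib.PushUp.CL

open Subgroup Cfsg.Agent.Lib.PushUp.FF
open scoped commutatorElement

section Generic

variable {P : Type*} [Group P]

/-- The centre of a subgroup inside the ambient group. -/
abbrev Zc (R : Subgroup P) : Subgroup P := R ⊓ centralizer (R : Set P)

theorem card_center (R : Subgroup P) : Nat.card (center ↥R) = Nat.card (Zc R : Subgroup P) := by
  have h : (center ↥R).map R.subtype = Zc R := by
    ext x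
    constructor
    · rintro ⟨y, hy, rfl⟩
      refine Subgroup.mem_inf.2 ⟨y.2, mem_centralizer_iff.2 fun r hr => ?_⟩
      have := (mem_center_iff.1 hy) ⟨r, hr⟩
      exact congrArg Subtype.val this
    · intro hx
      obtain ⟨h1, h2⟩ := Subgroup.mem_inf.1 hx
      refine ⟨⟨x, h1⟩, mem_center_iff.2 fun r => ?_, rfl⟩
      exact Subtype.ext (mem_centralizer_iff.1 h2 r r.2)
  rw [← h]
  exact (Subgroup.card_map_of_injective R.subtype_injective).symm

/-- The number `|R| |Z(R)|` is preserved by injective homomorphisms. -/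
theorem card_map_center {X Y : Type*} [Group X] [Group Y] (ψ : X →* Y) (hψ : Function.Injective ψ)
    (R : Subgroup X) :
    Nat.card (R.map ψ) * Nat.card (center ↥(R.map ψ)) = Nat.card R * Nat.card (center ↥R) := by
  have h1 : Nat.card (R.map ψ) = Nat.card R := Subgroup.card_map_of_injective hψ
  let e : ↥R ≃* ↥(R.map ψ) := Subgroup.equivMapOfInjective R ψ hψ
  have h2 : Nat.card (center ↥(R.map ψ)) = Nat.card (center ↥R) :=
    (Nat.card_congr (Subgroup.centerCongr e).toEquiv).symm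
  rw [h1, h2]

end Generic

section Finite

variable {P : Type*} [Group P] [Finite P]

theorem bdd : BddAbove {k : ℕ | ∃ R : Subgroup P, Nat.card ↥R * Nat.card ↥(center ↥R) = k} := by
  have : {k : ℕ | ∃ R : Subgroup P, Nat.card ↥R * Nat.card ↥(center ↥R) = k} =
      Set.range (fun R : Subgroup P => Nat.card ↥R * Nat.card ↥(center ↥R)) := rfl
  rw [this]
  exact (Set.finite_range _).bddAbove

theorem le_max (R : Subgroup P) : Nat.card ↥R * Nat.card ↥(center ↥R) ≤ Cfsg.maxCentralProduct P :=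
  le_csSup bdd ⟨R, rfl⟩

theorem exists_max : ∃ R : Subgroup P, Cfsg.IsCentrallyLarge R := by
  have h := Nat.sSup_mem (s := {k : ℕ | ∃ R : Subgroup P, Nat.card ↥R * Nat.card ↥(center ↥R) = k})
    ⟨_, ⊥, rfl⟩ bdd
  obtain ⟨R, hR⟩ := h
  exact ⟨R, hR⟩

/-- Every centrally large subgroup contains a minimal one. -/
theorem exists_min_le {R : Subgroup P} (hR : Cfsg.IsCentrallyLarge R) :
    ∃ Q : Subgroup P, Q ≤ R ∧ Cfsg.IsMinimalCentrallyLarge Q := by
  classical
  induction' h : Nat.card R using Nat.strong_induction_on with n ih generalizing R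
  by_cases hmin : ∀ R' : Subgroup P, R' ≤ R → Cfsg.IsCentrallyLarge R' → R' = R
  · exact ⟨R, le_rfl, hR, hmin⟩
  · push Not at hmin
    obtain ⟨R', h1, h2, h3⟩ := hmin
    have hlt : Nat.card R' < n := by
      rw [← h]
      exact Nat.lt_of_le_of_ne (Subgroup.card_le_of_le h1) (fun e => h3 (Subgroup.eq_of_le_of_card_ge h1 e.ge))
    obtain ⟨Q, hQ1, hQ2⟩ := ih _ hlt h2 rfl
    exact ⟨Q, hQ1.trans h1, hQ2⟩

/-- Abelian subgroups. -/
abbrev Ab (E : Subgroup P) : Prop := ∀ a ∈ E, ∀ b ∈ E, a * b = b * a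

/-- The measure. -/
noncomputable abbrev mm (E : Subgroup P) : ℕ := Nat.card E * Nat.card (centralizer (E : Set P))

theorem pos (H : Subgroup P) : 0 < Nat.card H := Nat.card_pos

theorem Zc_ab (R : Subgroup P) : Ab (Zc R) := fun a ha b hb =>
  (mem_centralizer_iff.1 (Subgroup.mem_inf.1 hb).2 a (Subgroup.mem_inf.1 ha).1)

theorem cent_mono {H K : Subgroup P} (h : H ≤ K) : centralizer (K : Set P) ≤ centralizer (H : Set P) :=
  centralizer_le (SetLike.coe_subset_coe.2 h)

theorem mm_le {E : Subgroup P} (hE : Ab E) : mm E ≤ Cfsg.maxCentralProduct P := by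
  set W := centralizer (E : Set P) with hW
  have hEW : E ≤ Zc W := by
    intro e he
    refine Subgroup.mem_inf.2 ⟨mem_centralizer_iff.2 fun x hx => (hE x hx e he), ?_⟩
    exact mem_centralizer_iff.2 fun w hw => (mem_centralizer_iff.1 hw e he).symm
  have h1 := le_max W
  rw [card_center] at h1
  have h2 : Nat.card E ≤ Nat.card (Zc W : Subgroup P) := Subgroup.card_le_of_le hEW
  calc mm E = Nat.card W * Nat.card E := mul_comm _ _
    _ ≤ Nat.card W * Nat.card (Zc W : Subgroup P) := Nat.mul_le_mul_left _ h2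
    _ ≤ _ := h1

theorem cl_eq {Q : Subgroup P} (hQ : Cfsg.IsCentrallyLarge Q) :
    Nat.card Q * Nat.card (Zc Q : Subgroup P) = Cfsg.maxCentralProduct P := by
  rw [← card_center]
  exact hQ

theorem cl_of_eq {Q : Subgroup P} (h : Cfsg.maxCentralProduct P ≤ Nat.card Q * Nat.card (Zc Q : Subgroup P)) :
    Cfsg.IsCentrallyLarge Q := by
  show _ = _
  rw [card_center]
  refine le_antisymm ?_ h
  rw [← card_center]
  exact le_max Q

theorem le_cent_Zc (Q : Subgroup P) : Q ≤ centralizer ((Zc Q : Subgroup P) : Set P) := fun x hx =>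
  mem_centralizer_iff.2 fun z hz => (mem_centralizer_iff.1 (Subgroup.mem_inf.1 hz).2 x hx).symm

theorem cent_Zc {Q : Subgroup P} (hQ : Cfsg.IsCentrallyLarge Q) :
    centralizer ((Zc Q : Subgroup P) : Set P) = Q := by
  have h1 := cl_eq hQ
  have h2 := mm_le (Zc_ab Q)
  have h3 : Nat.card (centralizer ((Zc Q : Subgroup P) : Set P)) ≤ Nat.card Q := by
    have h4 : Nat.card (Zc Q : Subgroup P) * Nat.card (centralizer ((Zc Q : Subgroup P) : Set P)) ≤
        Nat.card (Zc Q : Subgroup P) * Nat.card Q := by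
      rw [mul_comm (Nat.card (Zc Q : Subgroup P)) (Nat.card Q), h1]
      exact h2
    exact Nat.le_of_mul_le_mul_left h4 (pos _)
  exact (Subgroup.eq_of_le_of_card_ge (le_cent_Zc Q) h3).symm

theorem mm_Zc {Q : Subgroup P} (hQ : Cfsg.IsCentrallyLarge Q) :
    mm (Zc Q) = Cfsg.maxCentralProduct P := by
  show Nat.card (Zc Q : Subgroup P) * Nat.card (centralizer ((Zc Q : Subgroup P) : Set P)) = _
  rw [cent_Zc hQ, mul_comm]
  exact cl_eq hQ

/-- The centre of a minimal centrally large subgroup is maximal among the abelian subgroups of largest measure. -/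
theorem maximal_Zc {Q : Subgroup P} (hQ : Cfsg.IsMinimalCentrallyLarge Q) {E : Subgroup P} (hE : Ab E)
    (hAE : Zc Q ≤ E) (hm : Cfsg.maxCentralProduct P ≤ mm E) : E = Zc Q := by
  have hcQ := cent_Zc hQ.1
  set W := centralizer (E : Set P) with hW
  have hWQ : W ≤ Q := by
    rw [← hcQ]
    exact cent_mono hAE
  have hEZ : E ≤ Zc W := by
    intro e he
    refine Subgroup.mem_inf.2 ⟨mem_centralizer_iff.2 fun x hx => (hE x hx e he), ?_⟩
    exact mem_centralizer_iff.2 fun w hw => (mem_centralizer_iff.1 hw e he).symm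
  have hWcl : Cfsg.IsCentrallyLarge W := by
    apply cl_of_eq
    calc Cfsg.maxCentralProduct P ≤ mm E := hm
      _ = Nat.card W * Nat.card E := mul_comm _ _
      _ ≤ _ := Nat.mul_le_mul_left _ (Subgroup.card_le_of_le hEZ)
  have hWeq : W = Q := hQ.2 W hWQ hWcl
  have h1 : Nat.card E * Nat.card Q ≥ Nat.card (Zc Q : Subgroup P) * Nat.card Q := by
    rw [mul_comm (Nat.card (Zc Q : Subgroup P)), cl_eq hQ.1]
    have : mm E = Nat.card E * Nat.card Q := by
      show Nat.card E * Nat.card W = _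
      rw [hWeq]
    rw [← this]
    exact hm
  have h2 : Nat.card E ≤ Nat.card (Zc Q : Subgroup P) := by
    have h3 : mm E ≤ _ := mm_le hE
    have h4 : mm E = Nat.card E * Nat.card Q := by
      show Nat.card E * Nat.card W = _
      rw [hWeq]
    rw [h4, ← cl_eq hQ.1, mul_comm (Nat.card Q)] at h3
    exact Nat.le_of_mul_le_mul_right h3 (pos _)
  exact (Subgroup.eq_of_le_of_card_ge hAE h2).symm

/-- The product formula as an inequality. -/
theorem card_mul_le {H K W : Subgroup P} (hH : H ≤ W) (hK : K ≤ W) :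
    Nat.card H * Nat.card K ≤ Nat.card W * Nat.card (H ⊓ K : Subgroup P) := by
  have h1 := relIndex_mul_card K H
  have h2 := relIndex_mul_card K W
  rw [inf_eq_left.2 hK] at h2
  have h3 : K.relIndex H ≤ K.relIndex W :=
    Subgroup.relIndex_le_of_le_right hH (by
      intro h0
      rw [h0, zero_mul] at h2
      exact (pos W).ne h2)
  rw [← h1, ← h2, inf_comm K H]
  calc K.relIndex H * Nat.card (H ⊓ K : Subgroup P) * Nat.card K
      = K.relIndex H * Nat.card K * Nat.card (H ⊓ K : Subgroup P) := by ring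
    _ ≤ K.relIndex W * Nat.card K * Nat.card (H ⊓ K : Subgroup P) :=
      Nat.mul_le_mul_right _ (Nat.mul_le_mul_right _ h3)

theorem cent_sup (E₁ E₂ : Subgroup P) :
    centralizer ((E₁ ⊔ E₂ : Subgroup P) : Set P) =
      centralizer (E₁ : Set P) ⊓ centralizer (E₂ : Set P) := by
  apply le_antisymm
  · exact le_inf (cent_mono le_sup_left) (cent_mono le_sup_right)
  · rw [Subgroup.le_centralizer_iff]
    refine sup_le ?_ ?_
    · rw [← Subgroup.le_centralizer_iff]
      exact inf_le_left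
    · rw [← Subgroup.le_centralizer_iff]
      exact inf_le_right

theorem ab_sup {E₁ E₂ : Subgroup P} (h₁ : Ab E₁) (h₂ : Ab E₂) (hc : ∀ a ∈ E₁, ∀ b ∈ E₂, a * b = b * a) :
    Ab (E₁ ⊔ E₂) := by
  have key : (E₁ ⊔ E₂ : Subgroup P) ≤ centralizer ((E₁ ⊔ E₂ : Subgroup P) : Set P) := by
    refine sup_le ?_ ?_
    · rw [Subgroup.le_centralizer_iff]
      refine sup_le ?_ ?_
      · exact fun a ha => mem_centralizer_iff.2 fun b hb => h₁ b hb a ha
      · exact fun b hb => mem_centralizer_iff.2 fun a ha => (hc a ha b hb)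
    · rw [Subgroup.le_centralizer_iff]
      refine sup_le ?_ ?_
      · exact fun a ha => mem_centralizer_iff.2 fun b hb => (hc a ha b hb).symm
      · exact fun a ha => mem_centralizer_iff.2 fun b hb => h₂ b hb a ha
  intro a ha b hb
  exact (mem_centralizer_iff.1 (key hb) a ha)

/-- Supermodularity of the measure on commuting pairs. -/
theorem super {E₁ E₂ : Subgroup P} (hc : ∀ a ∈ E₁, ∀ b ∈ E₂, a * b = b * a) :
    mm E₁ * mm E₂ ≤ mm (E₁ ⊔ E₂) * mm (E₁ ⊓ E₂) := by
  have h1 := card_sup_mul_inf E₁ E₂ hc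
  have h2 : Nat.card (centralizer (E₁ : Set P)) * Nat.card (centralizer (E₂ : Set P)) ≤
      Nat.card (centralizer ((E₁ ⊓ E₂ : Subgroup P) : Set P)) *
        Nat.card (centralizer (E₁ : Set P) ⊓ centralizer (E₂ : Set P) : Subgroup P) :=
    card_mul_le (cent_mono inf_le_left) (cent_mono inf_le_right)
  show Nat.card E₁ * Nat.card (centralizer (E₁ : Set P)) * (Nat.card E₂ * Nat.card (centralizer (E₂ : Set P))) ≤
    Nat.card (E₁ ⊔ E₂ : Subgroup P) * Nat.card (centralizer ((E₁ ⊔ E₂ : Subgroup P) : Set P)) *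
      (Nat.card (E₁ ⊓ E₂ : Subgroup P) * Nat.card (centralizer ((E₁ ⊓ E₂ : Subgroup P) : Set P)))
  rw [cent_sup]
  calc Nat.card E₁ * Nat.card (centralizer (E₁ : Set P)) * (Nat.card E₂ * Nat.card (centralizer (E₂ : Set P)))
      = Nat.card E₁ * Nat.card E₂ * (Nat.card (centralizer (E₁ : Set P)) * Nat.card (centralizer (E₂ : Set P))) := by ring
    _ ≤ Nat.card E₁ * Nat.card E₂ * (Nat.card (centralizer ((E₁ ⊓ E₂ : Subgroup P) : Set P)) *
        Nat.card (centralizer (E₁ : Set P) ⊓ centralizer (E₂ : Set P) : Subgroup P)) := Nat.mul_le_mul_left _ h2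
    _ = _ := by rw [← h1]; ring

theorem max_pos : 0 < Cfsg.maxCentralProduct P := by
  obtain ⟨R, hR⟩ := exists_max (P := P)
  rw [← cl_eq hR]
  exact Nat.mul_pos (pos _) (pos _)

/-- The basic inequality. -/
theorem key_le {Q R : Subgroup P} (hQ : Cfsg.IsCentrallyLarge Q) (hR : Cfsg.IsCentrallyLarge R) :
    mm (Zc R ⊓ Q) ≤ mm (Zc Q ⊓ Zc R) := by
  set F := Cfsg.maxCentralProduct P with hF
  set A := Zc Q with hA
  set B := Zc R with hB
  have hc : ∀ a ∈ A, ∀ b ∈ (B ⊓ Q : Subgroup P), a * b = b * a := fun a ha b hb =>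
    (mem_centralizer_iff.1 (Subgroup.mem_inf.1 ha).2 b (Subgroup.mem_inf.1 hb).2).symm
  have h1 := super hc
  have h2 : (A ⊓ (B ⊓ Q) : Subgroup P) = A ⊓ B := by
    apply le_antisymm
    · exact le_inf inf_le_left (inf_le_right.trans inf_le_left)
    · exact le_inf inf_le_left (le_inf inf_le_right (inf_le_left.trans inf_le_left))
  rw [h2, mm_Zc hQ] at h1
  have h3 : mm (A ⊔ (B ⊓ Q)) ≤ F :=
    mm_le (ab_sup (Zc_ab Q) (fun a ha b hb => Zc_ab R a (Subgroup.mem_inf.1 ha).1 b (Subgroup.mem_inf.1 hb).1) hc)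
  have h4 : F * mm (B ⊓ Q) ≤ F * mm (A ⊓ B) := h1.trans (Nat.mul_le_mul_right _ h3)
  exact Nat.le_of_mul_le_mul_left h4 max_pos

theorem key_lower {Q R : Subgroup P} (hQ : Cfsg.IsCentrallyLarge Q) (hR : Cfsg.IsCentrallyLarge R) :
    Nat.card (Zc R ⊓ Q : Subgroup P) * (Nat.card R * Nat.card (Zc Q : Subgroup P)) ≤
      mm (Zc R ⊓ Q) * Nat.card (R ⊓ Zc Q : Subgroup P) := by
  set W := centralizer ((Zc R ⊓ Q : Subgroup P) : Set P) with hW
  have h1 : R ≤ W := by
    calc R = centralizer ((Zc R : Subgroup P) : Set P) := (cent_Zc hR).symm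
      _ ≤ W := cent_mono inf_le_left
  have h2 : Zc Q ≤ W := by
    intro a ha
    refine mem_centralizer_iff.2 fun b hb => ?_
    exact (mem_centralizer_iff.1 (Subgroup.mem_inf.1 ha).2 b (Subgroup.mem_inf.1 hb).2)
  have h3 := card_mul_le h1 h2
  calc Nat.card (Zc R ⊓ Q : Subgroup P) * (Nat.card R * Nat.card (Zc Q : Subgroup P))
      ≤ Nat.card (Zc R ⊓ Q : Subgroup P) * (Nat.card W * Nat.card (R ⊓ Zc Q : Subgroup P)) :=
        Nat.mul_le_mul_left _ h3
    _ = _ := by ring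

/-- `|Z(R) ∩ Q| |Z(Q)| ≤ |Z(Q) ∩ R| |Z(R)|`. -/
theorem key_ineq {Q R : Subgroup P} (hQ : Cfsg.IsCentrallyLarge Q) (hR : Cfsg.IsCentrallyLarge R) :
    Nat.card (Zc R ⊓ Q : Subgroup P) * Nat.card (Zc Q : Subgroup P) ≤
      Nat.card (R ⊓ Zc Q : Subgroup P) * Nat.card (Zc R : Subgroup P) := by
  have h1 := key_lower hQ hR
  have h2 := key_le hQ hR
  have h3 : mm (Zc Q ⊓ Zc R) ≤ Cfsg.maxCentralProduct P :=
    mm_le (fun a ha b hb => Zc_ab Q a (Subgroup.mem_inf.1 ha).1 b (Subgroup.mem_inf.1 hb).1)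
  have h4 : Nat.card R * (Nat.card (Zc R ⊓ Q : Subgroup P) * Nat.card (Zc Q : Subgroup P)) ≤
      Nat.card R * (Nat.card (R ⊓ Zc Q : Subgroup P) * Nat.card (Zc R : Subgroup P)) := by
    calc Nat.card R * (Nat.card (Zc R ⊓ Q : Subgroup P) * Nat.card (Zc Q : Subgroup P))
        = Nat.card (Zc R ⊓ Q : Subgroup P) * (Nat.card R * Nat.card (Zc Q : Subgroup P)) := by ring
      _ ≤ mm (Zc R ⊓ Q) * Nat.card (R ⊓ Zc Q : Subgroup P) := h1
      _ ≤ Cfsg.maxCentralProduct P * Nat.card (R ⊓ Zc Q : Subgroup P) :=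
        Nat.mul_le_mul_right _ (h2.trans h3)
      _ = _ := by rw [← cl_eq hR]; ring
  exact Nat.le_of_mul_le_mul_left h4 (pos _)

/-- The commutator of `x b` and `y` when `b` commutes with `y`. -/
theorem comm_left {G : Type*} [Group G] {x y b : G} (h : b * y = y * b) : ⁅x * b, y⁆ = ⁅x, y⁆ := by
  rw [commutatorElement_def, commutatorElement_def]
  calc x * b * y * (x * b)⁻¹ * y⁻¹ = x * (b * y) * b⁻¹ * x⁻¹ * y⁻¹ := by group
    _ = x * (y * b) * b⁻¹ * x⁻¹ * y⁻¹ := by rw [h]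
    _ = x * y * x⁻¹ * y⁻¹ := by group

theorem comm_right {G : Type*} [Group G] {x y b : G} (h : b * x = x * b) : ⁅x, y * b⁆ = ⁅x, y⁆ := by
  rw [commutatorElement_def, commutatorElement_def]
  have h' : b * x⁻¹ = x⁻¹ * b := (Commute.inv_right (show Commute b x from h))
  calc x * (y * b) * x⁻¹ * (y * b)⁻¹ = x * y * (b * x⁻¹) * b⁻¹ * y⁻¹ := by group
    _ = x * y * (x⁻¹ * b) * b⁻¹ * y⁻¹ := by rw [h']
    _ = x * y * x⁻¹ * y⁻¹ := by group

theorem exists_mul_of_mem_sup {A B : Subgroup P} (hAB : ∀ a ∈ A, ∀ b ∈ B, a * b = b * a) {x : P}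
    (hx : x ∈ A ⊔ B) : ∃ a ∈ A, ∃ b ∈ B, x = a * b := by
  have hc : ∀ (a : A) (b : B), Commute (A.subtype a) (B.subtype b) := fun a b => hAB _ a.2 _ b.2
  have hr : (MonoidHom.noncommCoprod A.subtype B.subtype hc).range = A ⊔ B := by
    rw [MonoidHom.noncommCoprod_range]
    simp
  rw [← hr] at hx
  obtain ⟨⟨a, b⟩, rfl⟩ := hx
  exact ⟨a, a.2, b, b.2, rfl⟩

/-- Two minimal centrally large subgroups: `R = (R ∩ Q) Z(R)`. -/
theorem sup_eq {Q R : Subgroup P} (hQ : Cfsg.IsMinimalCentrallyLarge Q) (hR : Cfsg.IsMinimalCentrallyLarge R) :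
    (R ⊓ Q) ⊔ Zc R = R := by
  set F := Cfsg.maxCentralProduct P with hF
  set A := Zc Q with hA
  set B := Zc R with hB
  have k1 := key_ineq hQ.1 hR.1
  have k2 := key_ineq hR.1 hQ.1
  have hBQ : (R ⊓ Zc Q : Subgroup P) = A ⊓ R := inf_comm _ _
  have hAR : (Q ⊓ Zc R : Subgroup P) = B ⊓ Q := inf_comm _ _
  rw [hBQ] at k1
  rw [hAR] at k2
  set α := Nat.card (A ⊓ R : Subgroup P) with hα
  set β := Nat.card (B ⊓ Q : Subgroup P) with hβ
  set a := Nat.card A with ha
  set b := Nat.card B with hb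
  have heq : β * a = α * b := by
    apply le_antisymm k1
    calc α * b ≤ β * a := k2
      _ = β * a := rfl
  -- the measure of `B ∩ Q` and of `A ∩ B` is largest
  have hCle : mm (A ⊓ B) ≤ F :=
    mm_le (fun x hx y hy => Zc_ab Q x (Subgroup.mem_inf.1 hx).1 y (Subgroup.mem_inf.1 hy).1)
  have hB1lo := key_lower hQ.1 hR.1
  have hB1up := key_le hQ.1 hR.1
  rw [inf_comm R (Zc Q)] at hB1lo
  have hαpos : 0 < α := pos _
  have hFeq : F = Nat.card R * b := (cl_eq hR.1).symm
  have hmB1 : F ≤ mm (B ⊓ Q) := by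
    have h1 : F * α ≤ mm (B ⊓ Q) * α := by
      calc F * α = Nat.card R * (α * b) := by rw [hFeq]; ring
        _ = Nat.card R * (β * a) := by rw [heq]
        _ = β * (Nat.card R * a) := by ring
        _ ≤ _ := hB1lo
    exact Nat.le_of_mul_le_mul_right h1 hαpos
  have hmC : F ≤ mm (A ⊓ B) := hmB1.trans hB1up
  -- maximality of `A`
  have hcAB1 : ∀ x ∈ A, ∀ y ∈ (B ⊓ Q : Subgroup P), x * y = y * x := fun x hx y hy =>
    (mem_centralizer_iff.1 (Subgroup.mem_inf.1 hx).2 y (Subgroup.mem_inf.1 hy).2).symm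
  have hsup : F ≤ mm (A ⊔ (B ⊓ Q)) := by
    have h1 := super hcAB1
    have h2 : (A ⊓ (B ⊓ Q) : Subgroup P) = A ⊓ B := by
      apply le_antisymm
      · exact le_inf inf_le_left (inf_le_right.trans inf_le_left)
      · exact le_inf inf_le_left (le_inf inf_le_right (inf_le_left.trans inf_le_left))
    rw [h2, mm_Zc hQ.1] at h1
    have h3 : F * F ≤ mm (A ⊔ (B ⊓ Q)) * F :=
      calc F * F ≤ F * mm (B ⊓ Q) := Nat.mul_le_mul_left _ hmB1
        _ ≤ mm (A ⊔ (B ⊓ Q)) * mm (A ⊓ B) := h1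
        _ ≤ mm (A ⊔ (B ⊓ Q)) * F := Nat.mul_le_mul_left _ hCle
    exact Nat.le_of_mul_le_mul_right h3 max_pos
  have hmax := maximal_Zc hQ (ab_sup (Zc_ab Q)
    (fun x hx y hy => Zc_ab R x (Subgroup.mem_inf.1 hx).1 y (Subgroup.mem_inf.1 hy).1) hcAB1) le_sup_left hsup
  have hB1A : (B ⊓ Q : Subgroup P) ≤ A := by
    rw [← hA] at hmax
    rw [← hmax]
    exact le_sup_right
  have hB1C : (B ⊓ Q : Subgroup P) = A ⊓ B := by
    apply le_antisymm
    · exact le_inf hB1A inf_le_left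
    · exact le_inf inf_le_right (inf_le_left.trans inf_le_left)
  -- the symmetric statement
  have hA1C : (A ⊓ R : Subgroup P) = A ⊓ B := by
    have hB1lo' := key_lower hR.1 hQ.1
    have hB1up' := key_le hR.1 hQ.1
    rw [inf_comm Q (Zc R)] at hB1lo'
    have hβpos : 0 < β := pos _
    have hFeq' : F = Nat.card Q * a := (cl_eq hQ.1).symm
    have hmA1 : F ≤ mm (A ⊓ R) := by
      have h1 : F * β ≤ mm (A ⊓ R) * β := by
        calc F * β = Nat.card Q * (β * a) := by rw [hFeq']; ring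
          _ = Nat.card Q * (α * b) := by rw [heq]
          _ = α * (Nat.card Q * b) := by ring
          _ ≤ _ := hB1lo'
      exact Nat.le_of_mul_le_mul_right h1 hβpos
    have hcBA1 : ∀ x ∈ B, ∀ y ∈ (A ⊓ R : Subgroup P), x * y = y * x := fun x hx y hy =>
      (mem_centralizer_iff.1 (Subgroup.mem_inf.1 hx).2 y (Subgroup.mem_inf.1 hy).2).symm
    have hsup' : F ≤ mm (B ⊔ (A ⊓ R)) := by
      have h1 := super hcBA1
      have h2 : (B ⊓ (A ⊓ R) : Subgroup P) = B ⊓ A := by
        apply le_antisymm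
        · exact le_inf inf_le_left (inf_le_right.trans inf_le_left)
        · exact le_inf inf_le_left (le_inf inf_le_right (inf_le_left.trans inf_le_left))
      rw [h2, mm_Zc hR.1, inf_comm B A] at h1
      have h3 : F * F ≤ mm (B ⊔ (A ⊓ R)) * F :=
        calc F * F ≤ F * mm (A ⊓ R) := Nat.mul_le_mul_left _ hmA1
          _ ≤ mm (B ⊔ (A ⊓ R)) * mm (A ⊓ B) := h1
          _ ≤ mm (B ⊔ (A ⊓ R)) * F := Nat.mul_le_mul_left _ hCle
      exact Nat.le_of_mul_le_mul_right h3 max_pos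
    have hmax' := maximal_Zc hR (ab_sup (Zc_ab R)
      (fun x hx y hy => Zc_ab Q x (Subgroup.mem_inf.1 hx).1 y (Subgroup.mem_inf.1 hy).1) hcBA1) le_sup_left hsup'
    have hA1B : (A ⊓ R : Subgroup P) ≤ B := by
      rw [← hB] at hmax'
      rw [← hmax']
      exact le_sup_right
    apply le_antisymm
    · exact le_inf inf_le_left hA1B
    · exact le_inf inf_le_left (inf_le_right.trans inf_le_left)
  -- numerics
  set c := Nat.card (A ⊓ B : Subgroup P) with hc'
  have hαc : α = c := by rw [hα, hA1C]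
  have hβc : β = c := by rw [hβ, hB1C]
  have hcpos : 0 < c := pos _
  have hab : a = b := by
    rw [hαc, hβc] at heq
    exact Nat.eq_of_mul_eq_mul_left hcpos heq
  have hFQ : F = Nat.card Q * a := (cl_eq hQ.1).symm
  have huv : Nat.card Q = Nat.card R := by
    have : Nat.card Q * a = Nat.card R * a := by
      rw [← hFQ, hFeq, hab]
    exact Nat.eq_of_mul_eq_mul_right (pos _) this
  -- `Q, R ≤ C(C)`
  have hW1 : Q ≤ centralizer ((A ⊓ B : Subgroup P) : Set P) := by
    calc Q = centralizer ((Zc Q : Subgroup P) : Set P) := (cent_Zc hQ.1).symm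
      _ ≤ _ := cent_mono inf_le_left
  have hW2 : R ≤ centralizer ((A ⊓ B : Subgroup P) : Set P) := by
    calc R = centralizer ((Zc R : Subgroup P) : Set P) := (cent_Zc hR.1).symm
      _ ≤ _ := cent_mono inf_le_right
  have hprod := card_mul_le hW1 hW2
  have hm : mm (A ⊓ B) = F := le_antisymm hCle hmC
  have hnum : Nat.card Q * c ≤ b * Nat.card (Q ⊓ R : Subgroup P) := by
    have h1 : Nat.card R * (Nat.card Q * c) ≤ Nat.card R * (b * Nat.card (Q ⊓ R : Subgroup P)) := by
      calc Nat.card R * (Nat.card Q * c) = c * (Nat.card Q * Nat.card R) := by ring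
        _ ≤ c * (Nat.card (centralizer ((A ⊓ B : Subgroup P) : Set P)) * Nat.card (Q ⊓ R : Subgroup P)) :=
          Nat.mul_le_mul_left _ hprod
        _ = mm (A ⊓ B) * Nat.card (Q ⊓ R : Subgroup P) := by
          show _ = c * Nat.card (centralizer ((A ⊓ B : Subgroup P) : Set P)) * _
          ring
        _ = F * Nat.card (Q ⊓ R : Subgroup P) := by rw [hm]
        _ = _ := by rw [hFeq]; ring
    exact Nat.le_of_mul_le_mul_left h1 (pos _)
  have hcomm : ∀ x ∈ (R ⊓ Q : Subgroup P), ∀ y ∈ B, x * y = y * x := fun x hx y hy =>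
    (mem_centralizer_iff.1 (Subgroup.mem_inf.1 hy).2 x (Subgroup.mem_inf.1 hx).1)
  have hT := card_sup_mul_inf (R ⊓ Q) B hcomm
  have hinf : ((R ⊓ Q) ⊓ B : Subgroup P) = B ⊓ Q := by
    apply le_antisymm
    · exact le_inf inf_le_right (inf_le_left.trans inf_le_right)
    · exact le_inf (le_inf (inf_le_left.trans inf_le_left) inf_le_right) inf_le_left
  rw [hinf, ← hβ, hβc] at hT
  have hTge : Nat.card R ≤ Nat.card ((R ⊓ Q) ⊔ B : Subgroup P) := by
    have h1 : Nat.card R * c ≤ Nat.card ((R ⊓ Q) ⊔ B : Subgroup P) * c := by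
      rw [hT, ← huv, inf_comm R Q, mul_comm (Nat.card (Q ⊓ R : Subgroup P))]
      exact hnum
    exact Nat.le_of_mul_le_mul_right h1 hcpos
  have hle : (R ⊓ Q) ⊔ B ≤ R := sup_le inf_le_left inf_le_left
  exact Subgroup.eq_of_le_of_card_ge hle hTge

theorem commutator_le_of {Q R : Subgroup P} (hQ : Cfsg.IsMinimalCentrallyLarge Q)
    (hR : Cfsg.IsMinimalCentrallyLarge R) : ⁅R, R⁆ ≤ ⁅Q, Q⁆ := by
  have h := sup_eq hQ hR
  have hcomm : ∀ x ∈ (R ⊓ Q : Subgroup P), ∀ y ∈ (Zc R : Subgroup P), x * y = y * x := fun x hx y hy =>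
    (mem_centralizer_iff.1 (Subgroup.mem_inf.1 hy).2 x (Subgroup.mem_inf.1 hx).1)
  rw [Subgroup.commutator_le]
  intro r₁ h₁ r₂ h₂
  rw [← h] at h₁ h₂
  obtain ⟨x₁, hx₁, b₁, hb₁, rfl⟩ := exists_mul_of_mem_sup hcomm h₁
  obtain ⟨x₂, hx₂, b₂, hb₂, rfl⟩ := exists_mul_of_mem_sup hcomm h₂
  have hbR : ∀ (b : P), b ∈ (Zc R : Subgroup P) → ∀ y ∈ R, b * y = y * b := fun b hb y hy =>
    (mem_centralizer_iff.1 (Subgroup.mem_inf.1 hb).2 y hy).symm
  have hx₁R := (Subgroup.mem_inf.1 hx₁).1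
  have hx₂R := (Subgroup.mem_inf.1 hx₂).1
  have hb₂R := (Subgroup.mem_inf.1 hb₂).1
  rw [comm_left (hbR b₁ hb₁ _ (R.mul_mem hx₂R hb₂R)), comm_right (hbR b₂ hb₂ _ hx₁R)]
  exact Subgroup.commutator_mem_commutator (Subgroup.mem_inf.1 hx₁).2 (Subgroup.mem_inf.1 hx₂).2

/-- **All minimal centrally large subgroups have the same commutator subgroup.** -/
theorem commutator_eq {Q R : Subgroup P} (hQ : Cfsg.IsMinimalCentrallyLarge Q)
    (hR : Cfsg.IsMinimalCentrallyLarge R) : ⁅Q, Q⁆ = ⁅R, R⁆ :=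
  le_antisymm (commutator_le_of hR hQ) (commutator_le_of hQ hR)

end Finite

end Cfsg.Agent.Lib.PushUp.CL
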