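import Cfsg.Agent.Lib.PushUp.FF2

/-!
# Rank one pushing up: the two normality statements

`[Z(J(S)), S] ∩ Z(S) ⊴ G` or `C_S(Z(J(S))) ⊴ G`; `℧¹(Z(S)) ⊴ G` or `C_S(Z(J(S))) ⊴ G`.
-/

set_option autoImplicit false
set_option linter.unusedSectionVars false
set_option linter.style.haveILetI false
set_option linter.unusedVariables false
set_option linter.unusedSimpArgs false

namespace Cfsg.Agent.Lib.PushUp.Main

open Subgroup Cfsg.Agent.Lib.Basic.PCore Cfsg.Agent.Lib.PushUp.Core Cfsg.Agent.Lib.PushUp.Bound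
  Cfsg.Agent.Lib.PushUp.FF Cfsg.Agent.Lib.PushUp.FF2
open scoped commutatorElement

variable {G : Type*} [Group G] [Finite G] {p : ℕ} [hp : Fact p.Prime]

variable {S : Sylow p G} {M : Subgroup G}

/-- When `J(S) ≤ O_p(G)`, `Z(J(S)) ⊴ G`. -/
theorem ZZ_normal_of_le (hJ : JJ (S : Subgroup G) ≤ Cfsg.pCore p G) : (ZZ (S : Subgroup G)).Normal := by
  haveI hRn : (Cfsg.pCore p G).Normal := pCore_normal p G
  have key : ∀ (g : G) (A : Subgroup G), A ∈ Amax (S : Subgroup G) → cj g A ∈ Amax (S : Subgroup G) := by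
    intro g A hA
    refine Amax_cj hA g ?_
    rintro _ ⟨a, ha, rfl⟩
    exact pCore_le_sylow S (hRn.conj_mem a (hJ (le_JJ hA ha)) g)
  constructor
  intro n hn g
  exact conj_ZZ (key g) (key g⁻¹) hn

/-- The dichotomy when `J(S) ≤ O_p(G)`: if `C_G(Z(J(S))) S = G` every element of `Z(S)` in `Z(J(S))`
is central. -/
theorem central_of_sup_top {y : G} (hsup : centralizer ((ZZ (S : Subgroup G) : Subgroup G) : Set G) ⊔ (S : Subgroup G) = ⊤)
    [(centralizer ((ZZ (S : Subgroup G) : Subgroup G) : Set G)).Normal] (hy : y ∈ CS (S : Subgroup G)) (hZ : y ∈ ZZ (S : Subgroup G))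
    (g : G) : g * y = y * g := by
  have hg : g ∈ centralizer ((ZZ (S : Subgroup G) : Subgroup G) : Set G) ⊔ (S : Subgroup G) := by
    rw [hsup]; trivial
  rw [mem_sup_of_normal_left] at hg
  obtain ⟨x, hx, s, hs, rfl⟩ := hg
  have h1 : x * y = y * x := (mem_centralizer_iff.1 hx y hZ).symm
  have h2 : s * y = y * s := mem_centralizer_iff.1 hy.2 s hs
  rw [mul_assoc, h2, ← mul_assoc, h1, mul_assoc]

/-- The statement about `[Z(J(S)), S] ∩ Z(S)`. -/
theorem main_comm (H : Hyp S M) :
    (⁅ZZ (S : Subgroup G), (S : Subgroup G)⁆ ⊓ CS (S : Subgroup G)).Normal ∨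
      ((S : Subgroup G) ⊓ centralizer ((ZZ (S : Subgroup G) : Subgroup G) : Set G)).Normal := by
  by_cases hZ : (CS (S : Subgroup G)).Normal
  · left
    exact normal_of_central fun u hu g => CS_central_of_normal H hZ hu.2 g
  by_cases hJ : JJ (S : Subgroup G) ≤ Cfsg.pCore p G
  · haveI := ZZ_normal_of_le hJ
    by_cases hsup : centralizer ((ZZ (S : Subgroup G) : Subgroup G) : Set G) ⊔ (S : Subgroup G) = ⊤
    · left
      refine normal_of_central fun u hu g => central_of_sup_top hsup hu.2 ?_ g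
      refine commutator_ZZ_le ?_ hu.1
      exact fun s hs z hz => normalizer_ZZ (Subgroup.le_normalizer hs) hz
    · right
      exact H.inf_normal _ hsup
  · left
    have hmove := exists_move H hZ
    exact normal_of_central fun u hu g => U_central H hmove hJ hu.1 hu.2 g

/-- `Ω₁(V)`. -/
def OM (V : Subgroup G) (hV : Abel V) : Subgroup G where
  carrier := {v | v ∈ V ∧ v ^ p = 1}
  mul_mem' := by
    rintro a b ⟨ha, ha'⟩ ⟨hb, hb'⟩
    refine ⟨mul_mem ha hb, ?_⟩
    rw [(show Commute a b from hV a ha b hb).mul_pow, ha', hb', one_mul]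
  one_mem' := ⟨one_mem _, one_pow _⟩
  inv_mem' := by
    rintro a ⟨ha, ha'⟩
    exact ⟨inv_mem ha, by rw [inv_pow, ha', inv_one]⟩

omit [Finite G] in
theorem mem_OM {V : Subgroup G} {hV : Abel V} {v : G} : v ∈ OM (p := p) V hV ↔ v ∈ V ∧ v ^ p = 1 := Iff.rfl

instance OM_normal (V : Subgroup G) (hV : Abel V) [hn : V.Normal] : (OM (p := p) V hV).Normal := by
  constructor
  rintro v ⟨h1, h2⟩ g
  refine ⟨hn.conj_mem v h1 g, ?_⟩
  rw [conj_pow, h2]
  group

/-- A `p'`-element centralizing `Ω₁(V)` centralizes `V`. -/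
theorem centralize_of_OM {V : Subgroup G} (hV : Abel V) [hn : V.Normal] (hVR : V ≤ Cfsg.pCore p G) {x : G}
    (hx : (orderOf x).Coprime p) (h : ∀ e ∈ OM (p := p) V hV, x * e * x⁻¹ = e) {v : G} (hv : v ∈ V) :
    x * v * x⁻¹ = v := by
  have hpk : ∀ w ∈ V, ∃ k : ℕ, w ^ (p ^ k) = 1 := by
    intro w hw
    obtain ⟨k, hk⟩ := pCore_isPGroup (G := G) p ⟨w, hVR hw⟩
    exact ⟨k, by simpa using congrArg Subtype.val hk⟩
  obtain ⟨k, hk⟩ := hpk v hv
  induction k generalizing v with
  | zero =>
    have : v = 1 := by simpa using hk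
    rw [this]; group
  | succ k ih =>
    have h1 : x * v ^ p * x⁻¹ = v ^ p := by
      apply ih (pow_mem hv p)
      rw [← pow_mul, ← pow_succ']
      exact hk
    set c := x * v * x⁻¹ * v⁻¹ with hc
    have hcV : c ∈ V := mul_mem (hn.conj_mem v hv x) (inv_mem hv)
    have hcp : c ^ p = 1 := by
      have h2 : Commute (x * v * x⁻¹) v⁻¹ := hV _ (hn.conj_mem v hv x) _ (inv_mem hv)
      rw [hc, h2.mul_pow, conj_pow, h1, inv_pow]
      group
    have hcOM : c ∈ OM (p := p) V hV := ⟨hcV, hcp⟩
    have h3 := h c hcOM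
    have h4 : x * v * x⁻¹ = c * v := by rw [hc]; group
    obtain ⟨j, hj⟩ := hpk c hcV
    have h5 := comm_triv h4 h3 (pow_orderOf_eq_one x) hj hx
    rw [h4, h5, one_mul]

/-- The statement about `℧¹(Z(S))`. -/
theorem main_power (H : Hyp S M) :
    (Cfsg.powerClosure p 1 (CS (S : Subgroup G))).Normal ∨
      ((S : Subgroup G) ⊓ centralizer ((ZZ (S : Subgroup G) : Subgroup G) : Set G)).Normal := by
  have hclosure : (∀ y ∈ CS (S : Subgroup G), ∀ g : G, g * y ^ (p ^ 1) = y ^ (p ^ 1) * g) →
      (Cfsg.powerClosure p 1 (CS (S : Subgroup G))).Normal := by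
    intro h
    have h1 : Cfsg.powerClosure p 1 (CS (S : Subgroup G)) ≤ Subgroup.center G := by
      rw [Cfsg.powerClosure, closure_le]
      rintro _ ⟨y, hy, rfl⟩
      rw [SetLike.mem_coe, Subgroup.mem_center_iff]
      exact fun g => h y hy g
    exact normal_of_central fun u hu g => (Subgroup.mem_center_iff.1 (h1 hu)) g
  by_cases hZ : (CS (S : Subgroup G)).Normal
  · left
    refine hclosure fun y hy g => ?_
    exact (show Commute g y from CS_central_of_normal H hZ hy g).pow_right _
  by_cases hJ : JJ (S : Subgroup G) ≤ Cfsg.pCore p G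
  · haveI := ZZ_normal_of_le hJ
    by_cases hsup : centralizer ((ZZ (S : Subgroup G) : Subgroup G) : Set G) ⊔ (S : Subgroup G) = ⊤
    · left
      refine hclosure fun y hy g => ?_
      exact (show Commute g y from central_of_sup_top hsup hy (center_le_ZZ _ hy) g).pow_right _
    · right
      exact H.inf_normal _ hsup
  · left
    have hmove := exists_move H hZ
    obtain ⟨A, hA, hAR⟩ : ∃ A ∈ Amax (S : Subgroup G), ¬ A ≤ Cfsg.pCore p G := by
      by_contra hno
      push Not at hno
      exact hJ (sSup_le hno)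
    refine hclosure fun y hy g => ?_
    refine central_of S ?_ ?_ g
    · intro s hs
      exact (show Commute s y from mem_centralizer_iff.1 hy.2 s hs).pow_right _
    · intro x hx
      by_contra hne
      set V := VV (S : Subgroup G) with hVdef
      haveI hVn : V.Normal := normalClosure_normal
      have hVab : Abel V := VV_abel H
      have hVR : V ≤ Cfsg.pCore p G := VV_le_core H
      have hyV : y ∈ V := subset_normalClosure hy
      let Ω : Subgroup G := OM (p := p) V hVab
      have hΩn : Ω.Normal := OM_normal V hVab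
      have hΩV : Ω ≤ V := fun _ h => h.1
      have hΩab : Abel Ω := fun a ha b hb => hVab a ha.1 b hb.1
      -- the two applications of the lower bound
      have h1 := lower_bound H V Ω A hVR hVab hΩV hA.1 ⟨x, hx, y, hyV, fun hmem => hne (by
        have hc : (x * y * x⁻¹ * y⁻¹) ^ p = 1 := hmem.2
        have h2 : Commute (x * y * x⁻¹) y⁻¹ := hVab _ (hVn.conj_mem y hyV x) _ (inv_mem hyV)
        rw [h2.mul_pow, conj_pow, inv_pow] at hc
        have h3 : x * y ^ p * x⁻¹ = y ^ p := by
          have := mul_inv_eq_one.1 hc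
          exact this
        calc x * y ^ (p ^ 1) = (x * y ^ p * x⁻¹) * x := by rw [pow_one]; group
          _ = y ^ p * x := by rw [h3]
          _ = y ^ (p ^ 1) * x := by rw [pow_one])⟩
      have h2 := lower_bound H Ω ⊥ A (hΩV.trans hVR) hΩab bot_le hA.1 (by
        by_contra hno
        push Not at hno
        obtain ⟨x', hx', e, he, hne'⟩ := hmove
        apply hne'
        rw [mem_bot]
        have := centralize_of_OM hVab hVR hx' (fun e' he' => by
          have h3 : x' * e' * x'⁻¹ * e'⁻¹ = 1 := mem_bot.1 (hno x' hx' e' he')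
          exact mul_inv_eq_one.1 h3) he
        rw [this]
        group)
      -- the index computation
      set a := ((Cfsg.pCore p G).subgroupOf A).index with ha
      have hVS : V ≤ (S : Subgroup G) := hVR.trans (pCore_le_sylow S)
      have h3 : (A ⊓ V).relIndex V = a := by
        rw [Subgroup.inf_relIndex_right]
        exact index_VV H hmove hA
      have hle1 : A ⊓ V ≤ CC V Ω A := by
        rintro e ⟨he1, he2⟩
        refine ⟨he2, fun b hb => ?_⟩
        rw [hA.2.1 b hb e he1]
        simp [one_mem]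
      have hle2 : CC V Ω A ≤ V := CC_le _ _ _
      have h4 := Subgroup.relIndex_mul_relIndex _ _ _ hle1 hle2
      have hle3 : Ω ≤ CC V Ω A := by
        intro e he
        refine ⟨he.1, fun b hb => mul_mem (hΩn.conj_mem e he b) (inv_mem he)⟩
      have h5 : (A ⊓ V).relIndex Ω ≤ (A ⊓ V).relIndex (CC V Ω A) :=
        Subgroup.relIndex_le_of_le_right hle3 Subgroup.index_ne_zero_of_finite
      have h6 : (CC Ω ⊥ A).relIndex Ω = (A ⊓ V).relIndex Ω := by
        have hΩS : Ω ≤ (S : Subgroup G) := hΩV.trans hVS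
        rw [CC_bot_eq H hA hΩS, Subgroup.inf_relIndex_right]
        have h7 : (A ⊓ V) ⊓ Ω = A ⊓ Ω := by
          ext e
          simp only [Subgroup.mem_inf]
          exact ⟨fun h => ⟨h.1.1, h.2⟩, fun h => ⟨⟨h.1, hΩV h.2⟩, h.2⟩⟩
        rw [← Subgroup.inf_relIndex_right (A ⊓ V) Ω, h7, Subgroup.inf_relIndex_right]
      rw [h6] at h2
      have hapos : 0 < a := Nat.pos_of_ne_zero Subgroup.index_ne_zero_of_finite
      have ha2 : a * a ≤ a := by
        calc a * a ≤ (A ⊓ V).relIndex (CC V Ω A) * (CC V Ω A).relIndex V :=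
              Nat.mul_le_mul (h2.trans h5) h1
          _ = (A ⊓ V).relIndex V := h4
          _ = a := h3
      have ha1 : a = 1 := by nlinarith
      apply hAR
      have := Subgroup.relIndex_eq_one.1 ha1
      exact fun z hz => this hz

end Cfsg.Agent.Lib.PushUp.Main
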