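import Cfsg.Agent.Lib.PushUp.CLG
import Cfsg.Agent.Lib.PushUp.Main
import Cfsg.Agent.Lib.PGroup.Basic

/-!
# Centrally large subgroups and Frattini subgroups in the pushing-up situation
-/

set_option autoImplicit false
set_option linter.unusedSectionVars false
set_option linter.style.haveILetI false
set_option linter.unusedVariables false
set_option linter.unusedSimpArgs false

namespace Cfsg.Agent.Lib.PushUp.CLF

open Subgroup Cfsg.Agent.Lib.Basic.PCore Cfsg.Agent.Lib.PushUp.Core Cfsg.Agent.Lib.PushUp.Bound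
  Cfsg.Agent.Lib.PushUp.FF Cfsg.Agent.Lib.PushUp.CL Cfsg.Agent.Lib.PushUp.CLG Cfsg.Agent.Lib.PushUp.Main
open scoped commutatorElement

section Fr

variable {X : Type*} [Group X]

/-- The Frattini subgroup of a `p`-subgroup, written out in the ambient group. -/
def Fr (p : ℕ) (T : Subgroup X) : Subgroup X :=
  closure ({z | ∃ x ∈ T, ∃ y ∈ T, ⁅x, y⁆ = z} ∪ {z | ∃ x ∈ T, x ^ p = z})

theorem comm_mem_Fr (p : ℕ) {T : Subgroup X} {x y : X} (hx : x ∈ T) (hy : y ∈ T) : ⁅x, y⁆ ∈ Fr p T :=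
  subset_closure (Or.inl ⟨x, hx, y, hy, rfl⟩)

theorem pow_mem_Fr (p : ℕ) {T : Subgroup X} {x : X} (hx : x ∈ T) : x ^ p ∈ Fr p T :=
  subset_closure (Or.inr ⟨x, hx, rfl⟩)

theorem Fr_le {p : ℕ} {T N : Subgroup X} (h1 : ∀ x ∈ T, ∀ y ∈ T, ⁅x, y⁆ ∈ N) (h2 : ∀ x ∈ T, x ^ p ∈ N) :
    Fr p T ≤ N := by
  rw [Fr, closure_le]
  rintro z (⟨x, hx, y, hy, rfl⟩ | ⟨x, hx, rfl⟩)
  · exact h1 x hx y hy
  · exact h2 x hx

theorem commutator_le_Fr (p : ℕ) (T : Subgroup X) : ⁅T, T⁆ ≤ Fr p T :=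
  Subgroup.commutator_le.2 fun x hx y hy => comm_mem_Fr p hx hy

theorem map_Fr {X' : Type*} [Group X'] (f : X →* X') (p : ℕ) (T : Subgroup X) :
    (Fr p T).map f = Fr p (T.map f) := by
  apply le_antisymm
  · rw [Subgroup.map_le_iff_le_comap]
    refine Fr_le (fun x hx y hy => ?_) (fun x hx => ?_)
    · rw [Subgroup.mem_comap, map_commutatorElement]
      exact comm_mem_Fr p ⟨x, hx, rfl⟩ ⟨y, hy, rfl⟩
    · rw [Subgroup.mem_comap, map_pow]
      exact pow_mem_Fr p ⟨x, hx, rfl⟩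
  · refine Fr_le ?_ ?_
    · rintro _ ⟨x, hx, rfl⟩ _ ⟨y, hy, rfl⟩
      rw [← map_commutatorElement]
      exact ⟨_, comm_mem_Fr p hx hy, rfl⟩
    · rintro _ ⟨x, hx, rfl⟩
      rw [← map_pow]
      exact ⟨_, pow_mem_Fr p hx, rfl⟩

theorem map_frattini {p : ℕ} [Fact p.Prime] [Finite X] (T : Subgroup X) (hT : IsPGroup p T) :
    (frattini ↥T).map T.subtype = Fr p T := by
  rw [Cfsg.Agent.Lib.PGroup.Basic.frattini_eq_powCommutator hT]
  apply le_antisymm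
  · rw [Subgroup.map_le_iff_le_comap, Cfsg.Agent.Lib.PGroup.Basic.powCommutator_le_iff]
    exact ⟨fun x => pow_mem_Fr p x.2, fun x y => comm_mem_Fr p x.2 y.2⟩
  · refine Fr_le (fun x hx y hy => ?_) (fun x hx => ?_)
    · exact ⟨⁅(⟨x, hx⟩ : T), ⟨y, hy⟩⁆, Cfsg.Agent.Lib.PGroup.Basic.commutatorElement_mem_powCommutator p _ _, rfl⟩
    · exact ⟨(⟨x, hx⟩ : T) ^ p, Cfsg.Agent.Lib.PGroup.Basic.pow_mem_powCommutator p _, rfl⟩

theorem map_omegaOne {X' : Type*} [Group X'] (f : X →* X') (hf : Function.Injective f) (p : ℕ) (H : Subgroup X) :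
    (Cfsg.omegaOne p H).map f = Cfsg.omegaOne p (H.map f) := by
  unfold Cfsg.omegaOne
  rw [MonoidHom.map_closure]
  congr 1
  ext y
  constructor
  · rintro ⟨x, ⟨hx, hx'⟩, rfl⟩
    exact ⟨⟨x, hx, rfl⟩, by rw [← map_pow, hx', map_one]⟩
  · rintro ⟨⟨x, hx, rfl⟩, h⟩
    exact ⟨x, ⟨hx, hf (by rw [map_pow, h, map_one])⟩, rfl⟩

theorem Zc_map {X' : Type*} [Group X'] (f : X →* X') (hf : Function.Injective f) (T : Subgroup X) :
    Zc (T.map f) = (Zc T).map f := by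
  ext x
  constructor
  · intro hx
    obtain ⟨⟨t, ht, rfl⟩, h2⟩ := Subgroup.mem_inf.1 hx
    refine ⟨t, Subgroup.mem_inf.2 ⟨ht, mem_centralizer_iff.2 fun s hs => hf ?_⟩, rfl⟩
    rw [map_mul, map_mul]
    exact mem_centralizer_iff.1 h2 _ ⟨s, hs, rfl⟩
  · rintro ⟨t, ht, rfl⟩
    obtain ⟨h1, h2⟩ := Subgroup.mem_inf.1 ht
    refine Subgroup.mem_inf.2 ⟨⟨t, h1, rfl⟩, mem_centralizer_iff.2 ?_⟩
    rintro _ ⟨s, hs, rfl⟩
    rw [← map_mul, ← map_mul, mem_centralizer_iff.1 h2 s hs]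

/-- The order of `Ω₁(Z(T))`. -/
noncomputable def ww (p : ℕ) (T : Subgroup X) : ℕ := Nat.card (Cfsg.omegaOne p (Zc T))

theorem ww_eq (p : ℕ) (T : Subgroup X) : Nat.card ↥(Cfsg.omegaOneCenter p T) = ww p T := rfl

theorem ww_map {X' : Type*} [Group X'] (f : X →* X') (hf : Function.Injective f) (p : ℕ) (T : Subgroup X) :
    ww p (T.map f) = ww p T := by
  rw [ww, Zc_map f hf, ← map_omegaOne f hf, Subgroup.card_map_of_injective hf, ww]

theorem omegaOne_eq_OM {G : Type*} [Group G] {p : ℕ} {H : Subgroup G} (hH : Abel H) :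
    Cfsg.omegaOne p H = OM (p := p) H hH := by
  apply le_antisymm
  · rw [Cfsg.omegaOne, closure_le]
    rintro x ⟨h1, h2⟩
    exact ⟨h1, h2⟩
  · rintro x ⟨h1, h2⟩
    exact subset_closure ⟨h1, h2⟩

end Fr

section Sup

variable {P : Type*} [Group P] [Finite P] {p : ℕ}

theorem omega_bdd : BddAbove {k : ℕ | ∃ Q : Subgroup P, Cfsg.IsMinimalCentrallyLarge Q ∧
    Nat.card ↥(Cfsg.omegaOneCenter p Q) = k} := by
  have h : {k : ℕ | ∃ Q : Subgroup P, Cfsg.IsMinimalCentrallyLarge Q ∧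
      Nat.card ↥(Cfsg.omegaOneCenter p Q) = k} ⊆ Set.range (fun Q : Subgroup P => Nat.card ↥(Cfsg.omegaOneCenter p Q)) := by
    rintro k ⟨Q, -, rfl⟩
    exact ⟨Q, rfl⟩
  exact ((Set.finite_range _).subset h).bddAbove

theorem le_mz {Q : Subgroup P} (hQ : Cfsg.IsMinimalCentrallyLarge Q) :
    Nat.card ↥(Cfsg.omegaOneCenter p Q) ≤ Cfsg.maxOmegaCenterOfMinimalCL p P :=
  le_csSup omega_bdd ⟨Q, hQ, rfl⟩

theorem exists_mz : ∃ Q : Subgroup P, Cfsg.IsMinimalCentrallyLarge Q ∧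
    Nat.card ↥(Cfsg.omegaOneCenter p Q) = Cfsg.maxOmegaCenterOfMinimalCL p P := by
  obtain ⟨R, hR⟩ := exists_max (P := P)
  obtain ⟨Q, -, hQ⟩ := exists_min_le hR
  exact Nat.sSup_mem (s := {k : ℕ | ∃ Q : Subgroup P, Cfsg.IsMinimalCentrallyLarge Q ∧
    Nat.card ↥(Cfsg.omegaOneCenter p Q) = k}) ⟨_, Q, hQ, rfl⟩ omega_bdd

theorem le_join {Q : Subgroup P} (hQ : Cfsg.IsMinimalCentrallyLarge Q)
    (hc : Nat.card ↥(Cfsg.omegaOneCenter p Q) = Cfsg.maxOmegaCenterOfMinimalCL p P) :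
    (frattini ↥Q).map Q.subtype ≤ Cfsg.frattiniOfMinimalCLJoin p P :=
  le_iSup (fun Q : {Q : Subgroup P // Cfsg.IsMinimalCentrallyLarge Q ∧
      Nat.card ↥(Cfsg.omegaOneCenter p Q) = Cfsg.maxOmegaCenterOfMinimalCL p P} =>
    (frattini ↥(Q : Subgroup P)).map (Q : Subgroup P).subtype) ⟨Q, hQ, hc⟩

end Sup

section Main

variable {G : Type*} [Group G] [Finite G] {p : ℕ} [hp : Fact p.Prime] {S : Sylow p G} {M : Subgroup G}

/-- Moving a minimal centrally large subgroup into `O_p(G)`. -/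
theorem outer_step (H : Hyp S M) (hZ : ¬ (CS (S : Subgroup G)).Normal) {Q : Subgroup ↥(S : Subgroup G)}
    (hQ : Cfsg.IsMinimalCentrallyLarge Q)
    (hmax : ∀ R : Subgroup ↥(S : Subgroup G), Cfsg.IsMinimalCentrallyLarge R →
      ww p (R.map (S : Subgroup G).subtype) ≤ ww p (Q.map (S : Subgroup G).subtype)) :
    ∃ Q₂ : Subgroup ↥(S : Subgroup G), Cfsg.IsMinimalCentrallyLarge Q₂ ∧
      Q₂.map (S : Subgroup G).subtype ≤ Cfsg.pCore p G ∧
      ww p (Q₂.map (S : Subgroup G).subtype) = ww p (Q.map (S : Subgroup G).subtype) ∧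
      Fr p (Q.map (S : Subgroup G).subtype) ≤ Fr p (Q₂.map (S : Subgroup G).subtype) := by
  set Y := Cfsg.pCore p G with hY
  haveI hYn : Y.Normal := pCore_normal p G
  have hYS : Y ≤ (S : Subgroup G) := pCore_le_sylow S
  set QG := Q.map (S : Subgroup G).subtype with hQG
  set A := Zc QG with hA
  have hAab : Abel A := Zc_ab QG
  set V := VV (S : Subgroup G) with hV
  haveI hVn : V.Normal := normalClosure_normal
  have hVab : Abel V := VV_abel H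
  have hVY : V ≤ Y := VV_le_core H
  have hVc : V ≤ centralizer ((Y : Subgroup G) : Set G) := VV_le_cent H
  let V₁ : Subgroup G := OM (p := p) V hVab
  haveI hV₁n : V₁.Normal := OM_normal V hVab
  have hV₁V : V₁ ≤ V := fun _ h => h.1
  have hV₁ab : Abel V₁ := fun a ha b hb => hVab a ha.1 b hb.1
  have hV₁Y : V₁ ≤ Y := hV₁V.trans hVY
  have hV₁c : V₁ ≤ centralizer ((Y : Subgroup G) : Set G) := hV₁V.trans hVc
  have hx₁ : ∃ x : G, (orderOf x).Coprime p ∧ ∃ e ∈ V₁, x * e * x⁻¹ * e⁻¹ ∉ (⊥ : Subgroup G) := by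
    by_contra hno
    push Not at hno
    obtain ⟨x', hx', e, he, hne'⟩ := exists_move H hZ
    apply hne'
    rw [mem_bot]
    have := centralize_of_OM hVab hVY hx' (fun e' he' => by
      have h3 : x' * e' * x'⁻¹ * e'⁻¹ = 1 := mem_bot.1 (hno x' hx' e' he')
      exact mul_inv_eq_one.1 h3) he
    rw [this]
    group
  obtain ⟨hTcl, hTl⟩ := bound H hQ.1 V₁ hV₁Y hV₁c hx₁
  rw [← hQG] at hTcl hTl
  set T := (QG ⊓ Y) ⊔ V₁ with hT
  have hTY : T ≤ Y := sup_le inf_le_right hV₁Y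
  have hTS : T ≤ (S : Subgroup G) := hTY.trans hYS
  obtain ⟨Q₂, hQ₂le, hQ₂⟩ := exists_min_le hTcl
  set Q₂G := Q₂.map (S : Subgroup G).subtype with hQ₂G
  have hQ₂T : Q₂G ≤ T := by
    rintro _ ⟨q, hq, rfl⟩
    exact hQ₂le hq
  have hQ₂Y : Q₂G ≤ Y := hQ₂T.trans hTY
  -- `Z(T) ≤ Z(Q₂)`
  have hZT : Zc T ≤ Zc Q₂G := by
    intro z hz
    obtain ⟨hz1, hz2⟩ := Subgroup.mem_inf.1 hz
    have h3 : z ∈ centralizer ((Zc Q₂G : Subgroup G) : Set G) :=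
      cent_mono ((inf_le_left : Zc Q₂G ≤ Q₂G).trans hQ₂T) hz2
    exact Subgroup.mem_inf.2 ⟨inf_cent hQ₂.1 (hTS hz1) h3, cent_mono hQ₂T hz2⟩
  have hAYT : A ⊓ Y ≤ Zc T := by
    intro r hr
    obtain ⟨hrA, hrY⟩ := Subgroup.mem_inf.1 hr
    obtain ⟨hrQ, hrc⟩ := Subgroup.mem_inf.1 hrA
    refine Subgroup.mem_inf.2 ⟨(le_sup_left : QG ⊓ Y ≤ T) (Subgroup.mem_inf.2 ⟨hrQ, hrY⟩), ?_⟩
    rw [hT, cent_sup]
    refine Subgroup.mem_inf.2 ⟨mem_centralizer_iff.2 fun q hq => ?_, mem_centralizer_iff.2 fun v hv => ?_⟩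
    · exact mem_centralizer_iff.1 hrc q (Subgroup.mem_inf.1 hq).1
    · exact (mem_centralizer_iff.1 (hV₁c hv) r hrY).symm
  have hV₁T : V₁ ≤ Zc T := by
    intro v hv
    refine Subgroup.mem_inf.2 ⟨(le_sup_right : V₁ ≤ T) hv, ?_⟩
    rw [hT, cent_sup]
    refine Subgroup.mem_inf.2 ⟨mem_centralizer_iff.2 fun q hq => ?_, mem_centralizer_iff.2 fun w hw => ?_⟩
    · exact mem_centralizer_iff.1 (hV₁c hv) q (Subgroup.mem_inf.1 hq).2
    · exact hV₁ab w hw v hv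
  let A₁ : Subgroup G := OM (p := p) A hAab
  have hA₁A : A₁ ≤ A := fun _ h => h.1
  have hAS : A ≤ (S : Subgroup G) := inf_le_left.trans (Subgroup.map_subtype_le Q)
  have hA₁card : ww p QG = Nat.card A₁ := by
    rw [ww, omegaOne_eq_OM hAab]
  set W₁ := (A₁ ⊓ Y) ⊔ V₁ with hW₁
  let B₁ : Subgroup G := OM (p := p) (Zc Q₂G) (Zc_ab Q₂G)
  have hW₁B : W₁ ≤ B₁ := by
    refine sup_le (fun a ha => ?_) (fun v hv => ?_)
    · obtain ⟨h1, h2⟩ := Subgroup.mem_inf.1 ha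
      exact ⟨hZT (hAYT (Subgroup.mem_inf.2 ⟨h1.1, h2⟩)), h1.2⟩
    · exact ⟨hZT (hV₁T hv), hv.2⟩
  have hcardB : ww p Q₂G = Nat.card B₁ := by
    rw [ww, omegaOne_eq_OM (Zc_ab Q₂G)]
  have hw : Nat.card W₁ ≤ Nat.card A₁ := by
    rw [← hA₁card]
    exact (Subgroup.card_le_of_le hW₁B).trans (hcardB.symm.le.trans (hmax Q₂ hQ₂))
  set l' := (V₁ ⊓ A : Subgroup G).relIndex V₁ with hl'
  have e1 : l' * Nat.card (V₁ ⊓ A : Subgroup G) = Nat.card V₁ := by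
    have := relIndex_mul_card (V₁ ⊓ A) V₁
    rwa [inf_eq_left.2 (inf_le_left : (V₁ ⊓ A : Subgroup G) ≤ V₁)] at this
  have hcomm : ∀ a ∈ (A₁ ⊓ Y : Subgroup G), ∀ v ∈ V₁, a * v = v * a := fun a ha v hv =>
    mem_centralizer_iff.1 (hV₁c hv) a (Subgroup.mem_inf.1 ha).2
  have c1 := card_sup_mul_inf (A₁ ⊓ Y) V₁ hcomm
  have i1 : ((A₁ ⊓ Y) ⊓ V₁ : Subgroup G) = V₁ ⊓ A := by
    apply le_antisymm
    · exact le_inf inf_le_right (inf_le_left.trans (inf_le_left.trans hA₁A))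
    · intro v hv
      obtain ⟨h1, h2⟩ := Subgroup.mem_inf.1 hv
      exact Subgroup.mem_inf.2 ⟨Subgroup.mem_inf.2 ⟨⟨h2, h1.2⟩, hV₁Y h1⟩, h1⟩
  rw [i1] at c1
  have cW : Nat.card W₁ = Nat.card (A₁ ⊓ Y : Subgroup G) * l' := by
    apply Nat.eq_of_mul_eq_mul_right (pos (V₁ ⊓ A : Subgroup G))
    rw [c1, ← e1]
    ring
  set k₂ := Y.relIndex A₁ with hk₂
  have e2 : k₂ * Nat.card (A₁ ⊓ Y : Subgroup G) = Nat.card A₁ := by
    have := relIndex_mul_card Y A₁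
    rwa [inf_comm] at this
  have lb2 := lower_bound H V₁ ⊥ A₁ hV₁Y hV₁ab bot_le (hA₁A.trans hAS) hx₁
  rw [cc_eq] at lb2
  have hle3 : (V₁ ⊓ A : Subgroup G) ≤ V₁ ⊓ centralizer (A₁ : Set G) := by
    refine inf_le_inf_left _ ?_
    intro a ha
    exact mem_centralizer_iff.2 fun b hb => hAab b hb.1 a ha
  have hl₂ : k₂ ≤ l' :=
    lb2.trans (Subgroup.relIndex_le_of_le_left hle3 Subgroup.index_ne_zero_of_finite)
  have hwW : Nat.card A₁ ≤ Nat.card W₁ := by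
    rw [cW, ← e2, mul_comm]
    exact Nat.mul_le_mul_left _ hl₂
  have hww : ww p Q₂G = ww p QG := by
    apply le_antisymm (hmax Q₂ hQ₂)
    rw [hA₁card, hcardB]
    exact hwW.trans (Subgroup.card_le_of_le hW₁B)
  have hl'₂ : l' ≤ k₂ := by
    have h1 : Nat.card (A₁ ⊓ Y : Subgroup G) * l' ≤ Nat.card (A₁ ⊓ Y : Subgroup G) * k₂ := by
      rw [← cW, mul_comm _ k₂, e2]
      exact hw
    exact Nat.le_of_mul_le_mul_left h1 (pos _)
  have hCA : (V₁ ⊓ centralizer (QG : Set G) : Subgroup G) = V₁ ⊓ A := by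
    ext e
    constructor
    · intro he
      obtain ⟨h1, h2⟩ := Subgroup.mem_inf.1 he
      have h3 : e ∈ centralizer ((A : Subgroup G) : Set G) := cent_mono (inf_le_left : A ≤ QG) h2
      exact Subgroup.mem_inf.2 ⟨h1, Subgroup.mem_inf.2 ⟨inf_cent hQ.1 (hTS (le_sup_right (a := QG ⊓ Y) h1)) h3, h2⟩⟩
    · intro he
      obtain ⟨h1, h2⟩ := Subgroup.mem_inf.1 he
      exact Subgroup.mem_inf.2 ⟨h1, (Subgroup.mem_inf.1 h2).2⟩
  have lb1 := lower_bound H V₁ ⊥ QG hV₁Y hV₁ab bot_le (Subgroup.map_subtype_le Q) hx₁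
  rw [cc_eq, hCA] at lb1
  have hk₁ : Y.relIndex A ≤ Y.relIndex QG :=
    Subgroup.relIndex_le_of_le_right (inf_le_left : A ≤ QG) Subgroup.index_ne_zero_of_finite
  have hk₁₂ : Y.relIndex A ≤ k₂ := hk₁.trans ((show Y.relIndex QG ≤ l' from lb1).trans hl'₂)
  set X := A₁ ⊔ (A ⊓ Y) with hX
  have e3 : Y.relIndex A * Nat.card (A ⊓ Y : Subgroup G) = Nat.card A := by
    have := relIndex_mul_card Y A
    rwa [inf_comm] at this
  have hcomm2 : ∀ a ∈ A₁, ∀ b ∈ (A ⊓ Y : Subgroup G), a * b = b * a := fun a ha b hb =>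
    hAab a ha.1 b (Subgroup.mem_inf.1 hb).1
  have c2 := card_sup_mul_inf A₁ (A ⊓ Y) hcomm2
  have i2 : (A₁ ⊓ (A ⊓ Y) : Subgroup G) = A₁ ⊓ Y := by
    apply le_antisymm
    · exact le_inf inf_le_left (inf_le_right.trans inf_le_right)
    · exact le_inf inf_le_left (le_inf (inf_le_left.trans hA₁A) inf_le_right)
  rw [i2] at c2
  have cX : Nat.card X = k₂ * Nat.card (A ⊓ Y : Subgroup G) := by
    apply Nat.eq_of_mul_eq_mul_right (pos (A₁ ⊓ Y : Subgroup G))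
    rw [c2, ← e2]
    ring
  have hXA : X = A := Subgroup.eq_of_le_of_card_ge (sup_le hA₁A inf_le_left) (by
    rw [cX, ← e3]
    exact Nat.mul_le_mul_right _ hk₁₂)
  have hpow : ∀ a ∈ A, ∃ r ∈ Q₂G, a ^ p = r ^ p := by
    intro a ha
    rw [← hXA] at ha
    obtain ⟨a₁, ha₁, r, hr, rfl⟩ := exists_mul_of_mem_sup hcomm2 ha
    refine ⟨r, (inf_le_left : Zc Q₂G ≤ Q₂G) (hZT (hAYT hr)), ?_⟩
    rw [(show Commute a₁ r from hcomm2 a₁ ha₁ r hr).mul_pow, ha₁.2, one_mul]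
  refine ⟨Q₂, hQ₂, hQ₂Y, hww, ?_⟩
  refine Fr_le (fun x hx y hy => ?_) (fun x hx => ?_)
  · have h1 : ⁅QG, QG⁆ = ⁅Q₂G, Q₂G⁆ := by
      rw [hQG, hQ₂G, ← Subgroup.map_commutator, ← Subgroup.map_commutator, commutator_eq hQ hQ₂]
    have h2 : ⁅x, y⁆ ∈ ⁅QG, QG⁆ := Subgroup.commutator_mem_commutator hx hy
    rw [h1] at h2
    exact commutator_le_Fr p Q₂G h2
  · obtain ⟨x', hx', rfl⟩ := hx
    have hs := sup_eq hQ₂ hQ
    have hcomm3 : ∀ i ∈ (Q ⊓ Q₂ : Subgroup ↥(S : Subgroup G)), ∀ b ∈ (Zc Q : Subgroup ↥(S : Subgroup G)), i * b = b * i := fun i hi b hb =>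
      (mem_centralizer_iff.1 (Subgroup.mem_inf.1 hb).2 i (Subgroup.mem_inf.1 hi).1)
    rw [← hs] at hx'
    obtain ⟨i, hi, b, hb, rfl⟩ := exists_mul_of_mem_sup hcomm3 hx'
    have hc3 : Commute ((S : Subgroup G).subtype i) ((S : Subgroup G).subtype b) := by
      show (S : Subgroup G).subtype i * (S : Subgroup G).subtype b = (S : Subgroup G).subtype b * (S : Subgroup G).subtype i
      rw [← map_mul, ← map_mul, hcomm3 i hi b hb]
    have h3 : ((S : Subgroup G).subtype (i * b)) ^ p = ((S : Subgroup G).subtype i) ^ p * ((S : Subgroup G).subtype b) ^ p := by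
      rw [map_mul]
      exact hc3.mul_pow _
    rw [h3]
    obtain ⟨r, hr, hre⟩ := hpow ((S : Subgroup G).subtype b) (by
      rw [hA, hQG, Zc_map (S : Subgroup G).subtype (S : Subgroup G).subtype_injective]
      exact ⟨b, hb, rfl⟩)
    rw [hre]
    exact mul_mem (pow_mem_Fr p ⟨i, (Subgroup.mem_inf.1 hi).2, rfl⟩) (pow_mem_Fr p hr)

theorem mem_isP (S : Sylow p G) (Q : Subgroup ↥(S : Subgroup G)) : IsPGroup p ↥Q :=
  S.isPGroup'.to_subgroup Q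

theorem map_map_frattini (S : Sylow p G) (Q : Subgroup ↥(S : Subgroup G)) :
    ((frattini ↥Q).map Q.subtype).map (S : Subgroup G).subtype = Fr p (Q.map (S : Subgroup G).subtype) := by
  rw [map_frattini Q (mem_isP S Q), map_Fr]

/-- **The dichotomy.** -/
theorem main_fr (H : Hyp S M) :
    (CS (S : Subgroup G)).Normal ∨
      ((Cfsg.frattiniOfMinimalCLJoin p ↥(S : Subgroup G)).map (S : Subgroup G).subtype).Normal := by
  by_cases hZ : (CS (S : Subgroup G)).Normal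
  · exact Or.inl hZ
  right
  haveI hYn : (Cfsg.pCore p G).Normal := pCore_normal p G
  have hYS : Cfsg.pCore p G ≤ (S : Subgroup G) := pCore_le_sylow S
  constructor
  intro x hx g
  set J := (Cfsg.frattiniOfMinimalCLJoin p ↥(S : Subgroup G)).map (S : Subgroup G).subtype with hJ
  have h1 : J ≤ J.comap (cg g) := by
    rw [hJ, Subgroup.map_le_iff_le_comap]
    refine iSup_le fun Q => ?_
    rw [← Subgroup.map_le_iff_le_comap, ← Subgroup.map_le_iff_le_comap, map_map_frattini]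
    obtain ⟨Q₀, hQ₀, hQ₀c⟩ := Q
    have hmax : ∀ R : Subgroup ↥(S : Subgroup G), Cfsg.IsMinimalCentrallyLarge R →
        ww p (R.map (S : Subgroup G).subtype) ≤ ww p (Q₀.map (S : Subgroup G).subtype) := by
      intro R hR
      rw [ww_map _ (S : Subgroup G).subtype_injective, ww_map _ (S : Subgroup G).subtype_injective]
      rw [← ww_eq, ← ww_eq, hQ₀c]
      exact le_mz hR
    obtain ⟨Q₂, hQ₂, hQ₂Y, hww, hFr⟩ := outer_step H hZ hQ₀ hmax
    have h2 : Cfsg.Agent.Lib.PushUp.CLG.IsM (S : Subgroup G) (Q₂.map (S : Subgroup G).subtype) := ⟨Q₂, hQ₂, rfl⟩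
    obtain ⟨R₃, hR₃, hR₃e⟩ := conj_M hYS h2 hQ₂Y g
    have hc : Nat.card ↥(Cfsg.omegaOneCenter p R₃) = Cfsg.maxOmegaCenterOfMinimalCL p ↥(S : Subgroup G) := by
      rw [ww_eq, ← ww_map _ (S : Subgroup G).subtype_injective, hR₃e, ww_map _ (cg_inj g), hww,
        ww_map _ (S : Subgroup G).subtype_injective, ← ww_eq]
      exact hQ₀c
    calc (Fr p (Q₀.map (S : Subgroup G).subtype)).map (cg g)
        ≤ (Fr p (Q₂.map (S : Subgroup G).subtype)).map (cg g) := Subgroup.map_mono hFr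
      _ = Fr p ((Q₂.map (S : Subgroup G).subtype).map (cg g)) := map_Fr _ _ _
      _ = Fr p (R₃.map (S : Subgroup G).subtype) := by rw [hR₃e]
      _ = ((frattini ↥R₃).map R₃.subtype).map (S : Subgroup G).subtype := (map_map_frattini S R₃).symm
      _ ≤ _ := Subgroup.map_mono (le_join hR₃ hc)
  exact h1 hx

/-- The case `S_Φ = 1`. -/
theorem bot_case (S : Sylow p G) (h : Cfsg.frattiniOfMinimalCLJoin p ↥(S : Subgroup G) = ⊥) :
    (∀ Q : Subgroup ↥(S : Subgroup G), Cfsg.IsMinimalCentrallyLarge Q ↔ Q ∈ Cfsg.maxAbelianSubgroups ↥(S : Subgroup G)) ∧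
      ∃ A ∈ Cfsg.maxAbelianSubgroups ↥(S : Subgroup G), Cfsg.IsElementaryAbelian p A := by
  obtain ⟨Q, hQ, hc⟩ := exists_mz (P := ↥(S : Subgroup G)) (p := p)
  have h1 := le_join hQ hc
  rw [h, map_frattini Q (mem_isP S Q)] at h1
  have h2 : ∀ x ∈ Q, ∀ y ∈ Q, ⁅x, y⁆ = 1 := fun x hx y hy => Subgroup.mem_bot.1 (h1 (comm_mem_Fr p hx hy))
  have h3 : ∀ x ∈ Q, x ^ p = 1 := fun x hx => Subgroup.mem_bot.1 (h1 (pow_mem_Fr p hx))
  have hab : ⁅Q, Q⁆ = ⊥ := by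
    rw [eq_bot_iff, Subgroup.commutator_le]
    exact fun x hx y hy => Subgroup.mem_bot.2 (h2 x hx y hy)
  refine ⟨fun R => abel_case hQ hab R, Q, (abel_case hQ hab Q).1 hQ, ?_⟩
  exact ⟨mulComm_of_ab (ab_of_comm hab), h3⟩

end Main

end Cfsg.Agent.Lib.PushUp.CLF
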