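import Cfsg.Agent.Lib.PushUp.CL
import Cfsg.Agent.Lib.PushUp.Bridge

/-!
# Centrally large subgroups in the pushing-up situation
-/

set_option autoImplicit false
set_option linter.unusedSectionVars false
set_option linter.style.haveILetI false
set_option linter.unusedVariables false
set_option linter.unusedSimpArgs false

namespace Cfsg.Agent.Lib.PushUp.CLG

open Subgroup Cfsg.Agent.Lib.Basic.PCore Cfsg.Agent.Lib.PushUp.Core Cfsg.Agent.Lib.PushUp.Bound
  Cfsg.Agent.Lib.PushUp.FF Cfsg.Agent.Lib.PushUp.CL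
open scoped commutatorElement

section Generic

variable {P : Type*} [Group P] [Finite P]

theorem cl_map (φ : P ≃* P) {Q : Subgroup P} (hQ : Cfsg.IsCentrallyLarge Q) :
    Cfsg.IsCentrallyLarge (Q.map φ.toMonoidHom) := by
  show _ = _
  rw [card_map_center φ.toMonoidHom φ.injective]
  exact hQ

theorem mcl_map (φ : P ≃* P) {Q : Subgroup P} (hQ : Cfsg.IsMinimalCentrallyLarge Q) :
    Cfsg.IsMinimalCentrallyLarge (Q.map φ.toMonoidHom) := by
  refine ⟨cl_map φ hQ.1, fun R' hle hcl => ?_⟩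
  have h1 : R'.map φ.symm.toMonoidHom ≤ Q := by
    rintro _ ⟨r, hr, rfl⟩
    obtain ⟨q, hq, hqr⟩ := hle hr
    have : q = φ.symm r := by
      rw [← hqr]
      simp
    show φ.symm r ∈ Q
    rw [← this]
    exact hq
  have h2 := hQ.2 _ h1 (cl_map φ.symm hcl)
  rw [← h2]
  ext x
  constructor
  · intro hx
    exact ⟨φ.symm x, ⟨x, hx, rfl⟩, by simp⟩
  · rintro ⟨_, ⟨r, hr, rfl⟩, rfl⟩
    have : φ.toMonoidHom (φ.symm.toMonoidHom r) = r := by simp
    rw [this]
    exact hr

/-- `[Q, Q]` is characteristic. -/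
theorem char_commutator {Q : Subgroup P} (hQ : Cfsg.IsMinimalCentrallyLarge Q) : (⁅Q, Q⁆).Characteristic := by
  rw [Subgroup.characteristic_iff_map_eq]
  intro φ
  rw [Subgroup.map_commutator]
  exact (commutator_eq hQ (mcl_map φ hQ)).symm

theorem Zc_eq_of_ab {R : Subgroup P} (h : Ab R) : Zc R = R :=
  inf_eq_left.2 fun x hx => mem_centralizer_iff.2 fun y hy => h y hy x hx

theorem ab_of_comm {R : Subgroup P} (h : ⁅R, R⁆ = ⊥) : Ab R := by
  have h1 := (Subgroup.commutator_eq_bot_iff_le_centralizer).1 h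
  intro a ha b hb
  exact (mem_centralizer_iff.1 (h1 hb) a ha)

theorem ab_of_mulComm {R : Subgroup P} (h : IsMulCommutative R) : Ab R := by
  intro a ha b hb
  have := h.is_comm.comm (⟨a, ha⟩ : R) ⟨b, hb⟩
  exact congrArg Subtype.val this

theorem mulComm_of_ab {R : Subgroup P} (h : Ab R) : IsMulCommutative R :=
  ⟨⟨fun a b => Subtype.ext (h a a.2 b b.2)⟩⟩

theorem sq_of_ab {R : Subgroup P} (hR : Ab R) : Nat.card R * Nat.card (center ↥R) = Nat.card R * Nat.card R := by
  rw [card_center, Zc_eq_of_ab hR]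

/-- If `[Q, Q] = 1`, the minimal centrally large subgroups are exactly the abelian subgroups of largest order. -/
theorem abel_case {Q : Subgroup P} (hQ : Cfsg.IsMinimalCentrallyLarge Q) (hab : ⁅Q, Q⁆ = ⊥) (R : Subgroup P) :
    Cfsg.IsMinimalCentrallyLarge R ↔ R ∈ Cfsg.maxAbelianSubgroups P := by
  have hQab : Ab Q := ab_of_comm hab
  have hFQ : Nat.card Q * Nat.card Q = Cfsg.maxCentralProduct P := by
    rw [← sq_of_ab hQab]
    exact hQ.1
  constructor
  · intro hR
    have hRab : Ab R := ab_of_comm (by rw [← commutator_eq hQ hR]; exact hab)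
    have hFR : Nat.card R * Nat.card R = Cfsg.maxCentralProduct P := by
      rw [← sq_of_ab hRab]
      exact hR.1
    refine ⟨mulComm_of_ab hRab, fun B hB => ?_⟩
    have h1 := le_max B
    rw [sq_of_ab (ab_of_mulComm hB), ← hFR] at h1
    exact Nat.mul_self_le_mul_self_iff.1 h1
  · rintro ⟨hR1, hR2⟩
    have hRab := ab_of_mulComm hR1
    have hle : Nat.card Q ≤ Nat.card R := hR2 Q (mulComm_of_ab hQab)
    have hmax := le_max R
    rw [sq_of_ab hRab] at hmax
    have hFR : Nat.card R * Nat.card R = Cfsg.maxCentralProduct P := by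
      apply le_antisymm hmax
      rw [← hFQ]
      exact Nat.mul_le_mul hle hle
    have hcl : Cfsg.IsCentrallyLarge R := by
      show _ = _
      rw [sq_of_ab hRab, hFR]
    refine ⟨hcl, fun R' hle' hcl' => ?_⟩
    have hR'ab : Ab R' := fun a ha b hb => hRab a (hle' ha) b (hle' hb)
    have h1 : Nat.card R' * Nat.card R' = Nat.card R * Nat.card R := by
      rw [hFR, ← sq_of_ab hR'ab]
      exact hcl'
    have h2 : Nat.card R ≤ Nat.card R' := by
      by_contra hlt
      push Not at hlt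
      have := Nat.mul_self_lt_mul_self hlt
      omega
    exact Subgroup.eq_of_le_of_card_ge hle' h2

end Generic

section Conj

variable {G : Type*} [Group G] [Finite G]

/-- `T` is (the image of) a minimal centrally large subgroup of `S₀`. -/
def IsM (S₀ T : Subgroup G) : Prop :=
  ∃ R : Subgroup ↥S₀, Cfsg.IsMinimalCentrallyLarge R ∧ R.map S₀.subtype = T

abbrev cg (g : G) : G →* G := (MulAut.conj g).toMonoidHom

theorem cg_inj (g : G) : Function.Injective (cg g) := (MulAut.conj g).injective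

theorem cg_inv_map (g : G) (T : Subgroup G) : (T.map (cg g)).map (cg g⁻¹) = T := by
  rw [Subgroup.map_map]
  convert Subgroup.map_id T
  ext x
  simp [cg]
  group

theorem cg_map_inv (g : G) (T : Subgroup G) : (T.map (cg g⁻¹)).map (cg g) = T := by
  have := cg_inv_map g⁻¹ T
  rwa [inv_inv] at this

/-- The set of minimal centrally large subgroups lying in a normal subgroup of `S₀` is conjugation invariant. -/
theorem conj_M {S₀ Y T : Subgroup G} [hY : Y.Normal] (hYS : Y ≤ S₀) (hT : IsM S₀ T) (hTY : T ≤ Y) (g : G) :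
    IsM S₀ (T.map (cg g)) := by
  obtain ⟨R, hR, rfl⟩ := hT
  set T₀ := R.map S₀.subtype with hT₀
  have hTg : T₀.map (cg g) ≤ S₀ := by
    rintro _ ⟨t, ht, rfl⟩
    exact hYS (hY.conj_mem t (hTY ht) g)
  refine ⟨(T₀.map (cg g)).subgroupOf S₀, ⟨?_, ?_⟩, Subgroup.map_subgroupOf_eq_of_le hTg⟩
  · show _ = _
    rw [← card_map_center S₀.subtype S₀.subtype_injective, Subgroup.map_subgroupOf_eq_of_le hTg,
      card_map_center (cg g) (cg_inj g), hT₀, card_map_center S₀.subtype S₀.subtype_injective]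
    exact hR.1
  · intro R'' hle hcl
    set T'' := R''.map S₀.subtype with hT''
    have h1 : T'' ≤ T₀.map (cg g) := by
      rintro _ ⟨r, hr, rfl⟩
      exact hle hr
    have h2 : T''.map (cg g⁻¹) ≤ T₀ := by
      have := Subgroup.map_mono (f := cg g⁻¹) h1
      rwa [cg_inv_map] at this
    have h3 : T''.map (cg g⁻¹) ≤ S₀ := h2.trans (Subgroup.map_subtype_le R)
    have h4 : (T''.map (cg g⁻¹)).subgroupOf S₀ ≤ R := by
      intro x hx
      have h5 : (x : G) ∈ T₀ := h2 hx
      obtain ⟨y, hy, hyx⟩ := h5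
      have : y = x := Subtype.ext hyx
      rwa [← this]
    have h6 : Cfsg.IsCentrallyLarge ((T''.map (cg g⁻¹)).subgroupOf S₀) := by
      show _ = _
      rw [← card_map_center S₀.subtype S₀.subtype_injective, Subgroup.map_subgroupOf_eq_of_le h3,
        card_map_center (cg g⁻¹) (cg_inj g⁻¹), hT'', card_map_center S₀.subtype S₀.subtype_injective]
      exact hcl
    have h7 := hR.2 _ h4 h6
    have h8 : T''.map (cg g⁻¹) = T₀ := by
      rw [← Subgroup.map_subgroupOf_eq_of_le h3, h7]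
    have h9 : T'' = T₀.map (cg g) := by
      rw [← h8, cg_map_inv]
    apply Subgroup.map_injective S₀.subtype_injective
    rw [Subgroup.map_subgroupOf_eq_of_le hTg, ← h9]

end Conj

section Main

variable {G : Type*} [Group G] [Finite G] {p : ℕ} [hp : Fact p.Prime] {S : Sylow p G} {M : Subgroup G}

theorem Zc_map_subtype {S₀ : Subgroup G} (R : Subgroup ↥S₀) :
    Zc (R.map S₀.subtype) = (Zc R).map S₀.subtype := by
  ext x
  constructor
  · intro hx
    obtain ⟨⟨r, hr, rfl⟩, h2⟩ := Subgroup.mem_inf.1 hx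
    refine ⟨r, Subgroup.mem_inf.2 ⟨hr, mem_centralizer_iff.2 fun y hy => ?_⟩, rfl⟩
    exact Subtype.ext (mem_centralizer_iff.1 h2 _ ⟨y, hy, rfl⟩)
  · rintro ⟨r, hr, rfl⟩
    obtain ⟨h1, h2⟩ := Subgroup.mem_inf.1 hr
    refine Subgroup.mem_inf.2 ⟨⟨r, h1, rfl⟩, mem_centralizer_iff.2 ?_⟩
    rintro _ ⟨y, hy, rfl⟩
    exact congrArg Subtype.val (mem_centralizer_iff.1 h2 y hy)

/-- In the ambient group: a centrally large subgroup is the centralizer in `S` of its centre. -/
theorem inf_cent {S₀ : Subgroup G} {R : Subgroup ↥S₀} (hR : Cfsg.IsCentrallyLarge R) {x : G} (hx : x ∈ S₀)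
    (hc : x ∈ centralizer ((Zc (R.map S₀.subtype) : Subgroup G) : Set G)) : x ∈ R.map S₀.subtype := by
  have h1 : (⟨x, hx⟩ : ↥S₀) ∈ centralizer ((Zc R : Subgroup ↥S₀) : Set ↥S₀) := by
    refine mem_centralizer_iff.2 fun z hz => Subtype.ext ?_
    have h2 : (z : G) ∈ Zc (R.map S₀.subtype) := by
      rw [Zc_map_subtype]
      exact ⟨z, hz, rfl⟩
    exact mem_centralizer_iff.1 hc _ h2
  rw [cent_Zc hR] at h1
  exact ⟨_, h1, rfl⟩

/-- A subgroup `T` of `S₀` with `|T| |Z(T)|` at least the maximum is centrally large. -/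
theorem cl_subgroupOf {S₀ T : Subgroup G} (hT : T ≤ S₀)
    (h : Cfsg.maxCentralProduct ↥S₀ ≤ Nat.card T * Nat.card (Zc T : Subgroup G)) :
    Cfsg.IsCentrallyLarge (T.subgroupOf S₀) := by
  have h1 := card_map_center S₀.subtype S₀.subtype_injective (T.subgroupOf S₀)
  rw [Subgroup.map_subgroupOf_eq_of_le hT, card_center] at h1
  show _ = _
  rw [← h1] 
  refine le_antisymm ?_ h
  rw [h1]
  exact le_max _

theorem cc_eq (E A : Subgroup G) [E.Normal] :
    CC E ⊥ A = E ⊓ centralizer (A : Set G) := by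
  ext e
  rw [mem_CC, Subgroup.mem_inf, mem_centralizer_iff]
  constructor
  · rintro ⟨h1, h2⟩
    refine ⟨h1, fun a ha => ?_⟩
    have h3 := h2 a ha
    rw [Subgroup.mem_bot] at h3
    have h4 : a * e * a⁻¹ = e := by
      rwa [mul_inv_eq_one] at h3
    rw [mul_inv_eq_iff_eq_mul] at h4
    exact h4
  · rintro ⟨h1, h2⟩
    refine ⟨h1, fun a ha => ?_⟩
    rw [Subgroup.mem_bot, h2 a ha]
    group

/-- The main computation. -/
theorem bound (H : Hyp S M) {Q : Subgroup ↥(S : Subgroup G)} (hQ : Cfsg.IsCentrallyLarge Q) (E : Subgroup G)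
    [hE : E.Normal] (hEY : E ≤ Cfsg.pCore p G) (hEc : E ≤ centralizer ((Cfsg.pCore p G : Subgroup G) : Set G))
    (hx : ∃ x : G, (orderOf x).Coprime p ∧ ∃ e ∈ E, x * e * x⁻¹ * e⁻¹ ∉ (⊥ : Subgroup G)) :
    Cfsg.IsCentrallyLarge
        (((Q.map (S : Subgroup G).subtype ⊓ Cfsg.pCore p G) ⊔ E).subgroupOf (S : Subgroup G)) ∧
      (E ⊓ centralizer ((Q.map (S : Subgroup G).subtype : Subgroup G) : Set G)).relIndex E ≤
        (Cfsg.pCore p G).relIndex (Q.map (S : Subgroup G).subtype) := by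
  set Y := Cfsg.pCore p G with hY
  set QG := Q.map (S : Subgroup G).subtype with hQG
  set AG := Zc QG with hAG
  set F := Cfsg.maxCentralProduct ↥(S : Subgroup G) with hF
  have hYS : Y ≤ (S : Subgroup G) := pCore_le_sylow S
  have hQS : QG ≤ (S : Subgroup G) := Subgroup.map_subtype_le Q
  have hAQ : AG ≤ QG := inf_le_left
  have hEab : Abel E := fun a ha b hb => (mem_centralizer_iff.1 (hEc hb) a (hEY ha))
  have hcl : Nat.card QG * Nat.card AG = F := by
    have h1 := card_map_center (S : Subgroup G).subtype (S : Subgroup G).subtype_injective Q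
    rw [card_center] at h1
    rw [h1]
    exact hQ
  -- lower bounds
  have lb1 := lower_bound H E ⊥ QG hEY hEab bot_le hQS hx
  have lb2 := lower_bound H E ⊥ AG hEY hEab bot_le (hAQ.trans hQS) hx
  rw [cc_eq] at lb1 lb2
  have hEA : E ⊓ centralizer (QG : Set G) = E ⊓ AG := by
    ext e
    constructor
    · intro he
      obtain ⟨h1, h2⟩ := Subgroup.mem_inf.1 he
      have h3 : e ∈ centralizer ((AG : Subgroup G) : Set G) :=
        centralizer_le (SetLike.coe_subset_coe.2 hAQ) h2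
      exact Subgroup.mem_inf.2 ⟨h1, Subgroup.mem_inf.2 ⟨inf_cent hQ (hYS (hEY h1)) h3, h2⟩⟩
    · intro he
      obtain ⟨h1, h2⟩ := Subgroup.mem_inf.1 he
      exact Subgroup.mem_inf.2 ⟨h1, (Subgroup.mem_inf.1 h2).2⟩
  have hEQ : E ⊓ centralizer ((AG : Subgroup G) : Set G) = E ⊓ QG := by
    ext e
    constructor
    · intro he
      obtain ⟨h1, h2⟩ := Subgroup.mem_inf.1 he
      exact Subgroup.mem_inf.2 ⟨h1, inf_cent hQ (hYS (hEY h1)) h2⟩
    · intro he
      obtain ⟨h1, h2⟩ := Subgroup.mem_inf.1 he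
      exact Subgroup.mem_inf.2 ⟨h1, le_cent_Zc QG h2⟩
  rw [hEA] at lb1 ⊢
  rw [hEQ] at lb2
  set k := Y.relIndex QG with hk
  set k₁ := Y.relIndex AG with hk₁
  set l := (E ⊓ AG : Subgroup G).relIndex E with hl
  set l₁ := (E ⊓ QG : Subgroup G).relIndex E with hl₁
  have lb1' : k ≤ l := lb1
  have lb2' : k₁ ≤ l₁ := lb2
  have e1 : k * Nat.card (QG ⊓ Y : Subgroup G) = Nat.card QG := by
    have := relIndex_mul_card Y QG
    rwa [inf_comm] at this
  have e2 : k₁ * Nat.card (AG ⊓ Y : Subgroup G) = Nat.card AG := by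
    have := relIndex_mul_card Y AG
    rwa [inf_comm] at this
  have e3 : l * Nat.card (E ⊓ AG : Subgroup G) = Nat.card E := by
    have := relIndex_mul_card (E ⊓ AG) E
    rwa [inf_eq_left.2 (inf_le_left : (E ⊓ AG : Subgroup G) ≤ E)] at this
  have e4 : l₁ * Nat.card (E ⊓ QG : Subgroup G) = Nat.card E := by
    have := relIndex_mul_card (E ⊓ QG) E
    rwa [inf_eq_left.2 (inf_le_left : (E ⊓ QG : Subgroup G) ≤ E)] at this
  have hcomm1 : ∀ a ∈ (QG ⊓ Y : Subgroup G), ∀ b ∈ E, a * b = b * a := fun a ha b hb =>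
    mem_centralizer_iff.1 (hEc hb) a (Subgroup.mem_inf.1 ha).2
  have hcomm2 : ∀ a ∈ (AG ⊓ Y : Subgroup G), ∀ b ∈ E, a * b = b * a := fun a ha b hb =>
    mem_centralizer_iff.1 (hEc hb) a (Subgroup.mem_inf.1 ha).2
  have c1 := card_sup_mul_inf (QG ⊓ Y) E hcomm1
  have c2 := card_sup_mul_inf (AG ⊓ Y) E hcomm2
  have i1 : ((QG ⊓ Y) ⊓ E : Subgroup G) = E ⊓ QG := by
    apply le_antisymm
    · exact le_inf inf_le_right (inf_le_left.trans inf_le_left)
    · exact le_inf (le_inf inf_le_right (inf_le_left.trans hEY)) inf_le_left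
  have i2 : ((AG ⊓ Y) ⊓ E : Subgroup G) = E ⊓ AG := by
    apply le_antisymm
    · exact le_inf inf_le_right (inf_le_left.trans inf_le_left)
    · exact le_inf (le_inf inf_le_right (inf_le_left.trans hEY)) inf_le_left
  rw [i1] at c1
  rw [i2] at c2
  set T := (QG ⊓ Y) ⊔ E with hT
  set T₂ := (AG ⊓ Y) ⊔ E with hT₂
  have cT : Nat.card T = Nat.card (QG ⊓ Y : Subgroup G) * l₁ := by
    apply Nat.eq_of_mul_eq_mul_right (pos (E ⊓ QG : Subgroup G))
    rw [c1, ← e4]
    ring
  have cT₂ : Nat.card T₂ = Nat.card (AG ⊓ Y : Subgroup G) * l := by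
    apply Nat.eq_of_mul_eq_mul_right (pos (E ⊓ AG : Subgroup G))
    rw [c2, ← e3]
    ring
  have hTT₂ : T₂ ≤ Zc T := by
    have hT₂T : T₂ ≤ T := sup_le_sup_right (inf_le_inf_right _ hAQ) _
    refine le_inf hT₂T ?_
    rw [hT, cent_sup]
    refine sup_le (le_inf ?_ ?_) (le_inf ?_ ?_)
    · intro a ha
      exact mem_centralizer_iff.2 fun b hb =>
        (mem_centralizer_iff.1 (Subgroup.mem_inf.1 (Subgroup.mem_inf.1 ha).1).2 b (Subgroup.mem_inf.1 hb).1)
    · intro a ha
      exact mem_centralizer_iff.2 fun b hb => (hcomm2 a ha b hb).symm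
    · intro e he
      exact mem_centralizer_iff.2 fun b hb => (hcomm1 b hb e he)
    · intro e he
      exact mem_centralizer_iff.2 fun b hb => hEab b hb e he
  have hTS : T ≤ (S : Subgroup G) := sup_le (inf_le_right.trans hYS) (hEY.trans hYS)
  have hlow : Nat.card (QG ⊓ Y : Subgroup G) * l₁ * (Nat.card (AG ⊓ Y : Subgroup G) * l) ≤
      Nat.card T * Nat.card (Zc T : Subgroup G) := by
    rw [← cT, ← cT₂]
    exact Nat.mul_le_mul_left _ (Subgroup.card_le_of_le hTT₂)
  have hFeq : F = k * Nat.card (QG ⊓ Y : Subgroup G) * (k₁ * Nat.card (AG ⊓ Y : Subgroup G)) := by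
    rw [e1, e2, hcl]
  have hF1 : F ≤ Nat.card (QG ⊓ Y : Subgroup G) * l₁ * (Nat.card (AG ⊓ Y : Subgroup G) * l) := by
    rw [hFeq]
    calc k * Nat.card (QG ⊓ Y : Subgroup G) * (k₁ * Nat.card (AG ⊓ Y : Subgroup G))
        ≤ l * Nat.card (QG ⊓ Y : Subgroup G) * (l₁ * Nat.card (AG ⊓ Y : Subgroup G)) :=
          Nat.mul_le_mul (Nat.mul_le_mul_right _ lb1') (Nat.mul_le_mul_right _ lb2')
      _ = _ := by ring
  have hup : Nat.card T * Nat.card (Zc T : Subgroup G) ≤ F := by
    have h1 := card_map_center (S : Subgroup G).subtype (S : Subgroup G).subtype_injective (T.subgroupOf (S : Subgroup G))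
    rw [Subgroup.map_subgroupOf_eq_of_le hTS, card_center] at h1
    rw [h1]
    exact le_max _
  refine ⟨cl_subgroupOf hTS (hF1.trans hlow), ?_⟩
  -- `l ≤ k`
  have hk₁pos : 0 < k₁ := by
    rcases Nat.eq_zero_or_pos k₁ with h | h
    · rw [h, zero_mul] at e2
      exact absurd e2.symm (pos AG).ne'
    · exact h
  have hcancel : l₁ * l ≤ k * k₁ := by
    have h1 := hlow.trans hup
    rw [hFeq] at h1
    have h2 : (Nat.card (QG ⊓ Y : Subgroup G) * Nat.card (AG ⊓ Y : Subgroup G)) * (l₁ * l) ≤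
        (Nat.card (QG ⊓ Y : Subgroup G) * Nat.card (AG ⊓ Y : Subgroup G)) * (k * k₁) := by
      calc _ = Nat.card (QG ⊓ Y : Subgroup G) * l₁ * (Nat.card (AG ⊓ Y : Subgroup G) * l) := by ring
        _ ≤ _ := h1
        _ = _ := by ring
    exact Nat.le_of_mul_le_mul_left h2 (Nat.mul_pos (pos _) (pos _))
  by_contra hlt
  push Not at hlt
  have h3 : k * k₁ < l * k₁ := Nat.mul_lt_mul_of_pos_right hlt hk₁pos
  have h4 : l * k₁ ≤ l * l₁ := Nat.mul_le_mul_left _ lb2'
  have h5 : l * l₁ = l₁ * l := mul_comm _ _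
  omega

/-- **The dichotomy.** -/
theorem main_cl (H : Hyp S M) {Q : Subgroup ↥(S : Subgroup G)} (hQ : Cfsg.IsMinimalCentrallyLarge Q) :
    (((S : Subgroup G) ⊓ centralizer ((S : Subgroup G) : Set G)) ⊓ (⁅Q, Q⁆).map (S : Subgroup G).subtype).Normal ∨
      ((Cfsg.minimalCentrallyLargeJoin ↥(S : Subgroup G)).map (S : Subgroup G).subtype).Normal := by
  set Y := Cfsg.pCore p G with hY
  haveI hYn : Y.Normal := pCore_normal p G
  have hYS : Y ≤ (S : Subgroup G) := pCore_le_sylow S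
  by_cases hall : ∀ R : Subgroup ↥(S : Subgroup G), Cfsg.IsMinimalCentrallyLarge R →
      R.map (S : Subgroup G).subtype ≤ Y
  · right
    constructor
    intro x hx g
    have h1 : (Cfsg.minimalCentrallyLargeJoin ↥(S : Subgroup G)).map (S : Subgroup G).subtype ≤
        ((Cfsg.minimalCentrallyLargeJoin ↥(S : Subgroup G)).map (S : Subgroup G).subtype).comap (cg g) := by
      rw [Subgroup.map_le_iff_le_comap]
      refine sSup_le fun R hR => ?_
      rw [← Subgroup.map_le_iff_le_comap, ← Subgroup.map_le_iff_le_comap]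
      have h2 : IsM (S : Subgroup G) (R.map (S : Subgroup G).subtype) := ⟨R, hR, rfl⟩
      obtain ⟨R₃, hR₃, hR₃e⟩ := conj_M hYS h2 (hall R hR) g
      rw [← hR₃e]
      exact Subgroup.map_mono (le_sSup hR₃)
    exact h1 hx
  · left
    push Not at hall
    obtain ⟨R₀, hR₀, hR₀Y⟩ := hall
    by_cases hZ : (CS (S : Subgroup G)).Normal
    · refine normal_of_central fun u hu g => ?_
      exact CS_central_of_normal H hZ (Subgroup.mem_inf.1 hu).1 g
    set QG := R₀.map (S : Subgroup G).subtype with hQG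
    set V := VV (S : Subgroup G) with hV
    haveI hVn : V.Normal := normalClosure_normal
    have hVY : V ≤ Y := VV_le_core H
    have hVc : V ≤ centralizer ((Y : Subgroup G) : Set G) := VV_le_cent H
    obtain ⟨hTcl, hTl⟩ := bound H hR₀.1 V hVY hVc (exists_move H hZ)
    rw [← hQG] at hTcl hTl
    set T := (QG ⊓ Y) ⊔ V with hT
    have hTY : T ≤ Y := sup_le inf_le_right hVY
    have hTS : T ≤ (S : Subgroup G) := hTY.trans hYS
    obtain ⟨Q₂, hQ₂le, hQ₂⟩ := exists_min_le hTcl
    have hQ₂Y : Q₂.map (S : Subgroup G).subtype ≤ Y := by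
      rintro _ ⟨q, hq, rfl⟩
      exact hTY (hQ₂le hq)
    set D := (⁅Q, Q⁆).map (S : Subgroup G).subtype with hD
    have hD₂ : ⁅Q₂.map (S : Subgroup G).subtype, Q₂.map (S : Subgroup G).subtype⁆ = D := by
      rw [← Subgroup.map_commutator, hD, commutator_eq hQ hQ₂]
    have hD₀ : D ≤ QG := by
      rw [hD, commutator_eq hQ hR₀, hQG]
      refine Subgroup.map_mono (Subgroup.commutator_le.2 fun a ha b hb => ?_)
      rw [commutatorElement_def]
      exact mul_mem (mul_mem (mul_mem ha hb) (inv_mem ha)) (inv_mem hb)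
    haveI hDn : D.Normal := by
      constructor
      intro x hx g
      have h2 : IsM (S : Subgroup G) (Q₂.map (S : Subgroup G).subtype) := ⟨Q₂, hQ₂, rfl⟩
      obtain ⟨R₃, hR₃, hR₃e⟩ := conj_M hYS h2 hQ₂Y g
      have h3 : D.map (cg g) = D := by
        calc D.map (cg g) = (⁅Q₂.map (S : Subgroup G).subtype, Q₂.map (S : Subgroup G).subtype⁆).map (cg g) := by
              rw [hD₂]
          _ = ⁅(Q₂.map (S : Subgroup G).subtype).map (cg g), (Q₂.map (S : Subgroup G).subtype).map (cg g)⁆ :=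
              Subgroup.map_commutator _ _ _
          _ = ⁅R₃.map (S : Subgroup G).subtype, R₃.map (S : Subgroup G).subtype⁆ := by rw [hR₃e]
          _ = (⁅R₃, R₃⁆).map (S : Subgroup G).subtype := (Subgroup.map_commutator _ _ _).symm
          _ = D := by rw [hD, commutator_eq hQ hR₃]
      rw [← h3]
      exact ⟨x, hx, rfl⟩
    refine normal_of_central fun u hu g => ?_
    obtain ⟨huZ, huD⟩ := Subgroup.mem_inf.1 hu
    refine central_of S (fun s hs => (mem_centralizer_iff.1 (Subgroup.mem_inf.1 huZ).2 s hs)) (fun x hx => ?_) g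
    by_contra hxu
    set U := CS (S : Subgroup G) ⊓ D with hU
    set E₂ := normalClosure (U : Set G) with hE₂
    haveI hE₂n : E₂.Normal := normalClosure_normal
    have hE₂V : E₂ ≤ V := normalClosure_le_normal (fun y hy => subset_normalClosure (Subgroup.mem_inf.1 hy).1)
    have hE₂D : E₂ ≤ D := normalClosure_le_normal (fun y hy => (Subgroup.mem_inf.1 hy).2)
    have huE₂ : u ∈ E₂ := subset_normalClosure hu
    have hEab : Abel E₂ := fun a ha b hb => VV_abel H a (hE₂V ha) b (hE₂V hb)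
    have hx₂ : ∃ x : G, (orderOf x).Coprime p ∧ ∃ e ∈ E₂, x * e * x⁻¹ * e⁻¹ ∉ (⊥ : Subgroup G) := by
      refine ⟨x, hx, u, huE₂, fun h0 => hxu ?_⟩
      rw [Subgroup.mem_bot] at h0
      have h4 : x * u * x⁻¹ = u := by rwa [mul_inv_eq_one] at h0
      rwa [mul_inv_eq_iff_eq_mul] at h4
    have hQS : QG ≤ (S : Subgroup G) := Subgroup.map_subtype_le R₀
    have lb := lower_bound H E₂ ⊥ QG (hE₂V.trans hVY) hEab bot_le hQS hx₂
    rw [cc_eq] at lb
    set C := centralizer (QG : Set G) with hC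
    have hl : (V ⊓ C : Subgroup G).relIndex V ≤ (E₂ ⊓ C : Subgroup G).relIndex E₂ := hTl.trans lb
    have e1 : (V ⊓ C : Subgroup G).relIndex V * Nat.card (V ⊓ C : Subgroup G) = Nat.card V := by
      have := relIndex_mul_card (V ⊓ C) V
      rwa [inf_eq_left.2 (inf_le_left : (V ⊓ C : Subgroup G) ≤ V)] at this
    have e2 : (E₂ ⊓ C : Subgroup G).relIndex E₂ * Nat.card (E₂ ⊓ C : Subgroup G) = Nat.card E₂ := by
      have := relIndex_mul_card (E₂ ⊓ C) E₂
      rwa [inf_eq_left.2 (inf_le_left : (E₂ ⊓ C : Subgroup G) ≤ E₂)] at this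
    have hcomm : ∀ a ∈ E₂, ∀ b ∈ (V ⊓ C : Subgroup G), a * b = b * a := fun a ha b hb =>
      VV_abel H a (hE₂V ha) b (Subgroup.mem_inf.1 hb).1
    have c1 := card_sup_mul_inf E₂ (V ⊓ C) hcomm
    have i1 : (E₂ ⊓ (V ⊓ C) : Subgroup G) = E₂ ⊓ C := by
      apply le_antisymm
      · exact le_inf inf_le_left (inf_le_right.trans inf_le_right)
      · exact le_inf inf_le_left (le_inf (inf_le_left.trans hE₂V) inf_le_right)
    rw [i1] at c1
    have hW : Nat.card V ≤ Nat.card (E₂ ⊔ (V ⊓ C) : Subgroup G) := by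
      have h1 : Nat.card V * Nat.card (E₂ ⊓ C : Subgroup G) ≤
          Nat.card (E₂ ⊔ (V ⊓ C) : Subgroup G) * Nat.card (E₂ ⊓ C : Subgroup G) := by
        rw [c1, ← e2, ← e1]
        calc (V ⊓ C : Subgroup G).relIndex V * Nat.card (V ⊓ C : Subgroup G) * Nat.card (E₂ ⊓ C : Subgroup G)
            ≤ (E₂ ⊓ C : Subgroup G).relIndex E₂ * Nat.card (V ⊓ C : Subgroup G) * Nat.card (E₂ ⊓ C : Subgroup G) :=
              Nat.mul_le_mul_right _ (Nat.mul_le_mul_right _ hl)
          _ = _ := by ring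
      exact Nat.le_of_mul_le_mul_right h1 (pos _)
    have hWV : (E₂ ⊔ (V ⊓ C) : Subgroup G) = V :=
      Subgroup.eq_of_le_of_card_ge (sup_le hE₂V inf_le_left) hW
    have hVQ : V ≤ QG := by
      rw [← hWV]
      refine sup_le (hE₂D.trans hD₀) ?_
      intro v hv
      obtain ⟨h1, h2⟩ := Subgroup.mem_inf.1 hv
      have h3 : v ∈ centralizer ((Zc QG : Subgroup G) : Set G) :=
        centralizer_le (SetLike.coe_subset_coe.2 (inf_le_left : Zc QG ≤ QG)) h2
      exact inf_cent hR₀.1 (hYS (hVY h1)) h3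
    have hTQ : T ≤ QG := sup_le inf_le_left hVQ
    have hle : T.subgroupOf (S : Subgroup G) ≤ R₀ := by
      intro x hx
      obtain ⟨y, hy, hyx⟩ := hTQ hx
      have : y = x := Subtype.ext hyx
      rwa [← this]
    have heq := hR₀.2 _ hle hTcl
    apply hR₀Y
    have h5 : (T.subgroupOf (S : Subgroup G)).map (S : Subgroup G).subtype = T :=
      Subgroup.map_subgroupOf_eq_of_le hTS
    rw [heq] at h5
    calc QG = T := h5
      _ ≤ Y := hTY

end Main

end Cfsg.Agent.Lib.PushUp.CLG
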