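import Mathlib

/-!
# Characters of finite abelian groups: existence and counting, for the pushing up lower bound

A proper subgroup of a finite abelian group is killed by a nontrivial `ℂˣ`-valued character, and an
injective family of characters trivial on `C` has at most `|W : C|` members.
-/

set_option autoImplicit false
set_option linter.unusedSectionVars false
set_option linter.style.haveILetI false

namespace Cfsg.Agent.Lib.PushUp.Char

section
variable {W : Type*} [CommGroup W] [Finite W]

theorem exists_char (N : Subgroup W) (hN : N ≠ ⊤) :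
    ∃ y : W →* ℂˣ, (∀ n ∈ N, y n = 1) ∧ ∃ w, y w ≠ 1 := by
  obtain ⟨w, hw⟩ : ∃ w, w ∉ N := by
    by_contra h
    push Not at h
    exact hN (eq_top_iff.2 fun x _ => h x)
  have hne : (QuotientGroup.mk w : W ⧸ N) ≠ 1 := by
    rwa [Ne, QuotientGroup.eq_one_iff]
  haveI : NeZero (Monoid.exponent (W ⧸ N)) := ⟨Monoid.exponent_ne_zero_of_finite⟩
  obtain ⟨φ, hφ⟩ := CommGroup.exists_apply_ne_one_of_hasEnoughRootsOfUnity (W ⧸ N) ℂ hne
  refine ⟨φ.comp (QuotientGroup.mk' N), fun n hn => ?_, w, hφ⟩
  have : (QuotientGroup.mk' N) n = 1 := (QuotientGroup.eq_one_iff n).2 hn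
  rw [MonoidHom.comp_apply, this, map_one]

theorem card_le_index {I : Type*} (C : Subgroup W) (ι : I → (W →* ℂˣ))
    (hι : Function.Injective ι) (htriv : ∀ i, ∀ c ∈ C, ι i c = 1) : Nat.card I ≤ C.index := by
  haveI : NeZero (Monoid.exponent (W ⧸ C)) := ⟨Monoid.exponent_ne_zero_of_finite⟩
  let f : I → ((W ⧸ C) →* ℂˣ) := fun i => QuotientGroup.lift C (ι i) (htriv i)
  have hf : Function.Injective f := by
    intro i j h
    apply hι
    ext w
    have := DFunLike.congr_fun h (QuotientGroup.mk w)
    exact congrArg Units.val this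
  have hcard : Nat.card ((W ⧸ C) →* ℂˣ) = Nat.card (W ⧸ C) :=
    CommGroup.card_monoidHom_of_hasEnoughRootsOfUnity (W ⧸ C) ℂ
  haveI : Finite ((W ⧸ C) →* ℂˣ) := by
    apply Nat.finite_of_card_ne_zero
    rw [hcard]
    exact Nat.card_pos.ne'
  calc Nat.card I ≤ Nat.card ((W ⧸ C) →* ℂˣ) := Nat.card_le_card_of_injective f hf
    _ = C.index := by rw [hcard, Subgroup.index]

end

end Cfsg.Agent.Lib.PushUp.Char
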