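import Mathlib
import Cfsg.Prelude.Def_PLocal
import Cfsg.Agent.Lib.Basic.PCore
import Cfsg.Agent.Lib.Basic.SylowUtil
import Cfsg.Agent.Lib.Transfer.Basic
import Cfsg.Agent.Lib.PushUp.Char

/-!
# Baumann's rank one pushing up: the hypotheses, the Thompson subgroup, the lower bound

For `S` Sylow in a unique maximal subgroup `M` of `G`, with the trivial intersection property
(`Hyp.ti`), an abelian normal subgroup `E ≤ O_p(G)` not centralized by the `p'`-elements satisfies
`|A : A ∩ O_p(G)| ≤ |E : C_E(A)|` for every `A ≤ S` (`lower_bound`, also modulo a normal `D ≤ E`).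
The proof: a character `y` of a suitable `E₁ ≤ E` fixed by `S` and not by `G` has stabilizer in `M`;
by the trivial intersection property the `|A : A ∩ O_p(G)|` characters `y^{g a} / y^g`, `g ∉ M`, are
distinct, and they are trivial on `C_{E₁}(A)`.
-/

set_option autoImplicit false
set_option linter.unusedSectionVars false
set_option linter.style.haveILetI false
set_option linter.unusedVariables false
set_option linter.unusedSimpArgs false

namespace Cfsg.Agent.Lib.PushUp.Core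

open Subgroup Cfsg.Agent.Lib.Basic.PCore
open scoped commutatorElement

variable {G : Type*} [Group G] [Finite G] {p : ℕ} [hp : Fact p.Prime]

/-- Elementwise abelian subgroups. -/
def Abel (H : Subgroup G) : Prop := ∀ a ∈ H, ∀ b ∈ H, a * b = b * a

omit [Finite G] in
theorem abel_sup {A B : Subgroup G} (hA : Abel A) (hB : Abel B)
    (hAB : ∀ a ∈ A, ∀ b ∈ B, a * b = b * a) : Abel (A ⊔ B) := by
  have h1 : A ⊔ B ≤ centralizer ((A : Set G) ∪ B) := by
    refine sup_le (fun a ha => mem_centralizer_iff.2 ?_) (fun b hb => mem_centralizer_iff.2 ?_)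
    · rintro x (hx | hx)
      · exact hA x hx a ha
      · exact (hAB a ha x hx).symm
    · rintro x (hx | hx)
      · exact hAB x hx b hb
      · exact hB x hx b hb
  intro x hx y hy
  have h2 : A ⊔ B ≤ centralizer ({x} : Set G) := by
    refine sup_le (fun a ha => mem_centralizer_iff.2 ?_) (fun b hb => mem_centralizer_iff.2 ?_)
    · rintro _ rfl
      exact (mem_centralizer_iff.1 (h1 hx) a (Or.inl ha)).symm
    · rintro _ rfl
      exact (mem_centralizer_iff.1 (h1 hx) b (Or.inr hb)).symm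
  exact (mem_centralizer_iff.1 (h2 hy) x rfl)

/-- The abelian subgroups of `S` of largest order, inside `G`. -/
def Amax (S : Subgroup G) : Set (Subgroup G) :=
  {A | A ≤ S ∧ Abel A ∧ ∀ B : Subgroup G, B ≤ S → Abel B → Nat.card B ≤ Nat.card A}

theorem exists_Amax (S : Subgroup G) : ∃ A, A ∈ Amax S := by
  obtain ⟨A, hA, hmax⟩ := Set.exists_max_image {B : Subgroup G | B ≤ S ∧ Abel B}
    (fun B => Nat.card B) (Set.toFinite _) ⟨⊥, bot_le, fun a ha b hb => by
      rw [mem_bot.1 ha, mem_bot.1 hb]⟩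
  exact ⟨A, hA.1, hA.2, fun B h1 h2 => hmax B ⟨h1, h2⟩⟩

/-- The conjugate `g A g⁻¹`. -/
abbrev cj (g : G) (A : Subgroup G) : Subgroup G := A.map (MulAut.conj g).toMonoidHom

omit [Finite G] in
theorem mem_cj {g x : G} {A : Subgroup G} : x ∈ cj g A ↔ g⁻¹ * x * g ∈ A := by
  constructor
  · rintro ⟨a, ha, rfl⟩
    simpa [mul_assoc] using ha
  · intro h
    exact ⟨_, h, by simp [mul_assoc]⟩

omit [Finite G] in
theorem conj_mem_cj {g a : G} {A : Subgroup G} (ha : a ∈ A) : g * a * g⁻¹ ∈ cj g A :=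
  ⟨a, ha, rfl⟩

omit [Finite G] in
theorem card_cj (g : G) (A : Subgroup G) : Nat.card (cj g A) = Nat.card A :=
  Subgroup.card_map_of_injective (MulAut.conj g).injective

omit [Finite G] in
theorem abel_cj {g : G} {A : Subgroup G} (h : Abel A) : Abel (cj g A) := by
  rintro _ ⟨a, ha, rfl⟩ _ ⟨b, hb, rfl⟩
  show g * a * g⁻¹ * (g * b * g⁻¹) = g * b * g⁻¹ * (g * a * g⁻¹)
  have := h a ha b hb
  calc g * a * g⁻¹ * (g * b * g⁻¹) = g * (a * b) * g⁻¹ := by group
    _ = g * (b * a) * g⁻¹ := by rw [this]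
    _ = _ := by group

theorem Amax_cj {S A : Subgroup G} (hA : A ∈ Amax S) (g : G) (hg : cj g A ≤ S) :
    cj g A ∈ Amax S := by
  refine ⟨hg, abel_cj hA.2.1, fun B h1 h2 => ?_⟩
  rw [card_cj]
  exact hA.2.2 B h1 h2

theorem Amax_of_card {S A A' : Subgroup G} (hA : A ∈ Amax S) (h1 : A' ≤ S) (h2 : Abel A')
    (h3 : Nat.card A ≤ Nat.card A') : A' ∈ Amax S :=
  ⟨h1, h2, fun B hB hB' => (hA.2.2 B hB hB').trans h3⟩

theorem self_cent {S A : Subgroup G} (hA : A ∈ Amax S) {x : G} (hx : x ∈ S)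
    (hc : ∀ a ∈ A, x * a = a * x) : x ∈ A := by
  have habel : Abel (A ⊔ zpowers x) := by
    refine abel_sup hA.2.1 ?_ ?_
    · rintro _ ⟨i, rfl⟩ _ ⟨j, rfl⟩
      simp only
      exact (Commute.refl x).zpow_zpow i j
    · rintro a ha _ ⟨j, rfl⟩
      exact ((Commute.zpow_left (hc a ha) j).symm : Commute a (x ^ j))
  have hle : A ⊔ zpowers x ≤ S := sup_le hA.1 (by
    rw [zpowers_le]; exact hx)
  have hcard := hA.2.2 _ hle habel
  have heq : A = A ⊔ zpowers x := Subgroup.eq_of_le_of_card_ge le_sup_left hcard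
  rw [heq]
  exact mem_sup_right (mem_zpowers x)

/-- `J(S)` in `G`. -/
def JJ (S : Subgroup G) : Subgroup G := sSup (Amax S)

theorem le_JJ {S A : Subgroup G} (hA : A ∈ Amax S) : A ≤ JJ S := le_sSup hA

theorem JJ_le (S : Subgroup G) : JJ S ≤ S := sSup_le fun _ h => h.1

/-- `Z(J(S))` in `G`. -/
def ZZ (S : Subgroup G) : Subgroup G := JJ S ⊓ centralizer (JJ S : Set G)

theorem thompsonOf_eq (S : Subgroup G) : Cfsg.thompsonSubgroupAOf S = JJ S := by
  apply le_antisymm
  · refine Subgroup.map_le_iff_le_comap.2 (sSup_le fun B hB => ?_)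
    refine Subgroup.map_le_iff_le_comap.1 (le_JJ ?_)
    refine ⟨Subgroup.map_subtype_le _, ?_, fun C hC hC' => ?_⟩
    · rintro _ ⟨a, ha, rfl⟩ _ ⟨b, hb, rfl⟩
      have := hB.1.is_comm.comm (⟨a, ha⟩ : B) ⟨b, hb⟩
      exact congrArg (fun u : B => ((u : S) : G)) this
    · have hC1 : IsMulCommutative (C.subgroupOf S) := ⟨⟨fun a b => Subtype.ext (Subtype.ext
        (hC' _ a.2 _ b.2))⟩⟩
      have h1 := hB.2 _ hC1
      have h2 : Nat.card (C.subgroupOf S) = Nat.card C :=
        Nat.card_congr (Subgroup.subgroupOfEquivOfLe hC).toEquiv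
      have h3 : Nat.card (B.map S.subtype) = Nat.card B :=
        Subgroup.card_map_of_injective S.subtype_injective
      omega
  · refine sSup_le fun A hA => ?_
    have hmem : A.subgroupOf S ∈ Cfsg.maxAbelianSubgroups S := by
      refine ⟨⟨⟨fun a b => Subtype.ext (Subtype.ext (hA.2.1 _ a.2 _ b.2))⟩⟩, fun B hB => ?_⟩
      have h1 : Nat.card (A.subgroupOf S) = Nat.card A :=
        Nat.card_congr (Subgroup.subgroupOfEquivOfLe hA.1).toEquiv
      have h3 : Nat.card (B.map S.subtype) = Nat.card B :=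
        Subgroup.card_map_of_injective S.subtype_injective
      have h4 := hA.2.2 (B.map S.subtype) (Subgroup.map_subtype_le _) (by
        rintro _ ⟨a, ha, rfl⟩ _ ⟨b, hb, rfl⟩
        have := hB.is_comm.comm (⟨a, ha⟩ : B) ⟨b, hb⟩
        exact congrArg (fun u : B => ((u : S) : G)) this)
      omega
    intro a ha
    exact ⟨⟨a, hA.1 ha⟩, le_sSup hmem (show _ ∈ A.subgroupOf S from ha), rfl⟩

theorem center_eq (S : Subgroup G) : Cfsg.centerThompsonAOf S = ZZ S := by
  unfold Cfsg.centerThompsonAOf ZZ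
  rw [thompsonOf_eq]

theorem ZZ_le_Amax {S A : Subgroup G} (hA : A ∈ Amax S) : ZZ S ≤ A := by
  intro z hz
  refine self_cent hA (JJ_le S hz.1) fun a ha => ?_
  exact (mem_centralizer_iff.1 hz.2 a (le_JJ hA ha)).symm

theorem ZZ_le_S (S : Subgroup G) : ZZ S ≤ S := inf_le_left.trans (JJ_le S)

theorem ZZ_abel (S : Subgroup G) : Abel (ZZ S) := by
  intro a ha b hb
  exact (mem_centralizer_iff.1 ha.2 b hb.1).symm

theorem center_le_ZZ (S : Subgroup G) : S ⊓ centralizer (S : Set G) ≤ ZZ S := by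
  intro y hy
  obtain ⟨A, hA⟩ := exists_Amax S
  have hmem : ∀ A' ∈ Amax S, y ∈ A' := fun A' hA' =>
    self_cent hA' hy.1 fun a ha => (mem_centralizer_iff.1 hy.2 a (hA'.1 ha)).symm
  refine ⟨le_JJ hA (hmem A hA), mem_centralizer_iff.2 fun j hj => ?_⟩
  exact mem_centralizer_iff.1 hy.2 j (JJ_le S hj)

/-- If conjugation by `g` and `g⁻¹` permute `Amax S`, then `g` normalizes `J(S)` and `Z(J(S))`. -/
theorem conj_JJ {S : Subgroup G} {g : G} (h1 : ∀ A ∈ Amax S, cj g A ∈ Amax S) {x : G}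
    (hx : x ∈ JJ S) : g * x * g⁻¹ ∈ JJ S := by
  have : JJ S ≤ (JJ S).comap (MulAut.conj g).toMonoidHom :=
    sSup_le fun A hA a ha => le_JJ (h1 A hA) (conj_mem_cj ha)
  exact this hx

theorem conj_ZZ {S : Subgroup G} {g : G} (h1 : ∀ A ∈ Amax S, cj g A ∈ Amax S)
    (h2 : ∀ A ∈ Amax S, cj g⁻¹ A ∈ Amax S) {x : G} (hx : x ∈ ZZ S) : g * x * g⁻¹ ∈ ZZ S := by
  refine ⟨conj_JJ h1 hx.1, mem_centralizer_iff.2 fun j hj => ?_⟩
  have h3 : g⁻¹ * j * g⁻¹⁻¹ ∈ JJ S := conj_JJ h2 hj
  have h4 := mem_centralizer_iff.1 hx.2 _ h3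
  rw [inv_inv] at h4
  calc j * (g * x * g⁻¹) = g * ((g⁻¹ * j * g) * x) * g⁻¹ := by group
    _ = g * (x * (g⁻¹ * j * g)) * g⁻¹ := by rw [h4]
    _ = _ := by group

theorem cj_le_of_normalizer {S A : Subgroup G} {g : G} (hA : A ≤ S)
    (hg : g ∈ normalizer (S : Set G)) : cj g A ≤ S := by
  rintro _ ⟨a, ha, rfl⟩
  exact (mem_normalizer_iff.1 hg a).1 (hA ha)

theorem normalizer_Amax {S A : Subgroup G} {g : G} (hg : g ∈ normalizer (S : Set G))
    (hA : A ∈ Amax S) : cj g A ∈ Amax S := Amax_cj hA g (cj_le_of_normalizer hA.1 hg)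

theorem normalizer_ZZ {S : Subgroup G} {g x : G} (hg : g ∈ normalizer (S : Set G))
    (hx : x ∈ ZZ S) : g * x * g⁻¹ ∈ ZZ S :=
  conj_ZZ (fun _ hA => normalizer_Amax hg hA)
    (fun _ hA => normalizer_Amax (inv_mem hg) hA) hx

theorem normalizer_JJ {S : Subgroup G} {g x : G} (hg : g ∈ normalizer (S : Set G))
    (hx : x ∈ JJ S) : g * x * g⁻¹ ∈ JJ S :=
  conj_JJ (fun _ hA => normalizer_Amax hg hA) hx

omit [Finite G] in
theorem le_normalizer_self {S : Subgroup G} {s : G} (hs : s ∈ S) : s ∈ normalizer (S : Set G) :=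
  Subgroup.le_normalizer hs

end Cfsg.Agent.Lib.PushUp.Core
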