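import Cfsg.Agent.Lib.PushUp.Bound

/-!
# Rank one pushing up: the failure of factorization case

With `V = ⟨Z(S)^G⟩`, every `A ∈ 𝒜(S)` has `|V : C_V(A)| = |A : A ∩ O_p(G)|`, so `V (A ∩ O_p(G)) ∈ 𝒜(S)`;
this gives `Z(J(S)) ≤ O_p(G)`, `B = ⟨Z(J(S))^G⟩` abelian with `[B, A] ≤ V`, and `[Z(J(S)), S] ⊴ G`
centralized by `⟨J(S)^G⟩`.
-/

set_option autoImplicit false
set_option linter.unusedSectionVars false
set_option linter.style.haveILetI false
set_option linter.unusedVariables false
set_option linter.unusedSimpArgs false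

namespace Cfsg.Agent.Lib.PushUp.FF

open Subgroup Cfsg.Agent.Lib.Basic.PCore Cfsg.Agent.Lib.PushUp.Core Cfsg.Agent.Lib.PushUp.Bound
open scoped commutatorElement

variable {G : Type*} [Group G] [Finite G] {p : ℕ} [hp : Fact p.Prime]

/-- `Z(S)`. -/
abbrev CS (S : Subgroup G) : Subgroup G := S ⊓ centralizer (S : Set G)

/-- `⟨Z(S)^G⟩`. -/
abbrev VV (S : Subgroup G) : Subgroup G := normalClosure (CS S : Set G)

omit [Finite G] in
theorem card_subgroupOf (H K : Subgroup G) : Nat.card (H.subgroupOf K) = Nat.card (H ⊓ K : Subgroup G) := by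
  rw [← Subgroup.subgroupOf_map_subtype]
  exact (Subgroup.card_map_of_injective K.subtype_injective).symm

/-- The product formula for commuting subgroups. -/
theorem card_sup_mul_inf (A B : Subgroup G) (hAB : ∀ a ∈ A, ∀ b ∈ B, a * b = b * a) :
    Nat.card (A ⊔ B : Subgroup G) * Nat.card (A ⊓ B : Subgroup G) = Nat.card A * Nat.card B := by
  have hc : ∀ (a : A) (b : B), Commute (A.subtype a) (B.subtype b) := fun a b => hAB _ a.2 _ b.2
  let f : A × B →* G := MonoidHom.noncommCoprod A.subtype B.subtype hc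
  have hr : f.range = A ⊔ B := by
    rw [MonoidHom.noncommCoprod_range]
    simp
  have hk : Nat.card f.ker = Nat.card (A ⊓ B : Subgroup G) := by
    refine (Nat.card_congr ?_).symm
    refine
      { toFun := fun x => ⟨(⟨x, (Subgroup.mem_inf.1 x.2).1⟩, ⟨(x : G)⁻¹, inv_mem (Subgroup.mem_inf.1 x.2).2⟩), ?_⟩
        invFun := fun y => ⟨((y : A × B).1 : G), Subgroup.mem_inf.2 ⟨(y : A × B).1.2, ?_⟩⟩
        left_inv := fun x => rfl
        right_inv := fun y => ?_ }
    · show (x : G) * (x : G)⁻¹ = 1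
      simp
    · have h : ((y : A × B).1 : G) * ((y : A × B).2 : G) = 1 := y.2
      have h2 : ((y : A × B).1 : G) = ((y : A × B).2 : G)⁻¹ := eq_inv_of_mul_eq_one_left h
      rw [h2]
      exact inv_mem (y : A × B).2.2
    · have h : ((y : A × B).1 : G) * ((y : A × B).2 : G) = 1 := y.2
      have h2 : ((y : A × B).1 : G)⁻¹ = ((y : A × B).2 : G) := inv_eq_of_mul_eq_one_right h
      apply Subtype.ext
      apply Prod.ext
      · rfl
      · exact Subtype.ext h2
  have h1 := Subgroup.card_mul_index f.ker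
  rw [Subgroup.index_ker, hk, hr, Nat.card_prod] at h1
  rw [mul_comm, h1]

/-- `H.relIndex K * |H ∩ K| = |K|`. -/
theorem relIndex_mul_card (H K : Subgroup G) :
    H.relIndex K * Nat.card (H ⊓ K : Subgroup G) = Nat.card K := by
  have := Subgroup.card_mul_index (H.subgroupOf K)
  rw [card_subgroupOf] at this
  rw [mul_comm]
  exact this

theorem sylow_sup_res (S : Sylow p G) : (S : Subgroup G) ⊔ Cfsg.pResidual p G = ⊤ := by
  haveI := Cfsg.Agent.Lib.Transfer.Basic.pResidual_normal p G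
  have hq : IsPGroup p (G ⧸ Cfsg.pResidual p G) := Cfsg.Agent.Lib.Transfer.Basic.isPGroup_quotient_pResidual
  have h1 : ((S : Subgroup G) ⊔ Cfsg.pResidual p G).index ∣ (S : Subgroup G).index :=
    Subgroup.index_dvd_of_le le_sup_left
  have h2 : ((S : Subgroup G) ⊔ Cfsg.pResidual p G).index ∣ (Cfsg.pResidual p G).index :=
    Subgroup.index_dvd_of_le le_sup_right
  obtain ⟨k, hk⟩ := IsPGroup.iff_card.mp hq
  have h3 : (Cfsg.pResidual p G).index = p ^ k := by rw [Subgroup.index]; exact hk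
  rw [h3] at h2
  obtain ⟨j, -, hj⟩ := (Nat.dvd_prime_pow (Fact.out : p.Prime)).mp h2
  rw [← Subgroup.index_eq_one, hj]
  rcases j with _ | j
  · simp
  · exfalso
    apply S.not_dvd_index
    rw [hj] at h1
    exact (dvd_pow_self p (Nat.succ_ne_zero j)).trans h1

/-- A subgroup containing `S` and all `p'`-elements is everything. -/
theorem eq_top_of_res (S : Sylow p G) {X : Subgroup G} (h1 : (S : Subgroup G) ≤ X)
    (h2 : ∀ x : G, (orderOf x).Coprime p → x ∈ X) : X = ⊤ := by
  rw [eq_top_iff, ← sylow_sup_res S]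
  refine sup_le h1 ?_
  rw [Cfsg.pResidual, closure_le]
  exact fun x hx => h2 x hx

theorem central_of (S : Sylow p G) {y : G} (h1 : ∀ s ∈ (S : Subgroup G), s * y = y * s)
    (h2 : ∀ x : G, (orderOf x).Coprime p → x * y = y * x) (g : G) : g * y = y * g := by
  have := eq_top_of_res S (X := centralizer ({y} : Set G))
    (fun s hs => mem_centralizer_iff.2 (by rintro _ rfl; exact (h1 s hs).symm))
    (fun x hx => mem_centralizer_iff.2 (by rintro _ rfl; exact (h2 x hx).symm))
  have h3 : g ∈ centralizer ({y} : Set G) := this ▸ mem_top g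
  exact (mem_centralizer_iff.1 h3 y rfl).symm

theorem normal_of_central {U : Subgroup G} (h : ∀ u ∈ U, ∀ g : G, g * u = u * g) : U.Normal := by
  constructor
  intro n hn g
  rw [h n hn g]
  simpa using hn

section Hyp

variable {S : Sylow p G} {M : Subgroup G} (H : Hyp S M)
include H

theorem CS_le_core : CS (S : Subgroup G) ≤ Cfsg.pCore p G := by
  intro y hy
  apply H.cent
  rw [mem_centralizer_iff]
  intro r hr
  exact mem_centralizer_iff.1 hy.2 r (pCore_le_sylow S hr)

theorem VV_le_cent : VV (S : Subgroup G) ≤ centralizer ((Cfsg.pCore p G : Subgroup G) : Set G) := by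
  haveI hRn : (Cfsg.pCore p G).Normal := pCore_normal p G
  refine normalClosure_le_normal (N := centralizer ((Cfsg.pCore p G : Subgroup G) : Set G)) ?_
  intro y hy
  rw [SetLike.mem_coe, mem_centralizer_iff]
  intro r hr
  exact mem_centralizer_iff.1 hy.2 r (pCore_le_sylow S hr)

theorem VV_le_core : VV (S : Subgroup G) ≤ Cfsg.pCore p G := (VV_le_cent H).trans H.cent

theorem VV_comm {v r : G} (hv : v ∈ VV (S : Subgroup G)) (hr : r ∈ Cfsg.pCore p G) : v * r = r * v :=
  (mem_centralizer_iff.1 (VV_le_cent H hv) r hr).symm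

theorem VV_abel : Abel (VV (S : Subgroup G)) := fun a ha b hb => VV_comm H ha (VV_le_core H hb)

/-- If `Z(S) ⊴ G` then `Z(S) ≤ Z(G)`. -/
theorem CS_central_of_normal (h : (CS (S : Subgroup G)).Normal) {y : G}
    (hy : y ∈ CS (S : Subgroup G)) (g : G) : g * y = y * g := by
  haveI := h
  have h1 : (S : Subgroup G) ≤ centralizer ((CS (S : Subgroup G) : Subgroup G) : Set G) := by
    intro s hs
    rw [mem_centralizer_iff]
    intro c hc
    exact (mem_centralizer_iff.1 hc.2 s hs).symm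
  have h2 := H.eq_top_of_normal h1
  have h3 : g ∈ centralizer ((CS (S : Subgroup G) : Subgroup G) : Set G) := h2 ▸ mem_top g
  exact (mem_centralizer_iff.1 h3 y hy).symm

/-- If `Z(S)` is not normal, some `p'`-element moves `V`. -/
theorem exists_move (h : ¬ (CS (S : Subgroup G)).Normal) :
    ∃ x : G, (orderOf x).Coprime p ∧ ∃ e ∈ VV (S : Subgroup G), x * e * x⁻¹ * e⁻¹ ∉ (⊥ : Subgroup G) := by
  by_contra hno
  push Not at hno
  apply h
  refine normal_of_central fun u hu g => ?_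
  refine central_of S (fun s hs => (mem_centralizer_iff.1 hu.2 s hs)) (fun x hx => ?_) g
  have h1 := hno x hx u (subset_normalClosure hu)
  have h2 : x * u * x⁻¹ * u⁻¹ = 1 := mem_bot.1 h1
  calc x * u = x * u * x⁻¹ * u⁻¹ * (u * x) := by group
    _ = u * x := by rw [h2, one_mul]

end Hyp

section Offender

variable {S : Sylow p G} {A W : Subgroup G}

/-- Thompson's inequality. -/
theorem offender (hA : A ∈ Amax (S : Subgroup G)) (hWR : W ≤ Cfsg.pCore p G) (hWab : Abel W)
    (hc : ∀ w ∈ W, ∀ a ∈ A ⊓ Cfsg.pCore p G, w * a = a * w) :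
    A.relIndex W ≤ ((Cfsg.pCore p G).subgroupOf A).index ∧
    (A.relIndex W = ((Cfsg.pCore p G).subgroupOf A).index →
      W ⊔ (A ⊓ Cfsg.pCore p G) ∈ Amax (S : Subgroup G)) := by
  have hRS : Cfsg.pCore p G ≤ (S : Subgroup G) := pCore_le_sylow S
  have hW₁ab : Abel (W ⊔ (A ⊓ Cfsg.pCore p G)) :=
    abel_sup hWab (fun a ha b hb => hA.2.1 a ha.1 b hb.1) hc
  have hW₁S : W ⊔ (A ⊓ Cfsg.pCore p G) ≤ (S : Subgroup G) :=
    sup_le (hWR.trans hRS) (inf_le_right.trans hRS)
  have h1 := hA.2.2 _ hW₁S hW₁ab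
  have h2 := card_sup_mul_inf W (A ⊓ Cfsg.pCore p G) hc
  have h3 : W ⊓ (A ⊓ Cfsg.pCore p G) = A ⊓ W := by
    ext x
    simp only [Subgroup.mem_inf]
    exact ⟨fun h => ⟨h.2.1, h.1⟩, fun h => ⟨h.2, h.1, hWR h.2⟩⟩
  rw [h3] at h2
  have h4 := relIndex_mul_card A W
  have h5 : ((Cfsg.pCore p G).subgroupOf A).index * Nat.card (A ⊓ Cfsg.pCore p G : Subgroup G) = Nat.card A := by
    have := relIndex_mul_card (Cfsg.pCore p G) A
    rwa [inf_comm] at this
  have hi : 0 < Nat.card (A ⊓ W : Subgroup G) := Nat.card_pos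
  have hr : 0 < Nat.card (A ⊓ Cfsg.pCore p G : Subgroup G) := Nat.card_pos
  set i := Nat.card (A ⊓ W : Subgroup G)
  set r := Nat.card (A ⊓ Cfsg.pCore p G : Subgroup G)
  set a := ((Cfsg.pCore p G).subgroupOf A).index
  set c := A.relIndex W
  set w := Nat.card W
  set n := Nat.card A
  set m := Nat.card (W ⊔ (A ⊓ Cfsg.pCore p G) : Subgroup G)
  constructor
  · have h6 : c * i * r ≤ a * i * r := by
      calc c * i * r = w * r := by rw [h4]
        _ = m * i := h2.symm
        _ ≤ n * i := Nat.mul_le_mul_right _ h1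
        _ = a * i * r := by rw [← h5]; ring
    have h7 : c * i ≤ a * i := Nat.le_of_mul_le_mul_right h6 hr
    exact Nat.le_of_mul_le_mul_right h7 hi
  · intro he
    refine Amax_of_card hA hW₁S hW₁ab ?_
    have h6 : n * i = m * i := by
      calc n * i = a * r * i := by rw [h5]
        _ = c * i * r := by rw [he]; ring
        _ = w * r := by rw [h4]
        _ = m * i := h2.symm
    exact (Nat.eq_of_mul_eq_mul_right hi h6).le

end Offender

section Main

variable {S : Sylow p G} {M : Subgroup G} (H : Hyp S M)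
  (hmove : ∃ x : G, (orderOf x).Coprime p ∧ ∃ e ∈ VV (S : Subgroup G), x * e * x⁻¹ * e⁻¹ ∉ (⊥ : Subgroup G))
include H

/-- `C_V(A)` as a subgroup `CC`. -/
theorem CC_bot_eq {W A : Subgroup G} (hA : A ∈ Amax (S : Subgroup G)) (hW : W ≤ (S : Subgroup G)) :
    CC W ⊥ A = A ⊓ W := by
  ext e
  rw [mem_CC, Subgroup.mem_inf]
  constructor
  · rintro ⟨he, h⟩
    refine ⟨self_cent hA (hW he) fun a ha => ?_, he⟩
    have h1 : a * e * a⁻¹ * e⁻¹ = 1 := mem_bot.1 (h a ha)
    have h2 : a * e = e * a := by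
      calc a * e = a * e * a⁻¹ * e⁻¹ * (e * a) := by group
        _ = e * a := by rw [h1, one_mul]
    exact h2.symm
  · rintro ⟨h1, h2⟩
    refine ⟨h2, fun a ha => ?_⟩
    rw [mem_bot, hA.2.1 a ha e h1]
    group

include hmove

theorem index_VV {A : Subgroup G} (hA : A ∈ Amax (S : Subgroup G)) :
    A.relIndex (VV (S : Subgroup G)) = ((Cfsg.pCore p G).subgroupOf A).index := by
  have hVR := VV_le_core H
  have hVS := hVR.trans (pCore_le_sylow S)
  have h1 := (offender hA hVR (VV_abel H) (fun w hw a ha => VV_comm H hw ha.2)).1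
  have h2 := lower_bound H (VV (S : Subgroup G)) ⊥ A hVR (VV_abel H) bot_le hA.1 hmove
  rw [CC_bot_eq H hA hVS, Subgroup.inf_relIndex_right] at h2
  exact le_antisymm h1 h2

theorem A1_mem {A : Subgroup G} (hA : A ∈ Amax (S : Subgroup G)) :
    VV (S : Subgroup G) ⊔ (A ⊓ Cfsg.pCore p G) ∈ Amax (S : Subgroup G) :=
  (offender hA (VV_le_core H) (VV_abel H) (fun w hw a ha => VV_comm H hw ha.2)).2 (index_VV H hmove hA)

theorem A1_le_core {A : Subgroup G} : VV (S : Subgroup G) ⊔ (A ⊓ Cfsg.pCore p G) ≤ Cfsg.pCore p G :=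
  sup_le (VV_le_core H) inf_le_right

/-- `⟨Z(J(S))^G⟩`. -/
theorem BB_le_A1 {A : Subgroup G} (hA : A ∈ Amax (S : Subgroup G)) :
    normalClosure (ZZ (S : Subgroup G) : Set G) ≤ VV (S : Subgroup G) ⊔ (A ⊓ Cfsg.pCore p G) := by
  rw [normalClosure, closure_le]
  intro y hy
  obtain ⟨z, hz, hc⟩ := Group.mem_conjugatesOfSet_iff.1 hy
  obtain ⟨c, rfl⟩ := isConj_iff.1 hc
  have hR : (Cfsg.pCore p G).Normal := pCore_normal p G
  have h1 : cj c⁻¹ (VV (S : Subgroup G) ⊔ (A ⊓ Cfsg.pCore p G)) ∈ Amax (S : Subgroup G) := by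
    refine Amax_cj (A1_mem H hmove hA) c⁻¹ ?_
    rintro _ ⟨a, ha, rfl⟩
    exact pCore_le_sylow S (hR.conj_mem a (A1_le_core H hmove ha) c⁻¹)
  have h2 := ZZ_le_Amax h1 hz
  rw [mem_cj] at h2
  simpa using h2

end Main

end Cfsg.Agent.Lib.PushUp.FF
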