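import Cfsg.Agent.Lib.PushUp.FF

/-!
# Rank one pushing up: `B = V (B ∩ A)`, `S = J(S) O_p(G)`, and `[Z(J(S)), S] ⊴ G`
-/

set_option autoImplicit false
set_option linter.unusedSectionVars false
set_option linter.style.haveILetI false
set_option linter.unusedVariables false
set_option linter.unusedSimpArgs false

namespace Cfsg.Agent.Lib.PushUp.FF2

open Subgroup Cfsg.Agent.Lib.Basic.PCore Cfsg.Agent.Lib.PushUp.Core Cfsg.Agent.Lib.PushUp.Bound
  Cfsg.Agent.Lib.PushUp.FF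
open scoped commutatorElement

variable {G : Type*} [Group G] [Finite G] {p : ℕ} [hp : Fact p.Prime]

/-- `⟨Z(J(S))^G⟩`. -/
abbrev BB (S : Subgroup G) : Subgroup G := normalClosure (ZZ S : Set G)

omit [Finite G] in
theorem commutator_ZZ_le {S : Subgroup G} (h : ∀ s ∈ S, ∀ z ∈ ZZ S, s * z * s⁻¹ ∈ ZZ S) : ⁅ZZ S, S⁆ ≤ ZZ S := by
  rw [Subgroup.commutator_le]
  intro z hz s hs
  rw [commutatorElement_def]
  have := mul_mem hz (inv_mem (h s hs z hz))
  convert this using 1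
  group

section Main

variable {S : Sylow p G} {M : Subgroup G} (H : Hyp S M)
  (hmove : ∃ x : G, (orderOf x).Coprime p ∧ ∃ e ∈ VV (S : Subgroup G), x * e * x⁻¹ * e⁻¹ ∉ (⊥ : Subgroup G))
include H hmove

theorem BB_le_core : BB (S : Subgroup G) ≤ Cfsg.pCore p G := by
  obtain ⟨A, hA⟩ := exists_Amax (S : Subgroup G)
  exact (BB_le_A1 H hmove hA).trans (A1_le_core H hmove)

theorem BB_abel : Abel (BB (S : Subgroup G)) := by
  obtain ⟨A, hA⟩ := exists_Amax (S : Subgroup G)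
  intro a ha b hb
  exact (A1_mem H hmove hA).2.1 _ (BB_le_A1 H hmove hA ha) _ (BB_le_A1 H hmove hA hb)

theorem BB_le_JJ : BB (S : Subgroup G) ≤ JJ (S : Subgroup G) := by
  obtain ⟨A, hA⟩ := exists_Amax (S : Subgroup G)
  exact (BB_le_A1 H hmove hA).trans (le_JJ (A1_mem H hmove hA))

omit H hmove in
theorem VV_le_BB : VV (S : Subgroup G) ≤ BB (S : Subgroup G) :=
  normalClosure_mono (center_le_ZZ (S : Subgroup G))

omit H hmove in
theorem ZZ_le_BB : ZZ (S : Subgroup G) ≤ BB (S : Subgroup G) := fun _ h => subset_normalClosure h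

/-- `[B, A] ≤ V`. -/
theorem comm_BB {A : Subgroup G} (hA : A ∈ Amax (S : Subgroup G)) {a b : G} (ha : a ∈ A)
    (hb : b ∈ BB (S : Subgroup G)) : a * b * a⁻¹ * b⁻¹ ∈ VV (S : Subgroup G) := by
  set V := VV (S : Subgroup G) with hV
  set B := BB (S : Subgroup G) with hB
  have hab := BB_abel H hmove
  have h1 := offender hA (BB_le_core H hmove) hab (fun w hw x hx =>
    (A1_mem H hmove hA).2.1 _ (BB_le_A1 H hmove hA hw) _ (mem_sup_right hx))
  have h2 : A.relIndex V = ((Cfsg.pCore p G).subgroupOf A).index := index_VV H hmove hA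
  have hVB : V ≤ B := VV_le_BB
  have h3 : A.relIndex V ≤ A.relIndex B :=
    Subgroup.relIndex_le_of_le_right hVB Subgroup.index_ne_zero_of_finite
  have h4 : A.relIndex B = A.relIndex V := le_antisymm (h1.1.trans h2.ge) h3
  -- `B = V (A ∩ B)`
  have hsup : V ⊔ (A ⊓ B) = B := by
    have h5 := card_sup_mul_inf V (A ⊓ B) (fun v hv c hc => hab _ (hVB hv) _ hc.2)
    have h6 : V ⊓ (A ⊓ B) = A ⊓ V := by
      ext x
      simp only [Subgroup.mem_inf]
      exact ⟨fun h => ⟨h.2.1, h.1⟩, fun h => ⟨h.2, h.1, hVB h.2⟩⟩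
    rw [h6] at h5
    have h7 := relIndex_mul_card A V
    have h8 := relIndex_mul_card A B
    have hi : 0 < Nat.card (A ⊓ V : Subgroup G) := Nat.card_pos
    have h9 : Nat.card B * Nat.card (A ⊓ V : Subgroup G) ≤
        Nat.card (V ⊔ (A ⊓ B) : Subgroup G) * Nat.card (A ⊓ V : Subgroup G) := by
      rw [h5, ← h7, ← h8, h4]
      apply le_of_eq
      ring
    have h10 := Nat.le_of_mul_le_mul_right h9 hi
    exact (Subgroup.eq_of_le_of_card_ge (sup_le hVB inf_le_right) h10)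
  have hb' : b ∈ V ⊔ (A ⊓ B) := by rw [hsup]; exact hb
  haveI hVn : V.Normal := normalClosure_normal
  rw [mem_sup_of_normal_left] at hb'
  obtain ⟨v, hv, c, hc, rfl⟩ := hb'
  have h11 : a * (v * c) * a⁻¹ * (v * c)⁻¹ = a * v * a⁻¹ * v⁻¹ * (v * (a * c * a⁻¹ * c⁻¹) * v⁻¹) := by
    group
  have h12 : a * c * a⁻¹ * c⁻¹ = 1 := by
    rw [hA.2.1 a ha c hc.1]
    group
  rw [h11, h12]
  simp only [mul_one, mul_inv_cancel]
  exact mul_mem (hVn.conj_mem v hv a) (inv_mem hv)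

/-- `S = J(S) O_p(G)`. -/
theorem sup_eq (hJ : ¬ JJ (S : Subgroup G) ≤ Cfsg.pCore p G) :
    JJ (S : Subgroup G) ⊔ Cfsg.pCore p G = (S : Subgroup G) := by
  haveI hRn : (Cfsg.pCore p G).Normal := pCore_normal p G
  refine H.irr _ le_sup_right (sup_le (JJ_le _) (pCore_le_sylow S)) ?_ ?_
  · intro n hn d hd
    rw [mem_sup_of_normal_right] at hd
    obtain ⟨j, hj, r, hr, rfl⟩ := hd
    have : n * (j * r) * n⁻¹ = (n * j * n⁻¹) * (n * r * n⁻¹) := by group
    rw [this]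
    exact mul_mem (mem_sup_left (normalizer_JJ hn hj)) (mem_sup_right (hRn.conj_mem r hr n))
  · intro h
    apply hJ
    rw [← h]
    exact le_sup_left

omit hmove in
/-- `G = ⟨J(S)^G⟩ O_p(G)`. -/
theorem closure_sup (hS : JJ (S : Subgroup G) ⊔ Cfsg.pCore p G = (S : Subgroup G)) :
    normalClosure (JJ (S : Subgroup G) : Set G) ⊔ Cfsg.pCore p G = ⊤ := by
  haveI hRn : (Cfsg.pCore p G).Normal := pCore_normal p G
  haveI : (normalClosure (JJ (S : Subgroup G) : Set G) ⊔ Cfsg.pCore p G).Normal := Subgroup.sup_normal _ _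
  refine H.eq_top_of_normal ?_
  calc (S : Subgroup G) = JJ (S : Subgroup G) ⊔ Cfsg.pCore p G := hS.symm
    _ ≤ _ := sup_le_sup_right (fun _ h => subset_normalClosure h) _

end Main

/-- The subgroup acting trivially on `B / V`. -/
def LL (B V : Subgroup G) [hB : B.Normal] [hV : V.Normal] : Subgroup G where
  carrier := {g | ∀ b ∈ B, g * b * g⁻¹ * b⁻¹ ∈ V}
  mul_mem' := by
    intro g h hg hh b hb
    have h1 := hV.conj_mem _ (hh b hb) g
    have h2 := hg b hb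
    have : g * h * b * (g * h)⁻¹ * b⁻¹ = g * (h * b * h⁻¹ * b⁻¹) * g⁻¹ * (g * b * g⁻¹ * b⁻¹) := by group
    rw [this]
    exact mul_mem h1 h2
  one_mem' := by
    intro b hb
    simp
  inv_mem' := by
    intro g hg b hb
    have h1 := inv_mem (hg _ (hB.conj_mem b hb g⁻¹))
    convert h1 using 1
    group

theorem mem_LL {B V : Subgroup G} [hB : B.Normal] [hV : V.Normal] {g : G} :
    g ∈ LL B V ↔ ∀ b ∈ B, g * b * g⁻¹ * b⁻¹ ∈ V := Iff.rfl

instance LL_normal (B V : Subgroup G) [hB : B.Normal] [hV : V.Normal] : (LL B V).Normal := by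
  constructor
  intro g hg k b hb
  have h1 := hV.conj_mem _ (hg _ (hB.conj_mem b hb k⁻¹)) k
  convert h1 using 1
  group

section Main2

variable {S : Sylow p G} {M : Subgroup G} (H : Hyp S M)
  (hmove : ∃ x : G, (orderOf x).Coprime p ∧ ∃ e ∈ VV (S : Subgroup G), x * e * x⁻¹ * e⁻¹ ∉ (⊥ : Subgroup G))
  (hJ : ¬ JJ (S : Subgroup G) ≤ Cfsg.pCore p G)
include H hmove

/-- `⟨J(S)^G⟩` acts trivially on `B / V`. -/
theorem closure_le_LL : normalClosure (JJ (S : Subgroup G) : Set G) ≤ LL (BB (S : Subgroup G)) (VV (S : Subgroup G)) := by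
  refine normalClosure_le_normal ?_
  have : JJ (S : Subgroup G) ≤ LL (BB (S : Subgroup G)) (VV (S : Subgroup G)) :=
    sSup_le fun A hA a ha b hb => comm_BB H hmove hA ha hb
  exact this

theorem conj_ZZ_core {r z : G} (hr : r ∈ Cfsg.pCore p G) (hz : z ∈ ZZ (S : Subgroup G)) :
    r * z * r⁻¹ ∈ ZZ (S : Subgroup G) :=
  normalizer_ZZ (Subgroup.le_normalizer (pCore_le_sylow S hr)) hz

include hJ

/-- `[Z(J(S)), S] = [Z(J(S)), O_p(G)]`. -/
theorem comm_le : ⁅ZZ (S : Subgroup G), (S : Subgroup G)⁆ ≤ ⁅ZZ (S : Subgroup G), Cfsg.pCore p G⁆ := by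
  haveI hRn : (Cfsg.pCore p G).Normal := pCore_normal p G
  rw [Subgroup.commutator_le]
  intro z hz s hs
  have hs' : s ∈ JJ (S : Subgroup G) ⊔ Cfsg.pCore p G := by rw [sup_eq H hmove hJ]; exact hs
  rw [mem_sup_of_normal_right] at hs'
  obtain ⟨j, hj, r, hr, rfl⟩ := hs'
  have hc : z * j = j * z := (mem_centralizer_iff.1 hz.2 j hj).symm
  have h1 : ⁅z, j * r⁆ = ⁅z, j * r * j⁻¹⁆ := by
    simp only [commutatorElement_def]
    have h2 : z * (j * r) * z⁻¹ * (j * r)⁻¹ = j * (z * r * z⁻¹ * r⁻¹) * j⁻¹ := by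
      calc z * (j * r) * z⁻¹ * (j * r)⁻¹ = (z * j) * r * z⁻¹ * r⁻¹ * j⁻¹ := by group
        _ = (j * z) * r * z⁻¹ * r⁻¹ * j⁻¹ := by rw [hc]
        _ = _ := by group
    have h3 : z * (j * r * j⁻¹) * z⁻¹ * (j * r * j⁻¹)⁻¹ = j * (z * r * z⁻¹ * r⁻¹) * j⁻¹ := by
      calc z * (j * r * j⁻¹) * z⁻¹ * (j * r * j⁻¹)⁻¹ = (z * j) * r * (z * j)⁻¹ * j * r⁻¹ * j⁻¹ := by group
        _ = (j * z) * r * (j * z)⁻¹ * j * r⁻¹ * j⁻¹ := by rw [hc]
        _ = _ := by group
    rw [h2, h3]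
  rw [h1]
  exact Subgroup.commutator_mem_commutator hz (hRn.conj_mem r hr j)

/-- `[Z(J(S)), O_p(G)] ⊴ G`. -/
theorem comm_normal : (⁅ZZ (S : Subgroup G), Cfsg.pCore p G⁆).Normal := by
  haveI hRn : (Cfsg.pCore p G).Normal := pCore_normal p G
  haveI hBn : (BB (S : Subgroup G)).Normal := normalClosure_normal
  haveI hVn : (VV (S : Subgroup G)).Normal := normalClosure_normal
  constructor
  intro t ht g
  have hgs : g ∈ normalClosure (JJ (S : Subgroup G) : Set G) ⊔ Cfsg.pCore p G := by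
    rw [closure_sup H (sup_eq H hmove hJ)]
    trivial
  rw [mem_sup_of_normal_right] at hgs
  obtain ⟨h, hh, r₀, hr₀, rfl⟩ := hgs
  have key : ⁅ZZ (S : Subgroup G), Cfsg.pCore p G⁆ ≤
      (⁅ZZ (S : Subgroup G), Cfsg.pCore p G⁆).comap (MulAut.conj (h * r₀)).toMonoidHom := by
    rw [Subgroup.commutator_le]
    intro z hz r hr
    show (h * r₀) * ⁅z, r⁆ * (h * r₀)⁻¹ ∈ ⁅ZZ (S : Subgroup G), Cfsg.pCore p G⁆
    set z₁ := r₀ * z * r₀⁻¹ with hz₁
    have hz₁Z : z₁ ∈ ZZ (S : Subgroup G) := conj_ZZ_core H hmove hr₀ hz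
    set r₂ := (h * r₀) * r * (h * r₀)⁻¹ with hr₂
    have hr₂R : r₂ ∈ Cfsg.pCore p G := hRn.conj_mem r hr _
    set v := h * z₁ * h⁻¹ * z₁⁻¹ with hv
    have hvV : v ∈ VV (S : Subgroup G) := closure_le_LL H hmove hh z₁ (ZZ_le_BB hz₁Z)
    have h1 : (h * r₀) * ⁅z, r⁆ * (h * r₀)⁻¹ = ⁅v * z₁, r₂⁆ := by
      simp only [commutatorElement_def, hr₂, hv, hz₁]
      group
    have h2 : ⁅v * z₁, r₂⁆ = ⁅z₁, r₂⁆ := by
      have h3 : z₁ * r₂ * z₁⁻¹ ∈ Cfsg.pCore p G := hRn.conj_mem r₂ hr₂R z₁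
      simp only [commutatorElement_def]
      have h4 := VV_comm H hvV h3
      calc v * z₁ * r₂ * (v * z₁)⁻¹ * r₂⁻¹ = v * (z₁ * r₂ * z₁⁻¹) * v⁻¹ * r₂⁻¹ := by group
        _ = (z₁ * r₂ * z₁⁻¹) * v * v⁻¹ * r₂⁻¹ := by rw [h4]
        _ = _ := by group
    rw [h1, h2]
    exact Subgroup.commutator_mem_commutator hz₁Z hr₂R
  exact key ht

/-- `⟨J(S)^G⟩` centralizes `[Z(J(S)), O_p(G)]`. -/
theorem closure_centralizes {t g : G} (ht : t ∈ ⁅ZZ (S : Subgroup G), Cfsg.pCore p G⁆)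
    (hg : g ∈ normalClosure (JJ (S : Subgroup G) : Set G)) : g * t = t * g := by
  haveI := comm_normal H hmove hJ
  have hle : ⁅ZZ (S : Subgroup G), Cfsg.pCore p G⁆ ≤ ZZ (S : Subgroup G) := by
    refine (Subgroup.commutator_mono le_rfl (pCore_le_sylow S)).trans (commutator_ZZ_le ?_)
    exact fun s hs z hz => normalizer_ZZ (Subgroup.le_normalizer hs) hz
  have h1 : normalClosure (JJ (S : Subgroup G) : Set G) ≤
      centralizer ((⁅ZZ (S : Subgroup G), Cfsg.pCore p G⁆ : Subgroup G) : Set G) := by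
    refine normalClosure_le_normal ?_
    intro j hj
    rw [SetLike.mem_coe, mem_centralizer_iff]
    intro u hu
    exact (mem_centralizer_iff.1 (hle hu).2 j hj).symm
  exact (mem_centralizer_iff.1 (h1 hg) t ht).symm

/-- `[Z(J(S)), S] ∩ Z(S) ≤ Z(G)`. -/
theorem U_central {u : G} (hu : u ∈ ⁅ZZ (S : Subgroup G), (S : Subgroup G)⁆) (huc : u ∈ CS (S : Subgroup G))
    (g : G) : g * u = u * g := by
  haveI hRn : (Cfsg.pCore p G).Normal := pCore_normal p G
  have hgs : g ∈ normalClosure (JJ (S : Subgroup G) : Set G) ⊔ Cfsg.pCore p G := by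
    rw [closure_sup H (sup_eq H hmove hJ)]
    trivial
  rw [mem_sup_of_normal_right] at hgs
  obtain ⟨h, hh, r, hr, rfl⟩ := hgs
  have h1 := closure_centralizes H hmove hJ (comm_le H hmove hJ hu) hh
  have h2 : r * u = u * r := mem_centralizer_iff.1 huc.2 r (pCore_le_sylow S hr)
  rw [mul_assoc, h2, ← mul_assoc, h1, mul_assoc]

end Main2

end Cfsg.Agent.Lib.PushUp.FF2
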