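import Cfsg.Agent.Lib.PushUp.Main

/-!
# Rank one pushing up: `C_S(Z(J(S)))` is Sylow in its normal closure

The barycentre of the orbit of `z ∈ Z(J(S))` modulo `[Z(J(S)), S]` gives `ξ ∈ zV` fixed by the
`p'`-elements; the lower bound modulo `C_V(O^p(G))` gives `ξ ∈ Z(J(S))`.
-/

set_option autoImplicit false
set_option linter.unusedSectionVars false
set_option linter.style.haveILetI false
set_option linter.unusedVariables false
set_option linter.unusedSimpArgs false

namespace Cfsg.Agent.Lib.PushUp.SylowPart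

open Subgroup Cfsg.Agent.Lib.Basic.PCore Cfsg.Agent.Lib.PushUp.Core Cfsg.Agent.Lib.PushUp.Bound
  Cfsg.Agent.Lib.PushUp.FF Cfsg.Agent.Lib.PushUp.FF2 Cfsg.Agent.Lib.PushUp.Main
open scoped commutatorElement

variable {G : Type*} [Group G] [Finite G] {p : ℕ} [hp : Fact p.Prime]

/-- Barycentre of an orbit of size prime to `p`. -/
theorem abstract_centroid {W : Type*} [CommGroup W] [Finite W] (hW : IsPGroup p W)
    (φ : G →* MulAut W) (S : Sylow p G) (w : W) (hS : ∀ s ∈ (S : Subgroup G), φ s w = w)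
    (W₁ : Subgroup W) (hW₁ : ∀ g, φ g w * w⁻¹ ∈ W₁) :
    ∃ w₁ ∈ W₁, ∀ g, φ g (w * w₁) = w * w₁ := by
  classical
  letI : MulAction G W := MulAction.compHom W φ
  have hsmul : ∀ (g : G) (u : W), g • u = φ g u := fun _ _ => rfl
  have hfin : (MulAction.orbit G w).Finite := Set.toFinite _
  let Ω : Finset W := hfin.toFinset
  have hΩ : ∀ u, u ∈ Ω ↔ ∃ g, φ g w = u := by
    intro u
    simp only [Ω, Set.Finite.mem_toFinset, MulAction.mem_orbit_iff]
    rfl
  have hn : (MulAction.stabilizer G w).index = Ω.card := by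
    rw [MulAction.index_stabilizer, Set.ncard_eq_toFinset_card _ hfin]
  have hSst : (S : Subgroup G) ≤ MulAction.stabilizer G w := fun s hs => hS s hs
  have hnp : ¬ p ∣ Ω.card := by
    rw [← hn]
    intro h
    exact S.not_dvd_index (h.trans (Subgroup.index_dvd_of_le hSst))
  have hcop : (Ω.card).Coprime p :=
    ((Nat.Prime.coprime_iff_not_dvd (Fact.out : p.Prime)).2 hnp).symm
  let P : W := ∏ u ∈ Ω, u
  have hP : ∀ g, φ g P = P := by
    intro g
    show φ g (∏ u ∈ Ω, u) = ∏ u ∈ Ω, u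
    rw [map_prod]
    refine Finset.prod_equiv (φ g).toEquiv ?_ (fun _ _ => rfl)
    intro u
    rw [hΩ, hΩ]
    constructor
    · rintro ⟨h, rfl⟩
      exact ⟨g * h, by rw [map_mul, MulAut.mul_apply]; rfl⟩
    · rintro ⟨h, hh⟩
      refine ⟨g⁻¹ * h, ?_⟩
      have : φ g (φ (g⁻¹ * h) w) = φ g u := by
        rw [← MulAut.mul_apply, ← map_mul, mul_inv_cancel_left, hh]
        rfl
      exact (φ g).injective this
  let Q : W := ∏ u ∈ Ω, (u * w⁻¹)
  have hQ : Q ∈ W₁ := by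
    refine Subgroup.prod_mem _ fun u hu => ?_
    obtain ⟨g, rfl⟩ := (hΩ u).1 hu
    exact hW₁ g
  have hPQ : P = w ^ Ω.card * Q := by
    show (∏ u ∈ Ω, u) = w ^ Ω.card * ∏ u ∈ Ω, (u * w⁻¹)
    rw [Finset.prod_mul_distrib, Finset.prod_const, inv_pow, mul_comm (w ^ Ω.card), mul_assoc,
      inv_mul_cancel, mul_one]
  obtain ⟨k, hk⟩ := IsPGroup.iff_card.1 hW
  have hcopk : (Ω.card).Coprime (Nat.card W * p) := by
    rw [hk]
    exact Nat.Coprime.mul_right (Nat.Coprime.pow_right k hcop) hcop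
  have hgt : 1 < Nat.card W * p := by
    have h1 : 0 < Nat.card W := Nat.card_pos
    have h2 := (Fact.out : p.Prime).one_lt
    nlinarith
  obtain ⟨e, -, he⟩ := Nat.exists_mul_mod_eq_one_of_coprime hcopk hgt
  have hwe : w ^ (Ω.card * e) = w := by
    have h1 : w ^ (Nat.card W * p) = 1 := by
      rw [pow_mul, pow_card_eq_one', one_pow]
    have h2 : Ω.card * e = (Nat.card W * p) * (Ω.card * e / (Nat.card W * p)) + 1 := by
      have := Nat.div_add_mod (Ω.card * e) (Nat.card W * p)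
      rw [he] at this
      exact this.symm
    rw [h2, pow_succ, pow_mul, h1, one_pow, one_mul]
  refine ⟨Q ^ e, pow_mem hQ e, fun g => ?_⟩
  have h3 : w * Q ^ e = P ^ e := by
    rw [hPQ, mul_pow, ← pow_mul, hwe]
  rw [h3, map_pow, hP]

/-- The barycentre modulo a subgroup. -/
theorem centroid_abs {B₀ : Type*} [Group B₀] [Finite B₀] (hc : ∀ a b : B₀, a * b = b * a)
    (hB : IsPGroup p B₀) (φ : G →* MulAut B₀) (S : Sylow p G) (T₀ : Subgroup B₀)
    (hT₀ : ∀ g, ∀ t ∈ T₀, φ g t ∈ T₀) (z : B₀) (hS : ∀ s ∈ (S : Subgroup G), φ s z * z⁻¹ ∈ T₀)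
    (V₀ : Subgroup B₀) (hV₀ : ∀ g, φ g z * z⁻¹ ∈ V₀) :
    ∃ v ∈ V₀, ∀ g, φ g (z * v) * (z * v)⁻¹ ∈ T₀ := by
  letI cB : CommGroup B₀ := { ‹Group B₀› with mul_comm := hc }
  have hmap : ∀ g, T₀.map (φ g).toMonoidHom = T₀ := by
    intro g
    apply le_antisymm
    · rintro _ ⟨t, ht, rfl⟩
      exact hT₀ g t ht
    · intro t ht
      refine ⟨φ g⁻¹ t, hT₀ g⁻¹ t ht, ?_⟩
      show φ g (φ g⁻¹ t) = t
      rw [← MulAut.mul_apply, ← map_mul, mul_inv_cancel, map_one]
      rfl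
  let W := B₀ ⧸ T₀
  let φb : G →* MulAut W := MonoidHom.mk' (fun g => QuotientGroup.congr T₀ T₀ (φ g) (hmap g)) (by
    intro a b
    apply MulEquiv.ext
    intro q
    obtain ⟨u, rfl⟩ := QuotientGroup.mk_surjective q
    show ((φ (a * b) u : B₀) : W) = ((φ a (φ b u) : B₀) : W)
    rw [map_mul]
    rfl)
  have hφb : ∀ g (u : B₀), φb g (u : W) = ((φ g u : B₀) : W) := fun g u => rfl
  have heq : ∀ a b : B₀, ((a : W) = (b : W)) ↔ a * b⁻¹ ∈ T₀ := by
    intro a b
    rw [QuotientGroup.eq]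
    have : a⁻¹ * b = (a * b⁻¹)⁻¹ := by
      rw [mul_inv_rev, inv_inv, mul_comm]
    rw [this, inv_mem_iff]
  obtain ⟨w₁, hw₁, hfix⟩ := abstract_centroid (p := p) (W := W) (hB.to_quotient T₀) φb S (z : W)
    (fun s hs => by rw [hφb]; exact (heq _ _).2 (hS s hs))
    (V₀.map (QuotientGroup.mk' T₀)) (fun g => by
      rw [hφb]
      exact ⟨φ g z * z⁻¹, hV₀ g, rfl⟩)
  obtain ⟨v, hv, rfl⟩ := hw₁
  refine ⟨v, hv, fun g => (heq _ _).1 ?_⟩
  have := hfix g
  exact this

/-- `p'`-elements lie in a normal subgroup with `N O_p(G) = G`. -/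
theorem coprime_mem {N : Subgroup G} [hN : N.Normal] (h : N ⊔ Cfsg.pCore p G = ⊤) {x : G}
    (hx : (orderOf x).Coprime p) : x ∈ N := by
  haveI hRn : (Cfsg.pCore p G).Normal := pCore_normal p G
  have hg : x ∈ N ⊔ Cfsg.pCore p G := by rw [h]; trivial
  rw [mem_sup_of_normal_right] at hg
  obtain ⟨a, ha, r, hr, hax⟩ := hg
  obtain ⟨k, hk⟩ := pCore_isPGroup (G := G) p ⟨r, hr⟩
  have hk' : r ^ (p ^ k) = 1 := by simpa using congrArg Subtype.val hk
  have h1 : (QuotientGroup.mk x : G ⧸ N) = QuotientGroup.mk r := by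
    rw [QuotientGroup.eq, ← hax]
    have : (a * r)⁻¹ * r = r⁻¹ * a⁻¹ * r := by group
    rw [this]
    have h2 := hN.conj_mem _ (inv_mem ha) r⁻¹
    simpa using h2
  have h2 : (QuotientGroup.mk x : G ⧸ N) ^ (p ^ k) = 1 := by
    rw [h1, ← QuotientGroup.mk_pow, hk']
    rfl
  have h3 : orderOf (QuotientGroup.mk x : G ⧸ N) ∣ orderOf x :=
    orderOf_map_dvd (QuotientGroup.mk' N) x
  have h4 : orderOf (QuotientGroup.mk x : G ⧸ N) ∣ p ^ k := orderOf_dvd_of_pow_eq_one h2
  have h5 : orderOf (QuotientGroup.mk x : G ⧸ N) = 1 :=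
    Nat.Coprime.eq_one_of_dvd (Nat.Coprime.coprime_dvd_left h3 (Nat.Coprime.pow_right k hx)) h4
  have h6 := orderOf_eq_one_iff.1 h5
  exact (QuotientGroup.eq_one_iff x).1 h6

section Main

variable {S : Sylow p G} {M : Subgroup G} (H : Hyp S M)
  (hmove : ∃ x : G, (orderOf x).Coprime p ∧ ∃ e ∈ VV (S : Subgroup G), x * e * x⁻¹ * e⁻¹ ∉ (⊥ : Subgroup G))
  (hJ : ¬ JJ (S : Subgroup G) ≤ Cfsg.pCore p G)
include H hmove hJ

theorem exists_fix {z : G} (hz : z ∈ ZZ (S : Subgroup G)) :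
    ∃ v ∈ VV (S : Subgroup G), z * v ∈ ZZ (S : Subgroup G) ∧
      ∀ x : G, (orderOf x).Coprime p → x * (z * v) * x⁻¹ = z * v := by
  classical
  haveI hRn : (Cfsg.pCore p G).Normal := pCore_normal p G
  haveI hVn : (VV (S : Subgroup G)).Normal := normalClosure_normal
  haveI hBn : (BB (S : Subgroup G)).Normal := normalClosure_normal
  set V := VV (S : Subgroup G) with hVdef
  set B := BB (S : Subgroup G) with hBdef
  set T := ⁅ZZ (S : Subgroup G), Cfsg.pCore p G⁆ with hTdef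
  haveI hTn : T.Normal := comm_normal H hmove hJ
  have hBab : Abel B := BB_abel H hmove
  have hBR : B ≤ Cfsg.pCore p G := BB_le_core H hmove
  have hVB : V ≤ B := VV_le_BB
  have hZB : ZZ (S : Subgroup G) ≤ B := ZZ_le_BB
  have hTZ : T ≤ ZZ (S : Subgroup G) :=
    (Subgroup.commutator_mono le_rfl (pCore_le_sylow S)).trans (commutator_ZZ_le fun s hs z hz =>
      normalizer_ZZ (Subgroup.le_normalizer hs) hz)
  have hTB : T ≤ B := hTZ.trans hZB
  have hsup := closure_sup H (sup_eq H hmove hJ)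
  -- the barycentre
  have hcomm : ∀ a b : B, a * b = b * a := fun a b => Subtype.ext (hBab _ a.2 _ b.2)
  have hBp : IsPGroup p B := (pCore_isPGroup (G := G) p).to_le hBR
  let φ : G →* MulAut B := MulAut.conjNormal
  have hφ : ∀ g (b : B), ((φ g b : B) : G) = g * b * g⁻¹ := fun g b => MulAut.conjNormal_apply g b
  have hmemT : ∀ (g : G) (t : G), t ∈ T → g * t * g⁻¹ ∈ T := fun g t ht => hTn.conj_mem t ht g
  obtain ⟨u, hu, hfix⟩ := centroid_abs (p := p) hcomm hBp φ S (T.subgroupOf B)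
    (fun g t ht => by
      rw [Subgroup.mem_subgroupOf, hφ]
      exact hmemT g t (Subgroup.mem_subgroupOf.1 ht))
    ⟨z, hZB hz⟩ (fun s hs => by
      rw [Subgroup.mem_subgroupOf]
      have h1 : ((φ s ⟨z, hZB hz⟩ * (⟨z, hZB hz⟩ : B)⁻¹ : B) : G) = s * z * s⁻¹ * z⁻¹ := by
        show ((φ s ⟨z, hZB hz⟩ : B) : G) * z⁻¹ = _
        rw [hφ]
      rw [h1]
      have h2 : ⁅z, s⁆ ∈ T := comm_le H hmove hJ (Subgroup.commutator_mem_commutator hz hs)
      have h3 := inv_mem h2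
      rwa [commutatorElement_inv, commutatorElement_def] at h3)
    ((V ⊔ T).subgroupOf B) (fun g => by
      rw [Subgroup.mem_subgroupOf]
      have h1 : ((φ g ⟨z, hZB hz⟩ * (⟨z, hZB hz⟩ : B)⁻¹ : B) : G) = g * z * g⁻¹ * z⁻¹ := by
        show ((φ g ⟨z, hZB hz⟩ : B) : G) * z⁻¹ = _
        rw [hφ]
      rw [h1]
      have hg : g ∈ normalClosure (JJ (S : Subgroup G) : Set G) ⊔ Cfsg.pCore p G := by
        rw [hsup]; trivial
      rw [mem_sup_of_normal_right] at hg
      obtain ⟨h, hh, r₀, hr₀, rfl⟩ := hg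
      have h2 : ⁅z, r₀⁆ ∈ T := Subgroup.commutator_mem_commutator hz hr₀
      have h3 := inv_mem h2
      rw [commutatorElement_inv, commutatorElement_def] at h3
      have h4 : h * z * h⁻¹ * z⁻¹ ∈ V := closure_le_LL H hmove hh z (hZB hz)
      have h5 : (h * r₀) * z * (h * r₀)⁻¹ * z⁻¹ =
          (h * (r₀ * z * r₀⁻¹ * z⁻¹) * h⁻¹) * (h * z * h⁻¹ * z⁻¹) := by group
      rw [h5]
      exact mul_mem (mem_sup_right (hTn.conj_mem _ h3 h)) (mem_sup_left h4))
  have hu' : (u : G) ∈ V ⊔ T := Subgroup.mem_subgroupOf.1 hu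
  rw [mem_sup_of_normal_left] at hu'
  obtain ⟨v, hv, t, ht, huvt⟩ := hu'
  have hfixT : ∀ g, g * (z * v) * g⁻¹ * (z * v)⁻¹ ∈ T := by
    intro g
    have h1 := Subgroup.mem_subgroupOf.1 (hfix g)
    have h2 : ((φ g (⟨z, hZB hz⟩ * u) * (⟨z, hZB hz⟩ * u)⁻¹ : B) : G) =
        g * (z * (v * t)) * g⁻¹ * (z * (v * t))⁻¹ := by
      show ((φ g (⟨z, hZB hz⟩ * u) : B) : G) * (z * (u : G))⁻¹ = _
      rw [hφ]
      show g * (z * (u : G)) * g⁻¹ * (z * (u : G))⁻¹ = _
      rw [huvt]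
    rw [h2] at h1
    have h3 : g * t * g⁻¹ * t⁻¹ ∈ T := mul_mem (hTn.conj_mem t ht g) (inv_mem ht)
    have h4 := hTn.conj_mem _ (inv_mem h3) (z * v)
    have h5 : g * (z * v) * g⁻¹ * (z * v)⁻¹ = (g * (z * (v * t)) * g⁻¹ * (z * (v * t))⁻¹) *
        ((z * v) * (g * t * g⁻¹ * t⁻¹)⁻¹ * (z * v)⁻¹) := by group
    rw [h5]
    exact mul_mem h1 h4
  have hfixed : ∀ x : G, (orderOf x).Coprime p → x * (z * v) * x⁻¹ = z * v := by
    intro x hx
    have hxN := coprime_mem hsup hx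
    set c := x * (z * v) * x⁻¹ * (z * v)⁻¹ with hc
    have hcT : c ∈ T := hfixT x
    have hcx : x * c = c * x := closure_centralizes H hmove hJ hcT hxN
    have h1 : x * (z * v) * x⁻¹ = c * (z * v) := by rw [hc]; group
    have h2 : x * c * x⁻¹ = c := by rw [hcx]; group
    obtain ⟨k, hk⟩ := pCore_isPGroup (G := G) p ⟨c, hBR (hTB hcT)⟩
    have hk' : c ^ (p ^ k) = 1 := by simpa using congrArg Subtype.val hk
    have h3 := comm_triv h1 h2 (pow_orderOf_eq_one x) hk' hx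
    rw [h1, h3, one_mul]
  set ξ := z * v with hξ
  have hξB : ξ ∈ B := mul_mem (hZB hz) (hVB hv)
  refine ⟨v, hv, Subgroup.mem_inf.2 ⟨BB_le_JJ H hmove hξB, ?_⟩, hfixed⟩
  -- `ξ` centralizes `J(S)`
  haveI hresn : (Cfsg.pResidual p G).Normal := Cfsg.Agent.Lib.Transfer.Basic.pResidual_normal p G
  let CP : Subgroup G := centralizer ((Cfsg.pResidual p G : Subgroup G) : Set G)
  haveI hCPn : CP.Normal := inferInstance
  have hξCP : ξ ∈ CP := by
    have h1 : Cfsg.pResidual p G ≤ centralizer ({ξ} : Set G) := by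
      rw [Cfsg.pResidual, closure_le]
      intro x hx
      rw [SetLike.mem_coe, mem_centralizer_iff]
      rintro _ rfl
      have h2 := hfixed x hx
      calc ξ * x = (x * ξ * x⁻¹) * x := by rw [h2]
        _ = x * ξ := by group
    rw [mem_centralizer_iff]
    intro q hq
    exact (mem_centralizer_iff.1 (h1 hq) ξ rfl).symm
  have hJle : JJ (S : Subgroup G) ≤ centralizer ({ξ} : Set G) := by
    refine sSup_le fun A hA a ha => ?_
    rw [mem_centralizer_iff]
    rintro _ rfl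
    -- the commutator of `a` and `v` lies in `C_V(O^p(G))`
    have hVab : Abel V := VV_abel H
    have hVR : V ≤ Cfsg.pCore p G := VV_le_core H
    let W₀ : Subgroup G := V ⊓ CP
    haveI hW₀ : W₀.Normal := Subgroup.normal_inf_normal _ _
    have hza : a * z = z * a := (mem_centralizer_iff.1 hz.2 a (le_JJ hA ha))
    have hE : ∀ a ∈ A, a * v * a⁻¹ * v⁻¹ ∈ W₀ := by
      intro a ha
      have hza : a * z = z * a := (mem_centralizer_iff.1 hz.2 a (le_JJ hA ha))
      have hEV : a * v * a⁻¹ * v⁻¹ ∈ V := mul_mem (hVn.conj_mem v hv a) (inv_mem hv)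
      have hzE : z * (a * v * a⁻¹ * v⁻¹) = (a * v * a⁻¹ * v⁻¹) * z := hBab _ (hZB hz) _ (hVB hEV)
      have h1 : a * ξ * a⁻¹ * ξ⁻¹ = a * v * a⁻¹ * v⁻¹ := by
        calc a * ξ * a⁻¹ * ξ⁻¹ = (a * z) * v * a⁻¹ * v⁻¹ * z⁻¹ := by rw [hξ]; group
          _ = z * (a * v * a⁻¹ * v⁻¹) * z⁻¹ := by rw [hza]; group
          _ = (a * v * a⁻¹ * v⁻¹) * z * z⁻¹ := by rw [hzE]
          _ = _ := by group
      refine Subgroup.mem_inf.2 ⟨hEV, ?_⟩
      rw [← h1]
      exact mul_mem (hCPn.conj_mem ξ hξCP a) (inv_mem hξCP)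
    have hlb := lower_bound H V W₀ A hVR hVab inf_le_left hA.1 (by
      obtain ⟨x₁, hx₁, e₁, he₁, hne⟩ := hmove
      refine ⟨x₁, hx₁, e₁, he₁, fun hmem => hne ?_⟩
      rw [mem_bot]
      set c := x₁ * e₁ * x₁⁻¹ * e₁⁻¹ with hc
      have hx₁res : x₁ ∈ Cfsg.pResidual p G := subset_closure hx₁
      have h1 : x₁ * c = c * x₁ := mem_centralizer_iff.1 (Subgroup.mem_inf.1 hmem).2 x₁ hx₁res
      have h2 : x₁ * e₁ * x₁⁻¹ = c * e₁ := by rw [hc]; group
      have h3 : x₁ * c * x₁⁻¹ = c := by rw [h1]; group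
      obtain ⟨k, hk⟩ := pCore_isPGroup (G := G) p ⟨c, hVR (Subgroup.mem_inf.1 hmem).1⟩
      have hk' : c ^ (p ^ k) = 1 := by simpa using congrArg Subtype.val hk
      exact comm_triv h2 h3 (pow_orderOf_eq_one x₁) hk' hx₁)
    have hA0 : A ⊓ V ≤ CC V W₀ A := by
      rintro e ⟨he1, he2⟩
      refine ⟨he2, fun b hb => ?_⟩
      rw [hA.2.1 b hb e he1]
      simp [one_mem]
    have hidx : (A ⊓ V).relIndex V = ((Cfsg.pCore p G).subgroupOf A).index := by
      rw [Subgroup.inf_relIndex_right]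
      exact index_VV H hmove hA
    have hmul := Subgroup.relIndex_mul_relIndex _ _ _ hA0 (CC_le V W₀ A)
    have hapos : 0 < ((Cfsg.pCore p G).subgroupOf A).index :=
      Nat.pos_of_ne_zero Subgroup.index_ne_zero_of_finite
    have hk1 : (A ⊓ V).relIndex (CC V W₀ A) = 1 := by
      rw [hidx] at hmul
      set a₀ := ((Cfsg.pCore p G).subgroupOf A).index
      set k₀ := (A ⊓ V).relIndex (CC V W₀ A)
      set m₀ := (CC V W₀ A).relIndex V
      have hk0 : 0 < k₀ := Nat.pos_of_ne_zero (by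
        intro h0
        rw [h0, zero_mul] at hmul
        omega)
      have hle : k₀ * a₀ ≤ a₀ := by
        calc k₀ * a₀ ≤ k₀ * m₀ := Nat.mul_le_mul_left _ hlb
          _ = a₀ := hmul
      have : k₀ ≤ 1 := by
        by_contra h
        have h2 : 2 ≤ k₀ := by omega
        nlinarith
      omega
    have hCCle : CC V W₀ A ≤ A ⊓ V := Subgroup.relIndex_eq_one.1 hk1
    have hvCC : v ∈ CC V W₀ A := ⟨hv, hE⟩
    have hvA : v ∈ A := (hCCle hvCC).1
    have hav : a * v = v * a := hA.2.1 a ha v hvA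
    calc ξ * a = z * (v * a) := by rw [hξ]; group
      _ = z * (a * v) := by rw [hav]
      _ = (z * a) * v := by group
      _ = (a * z) * v := by rw [hza]
      _ = a * ξ := by rw [hξ]; group
  rw [mem_centralizer_iff]
  intro j hj
  exact (mem_centralizer_iff.1 (hJle hj) ξ rfl).symm

/-- The core of the failure of factorization case. -/
theorem sylow_ff : (S : Subgroup G) ⊓ normalClosure (((S : Subgroup G) ⊓
      centralizer ((ZZ (S : Subgroup G) : Subgroup G) : Set G) : Subgroup G) : Set G) ≤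
    (S : Subgroup G) ⊓ centralizer ((ZZ (S : Subgroup G) : Subgroup G) : Set G) := by
  haveI hRn : (Cfsg.pCore p G).Normal := pCore_normal p G
  haveI hresn : (Cfsg.pResidual p G).Normal := Cfsg.Agent.Lib.Transfer.Basic.pResidual_normal p G
  set Jt := (S : Subgroup G) ⊓ centralizer ((ZZ (S : Subgroup G) : Subgroup G) : Set G) with hJt
  set L := normalClosure (Jt : Set G) with hL
  have hJJt : JJ (S : Subgroup G) ≤ Jt := by
    intro j hj
    refine Subgroup.mem_inf.2 ⟨JJ_le _ hj, ?_⟩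
    rw [mem_centralizer_iff]
    intro z hz
    exact (mem_centralizer_iff.1 (Subgroup.mem_inf.1 hz).2 j hj).symm
  have hcomm : ∀ r ∈ Cfsg.pCore p G, r ∈ L → r ∈ Jt := by
    intro r hrR hrL
    refine Subgroup.mem_inf.2 ⟨pCore_le_sylow S hrR, ?_⟩
    rw [mem_centralizer_iff]
    intro z hz
    obtain ⟨v, hv, hξ, hfix⟩ := exists_fix H hmove hJ hz
    set ξ := z * v with hξdef
    -- all conjugates of `ξ` lie in `Z(J(S))`
    have hconj : ∀ g : G, g * ξ * g⁻¹ ∈ ZZ (S : Subgroup G) := by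
      intro g
      have hg : g ∈ (S : Subgroup G) ⊔ Cfsg.pResidual p G := by
        rw [sylow_sup_res]; trivial
      rw [mem_sup_of_normal_right] at hg
      obtain ⟨s, hs, q, hq, rfl⟩ := hg
      have h1 : Cfsg.pResidual p G ≤ centralizer ({ξ} : Set G) := by
        rw [Cfsg.pResidual, closure_le]
        intro x hx
        rw [SetLike.mem_coe, mem_centralizer_iff]
        rintro _ rfl
        have h2 := hfix x hx
        calc ξ * x = (x * ξ * x⁻¹) * x := by rw [h2]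
          _ = x * ξ := by group
      have h2 : ξ * q = q * ξ := mem_centralizer_iff.1 (h1 hq) ξ rfl
      have h3 : (s * q) * ξ * (s * q)⁻¹ = s * ξ * s⁻¹ := by
        calc (s * q) * ξ * (s * q)⁻¹ = s * (q * ξ) * q⁻¹ * s⁻¹ := by group
          _ = s * (ξ * q) * q⁻¹ * s⁻¹ := by rw [h2]
          _ = _ := by group
      rw [h3]
      exact normalizer_ZZ (Subgroup.le_normalizer hs) hξ
    -- `L` centralizes `ξ`
    have hLξ : L ≤ centralizer ({ξ} : Set G) := by
      rw [hL, normalClosure, closure_le]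
      intro y hy
      obtain ⟨j, hj, hc⟩ := Group.mem_conjugatesOfSet_iff.1 hy
      obtain ⟨c, rfl⟩ := isConj_iff.1 hc
      rw [SetLike.mem_coe, mem_centralizer_iff]
      rintro _ rfl
      have h1 := hconj c⁻¹
      rw [inv_inv] at h1
      have h2 : (c⁻¹ * ξ * c) * j = j * (c⁻¹ * ξ * c) :=
        mem_centralizer_iff.1 (Subgroup.mem_inf.1 hj).2 _ h1
      calc ξ * (c * j * c⁻¹) = c * ((c⁻¹ * ξ * c) * j) * c⁻¹ := by group
        _ = c * (j * (c⁻¹ * ξ * c)) * c⁻¹ := by rw [h2]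
        _ = _ := by group
    have h1 : r * ξ = ξ * r := (mem_centralizer_iff.1 (hLξ hrL) ξ rfl).symm
    have h2 : v * r = r * v := VV_comm H hv hrR
    have hz' : z = ξ * v⁻¹ := by rw [hξdef]; group
    have h3 : r * v⁻¹ = v⁻¹ * r := by
      calc r * v⁻¹ = v⁻¹ * (v * r) * v⁻¹ := by group
        _ = v⁻¹ * (r * v) * v⁻¹ := by rw [h2]
        _ = v⁻¹ * r := by group
    rw [hz']
    calc ξ * v⁻¹ * r = ξ * (v⁻¹ * r) := by group
      _ = ξ * (r * v⁻¹) := by rw [h3]
      _ = (ξ * r) * v⁻¹ := by group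
      _ = (r * ξ) * v⁻¹ := by rw [h1]
      _ = _ := by group
  intro s hs
  obtain ⟨hsS, hsL⟩ := Subgroup.mem_inf.1 hs
  have hs' : s ∈ JJ (S : Subgroup G) ⊔ Cfsg.pCore p G := by
    rw [sup_eq H hmove hJ]; exact hsS
  rw [mem_sup_of_normal_right] at hs'
  obtain ⟨j, hj, r, hr, rfl⟩ := hs'
  have hjJt := hJJt hj
  have hjL : j ∈ L := subset_normalClosure hjJt
  have hrL : r ∈ L := by
    have := mul_mem (inv_mem hjL) hsL
    simpa using this
  exact mul_mem hjJt (hcomm r hr hrL)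

end Main

/-- The full statement. -/
theorem main_sylow {S : Sylow p G} {M : Subgroup G} (H : Hyp S M) (hZ : ¬ (CS (S : Subgroup G)).Normal) :
    ∃ P : Sylow p ↥(normalClosure (((S : Subgroup G) ⊓
        centralizer ((ZZ (S : Subgroup G) : Subgroup G) : Set G) : Subgroup G) : Set G)),
      (P : Subgroup ↥(normalClosure (((S : Subgroup G) ⊓
        centralizer ((ZZ (S : Subgroup G) : Subgroup G) : Set G) : Subgroup G) : Set G))) =
      ((S : Subgroup G) ⊓ centralizer ((ZZ (S : Subgroup G) : Subgroup G) : Set G)).subgroupOf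
        (normalClosure (((S : Subgroup G) ⊓
        centralizer ((ZZ (S : Subgroup G) : Subgroup G) : Set G) : Subgroup G) : Set G)) := by
  set Jt := (S : Subgroup G) ⊓ centralizer ((ZZ (S : Subgroup G) : Subgroup G) : Set G) with hJt
  set L := normalClosure (Jt : Set G) with hL
  haveI hLn : L.Normal := normalClosure_normal
  have hle : (S : Subgroup G) ⊓ L ≤ Jt := by
    by_cases hJ : JJ (S : Subgroup G) ≤ Cfsg.pCore p G
    · haveI := ZZ_normal_of_le hJ
      by_cases hsup : centralizer ((ZZ (S : Subgroup G) : Subgroup G) : Set G) ⊔ (S : Subgroup G) = ⊤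
      · exfalso
        apply hZ
        exact normal_of_central fun u hu g => central_of_sup_top hsup hu (center_le_ZZ _ hu) g
      · haveI hn : Jt.Normal := H.inf_normal _ hsup
        have h1 : L ≤ Jt := normalClosure_le_normal (le_refl _)
        exact inf_le_right.trans h1
    · exact sylow_ff H (exists_move H hZ) hJ
  obtain ⟨Q, hQ⟩ := Cfsg.Agent.Lib.Basic.SylowUtil.exists_sylow_inf_normal S L
  have hge : Jt ≤ (S : Subgroup G) ⊓ L :=
    le_inf inf_le_left (fun j hj => subset_normalClosure hj)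
  have heq : (S : Subgroup G) ⊓ L = Jt := le_antisymm hle hge
  refine ⟨Q, ?_⟩
  rw [heq] at hQ
  rw [← hQ]
  exact (Subgroup.comap_map_eq_self_of_injective L.subtype_injective _).symm

end Cfsg.Agent.Lib.PushUp.SylowPart
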